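import Cfsg.Agent.Helper26.FusionSat2
import Cfsg.Agent.Helper26.FusionIso
import Mathlib.GroupTheory.SpecificGroups.Dihedral
import Mathlib.GroupTheory.SpecificGroups.Quaternion
import Mathlib.FieldTheory.Finite.Basic

set_option autoImplicit false

namespace Cfsg.Agent.Helper26

open Cfsg Cfsg.FusionSystem

/-- If `G = C ∪ xC` with `C = ⟨g⟩` cyclic of `2`-power order and `Aut(G)`-invariant, then `Aut(G)` is a
`2`-group. -/
theorem isPGroup_mulAut_of_cyclic_index_two {G : Type*} [Group G] (g x : G) (k : ℕ)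
    (h1 : ∀ y : G, y ∈ Subgroup.zpowers g ∨ ∃ c ∈ Subgroup.zpowers g, y = x * c)
    (h2 : orderOf g = 2 ^ k)
    (h3 : ∀ α : MulAut G, α g ∈ Subgroup.zpowers g) : IsPGroup 2 (MulAut G) := by
  have hfix : ∀ β : MulAut G, β g = g → β x = x → β = 1 := by
    intro β hg hx
    have hC : ∀ y ∈ Subgroup.zpowers g, β y = y := by
      rintro y ⟨l, rfl⟩
      show β (g ^ l) = g ^ l
      rw [map_zpow, hg]
    ext y
    show β y = y
    rcases h1 y with hy | ⟨c, hc, rfl⟩
    · exact hC y hy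
    · rw [map_mul, hx, hC c hc]
  have hstep1 : ∀ β : MulAut G, β g = g → β ^ 2 ^ k = 1 := by
    intro β hg
    have hC : ∀ y ∈ Subgroup.zpowers g, β y = y := by
      rintro y ⟨l, rfl⟩
      show β (g ^ l) = g ^ l
      rw [map_zpow, hg]
    have hc : x⁻¹ * β x ∈ Subgroup.zpowers g := by
      rcases h1 (β x) with hy | ⟨c, hc, hxc⟩
      · have h := hC _ hy
        have h' : β x = x := β.injective h
        rw [h', inv_mul_cancel]
        exact Subgroup.one_mem _
      · rw [hxc, inv_mul_cancel_left]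
        exact hc
    have hpow : ∀ n : ℕ, (β ^ n) x = x * (x⁻¹ * β x) ^ n ∧ (β ^ n) g = g := by
      intro n
      induction n with
      | zero => simp
      | succ n ih =>
        obtain ⟨ih1, ih2⟩ := ih
        refine ⟨?_, ?_⟩
        · have e : β x = x * (x⁻¹ * β x) := by rw [mul_inv_cancel_left]
          have ht : β (x⁻¹ * β x) = x⁻¹ * β x := hC _ hc
          rw [pow_succ', MulAut.mul_apply, ih1, map_mul, map_pow, ht, pow_succ', ← mul_assoc, ← e]
        · rw [pow_succ', MulAut.mul_apply, ih2, hg]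
    apply hfix
    · exact (hpow _).2
    · rw [(hpow _).1]
      obtain ⟨l, hl⟩ := hc
      have hl' : g ^ l = x⁻¹ * β x := hl
      have h1' : (x⁻¹ * β x) ^ 2 ^ k = 1 := by
        rw [← hl', ← h2, ← zpow_natCast, ← zpow_mul, mul_comm, zpow_mul, zpow_natCast,
          pow_orderOf_eq_one, one_zpow]
      rw [h1', mul_one]
  intro α
  obtain ⟨i, hi⟩ := h3 α
  obtain ⟨i', hi'⟩ := h3 α⁻¹
  have hi : α g = g ^ i := hi.symm
  have hi' : α⁻¹ g = g ^ i' := hi'.symm
  have hii : g ^ (i * i') = g ^ (1 : ℤ) := by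
    have h := MulAut.apply_inv_self _ α g
    rw [hi', map_zpow, hi, ← zpow_mul] at h
    rw [zpow_one]
    exact h
  have hmod : i * i' ≡ 1 [ZMOD ((2 ^ k : ℕ) : ℤ)] := by
    rw [← h2]
    exact zpow_eq_zpow_iff_modEq.1 hii
  have hz : (i : ZMod (2 ^ k)) * (i' : ZMod (2 ^ k)) = 1 := by
    have h := (ZMod.intCast_eq_intCast_iff (i * i') 1 (2 ^ k)).2 hmod
    push_cast at h
    exact h
  obtain ⟨a, ha⟩ : ∃ a, Nat.totient (2 ^ k) = 2 ^ a := by
    rcases Nat.eq_zero_or_pos k with rfl | hk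
    · exact ⟨0, by simp⟩
    · exact ⟨k - 1, by rw [Nat.totient_prime_pow Nat.prime_two hk]; simp⟩
  have hu : (i : ZMod (2 ^ k)) ^ (2 ^ a) = 1 := by
    have h := congrArg Units.val (ZMod.pow_totient
      (Units.mkOfMulEqOne (i : ZMod (2 ^ k)) (i' : ZMod (2 ^ k)) hz))
    rw [ha, Units.val_pow_eq_pow_val, Units.val_one] at h
    exact h
  have hmod2 : i ^ (2 ^ a) ≡ 1 [ZMOD ((2 ^ k : ℕ) : ℤ)] := by
    apply (ZMod.intCast_eq_intCast_iff _ _ _).1
    push_cast
    exact hu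
  have hpow : ∀ n : ℕ, (α ^ n) g = g ^ (i ^ n) := by
    intro n
    induction n with
    | zero => simp
    | succ n ih =>
      rw [pow_succ', pow_succ', MulAut.mul_apply, ih, map_zpow, hi, ← zpow_mul]
  have hβ : (α ^ (2 ^ a)) g = g := by
    rw [hpow]
    have hmod3 : i ^ (2 ^ a) ≡ 1 [ZMOD ((orderOf g : ℕ) : ℤ)] := by rw [h2]; exact hmod2
    rw [zpow_eq_zpow_iff_modEq.2 hmod3, zpow_one]
  exact ⟨a + k, by rw [pow_add, pow_mul]; exact hstep1 _ hβ⟩

theorem isPGroup_mulAut_dihedral (k : ℕ) (hk : 2 ≤ k) :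
    IsPGroup 2 (MulAut (DihedralGroup (2 ^ k))) := by
  have hne : NeZero (2 ^ k) := ⟨by positivity⟩
  have hr : ∀ i : ZMod (2 ^ k), DihedralGroup.r i ∈ Subgroup.zpowers (DihedralGroup.r (1 : ZMod (2 ^ k))) := by
    intro i
    refine ⟨((i.val : ℕ) : ℤ), ?_⟩
    show DihedralGroup.r (1 : ZMod (2 ^ k)) ^ ((i.val : ℕ) : ℤ) = DihedralGroup.r i
    rw [zpow_natCast, DihedralGroup.r_one_pow, ZMod.natCast_zmod_val]
  apply isPGroup_mulAut_of_cyclic_index_two (DihedralGroup.r 1) (DihedralGroup.sr 0) k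
  · intro y
    cases y with
    | r i => exact Or.inl (hr i)
    | sr i =>
      refine Or.inr ⟨DihedralGroup.r i, hr i, ?_⟩
      rw [DihedralGroup.sr_mul_r, zero_add]
  · exact DihedralGroup.orderOf_r_one
  · intro α
    cases h : α (DihedralGroup.r 1) with
    | r i => exact hr i
    | sr i =>
      exfalso
      have h1 : orderOf (α (DihedralGroup.r 1)) = 2 ^ k := by
        rw [MulEquiv.orderOf_eq, DihedralGroup.orderOf_r_one]
      rw [h, DihedralGroup.orderOf_sr] at h1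
      have h4 : 2 ^ 2 ≤ 2 ^ k := Nat.pow_le_pow_right (by norm_num) hk
      omega

theorem isPGroup_mulAut_quaternion (k : ℕ) (hk : 2 ≤ k) :
    IsPGroup 2 (MulAut (QuaternionGroup (2 ^ k))) := by
  have hne : NeZero (2 ^ k) := ⟨by positivity⟩
  have hne2 : NeZero (2 * 2 ^ k) := ⟨by positivity⟩
  have hr : ∀ i : ZMod (2 * 2 ^ k),
      QuaternionGroup.a i ∈ Subgroup.zpowers (QuaternionGroup.a (1 : ZMod (2 * 2 ^ k))) := by
    intro i
    refine ⟨((i.val : ℕ) : ℤ), ?_⟩
    show QuaternionGroup.a (1 : ZMod (2 * 2 ^ k)) ^ ((i.val : ℕ) : ℤ) = QuaternionGroup.a i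
    rw [zpow_natCast, QuaternionGroup.a_one_pow, ZMod.natCast_zmod_val]
  apply isPGroup_mulAut_of_cyclic_index_two (QuaternionGroup.a 1) (QuaternionGroup.xa 0) (k + 1)
  · intro y
    cases y with
    | a i => exact Or.inl (hr i)
    | xa i =>
      refine Or.inr ⟨QuaternionGroup.a i, hr i, ?_⟩
      rw [QuaternionGroup.xa_mul_a, zero_add]
  · rw [QuaternionGroup.orderOf_a_one, pow_succ, mul_comm]
  · intro α
    cases h : α (QuaternionGroup.a 1) with
    | a i => exact hr i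
    | xa i =>
      exfalso
      have h1 : orderOf (α (QuaternionGroup.a 1)) = 2 * 2 ^ k := by
        rw [MulEquiv.orderOf_eq, QuaternionGroup.orderOf_a_one]
      rw [h, QuaternionGroup.orderOf_xa] at h1
      have h4 : 2 ^ 2 ≤ 2 ^ k := Nat.pow_le_pow_right (by norm_num) hk
      omega

theorem autGroup_eq_inn_of_isPGroup_mulAut {Ω : Type*} [Group Ω] {S : Subgroup Ω} [Finite S]
    (p : ℕ) [Fact p.Prime] (hS : IsPGroup p S)
    (F : FusionSystem S) (hF : F.IsSaturated p) (hA : IsPGroup p (MulAut S)) :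
    F.autGroup S = Cfsg.Inn S := by
  obtain ⟨-, R, hR⟩ := ((saturated_iff' p hS F).mp hF).1
  have h1 : autInducedBy S S = Cfsg.Inn S := by
    apply le_antisymm
    · intro α hα
      obtain ⟨g, hg, h⟩ := mem_autInducedBy_iff.1 hα
      exact ⟨⟨g, hg⟩, MulEquiv.ext fun x => Subtype.ext (h x).symm⟩
    · rintro _ ⟨g, rfl⟩
      exact mem_autInducedBy_iff.2 ⟨g, g.2, fun x => rfl⟩
  have hRtop : (⊤ : Subgroup (F.autGroup S)) = (R : Subgroup (F.autGroup S)) :=
    R.is_maximal' ((hA.to_subgroup (F.autGroup S)).to_subgroup ⊤) le_top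
  rw [hR] at hRtop
  have hle : F.autGroup S ≤ autInducedBy S S := Subgroup.subgroupOf_eq_top.1 hRtop.symm
  have hge : autInducedBy S S ≤ F.autGroup S := autInducedBy_le_autGroup F le_rfl
  rw [h1] at hle hge
  exact le_antisymm hle hge

theorem dih_quat_autGroup {Ω : Type*} [Group Ω] {S : Subgroup Ω} [Finite S] (n : ℕ) (hn : 4 ≤ n)
    (hshape : Nonempty (S ≃* DihedralGroup (2 ^ (n - 1))) ∨
      Nonempty (S ≃* QuaternionGroup (2 ^ (n - 2))))
    (F : Cfsg.FusionSystem S) (hF : F.IsSaturated 2) : F.autGroup S = Cfsg.Inn S := by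
  have hp2 : Fact (Nat.Prime 2) := ⟨Nat.prime_two⟩
  have key : IsPGroup 2 S ∧ IsPGroup 2 (MulAut S) := by
    rcases hshape with ⟨⟨e⟩⟩ | ⟨⟨e⟩⟩
    · have hA := isPGroup_mulAut_dihedral (n - 1) (by omega)
      refine ⟨?_, hA.of_equiv (MulAut.congr e).symm⟩
      have hc : Nat.card S = 2 ^ n := by
        rw [Nat.card_congr e.toEquiv, DihedralGroup.nat_card]
        obtain ⟨m, rfl⟩ : ∃ m, n = m + 1 := ⟨n - 1, by omega⟩
        rw [Nat.add_sub_cancel, pow_succ, mul_comm]
      exact IsPGroup.of_card hc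
    · have hA := isPGroup_mulAut_quaternion (n - 2) (by omega)
      refine ⟨?_, hA.of_equiv (MulAut.congr e).symm⟩
      have hne : NeZero (2 ^ (n - 2)) := ⟨by positivity⟩
      have hc : Nat.card S = 2 ^ n := by
        rw [Nat.card_congr e.toEquiv, Nat.card_eq_fintype_card, QuaternionGroup.card]
        obtain ⟨m, rfl⟩ : ∃ m, n = m + 2 := ⟨n - 2, by omega⟩
        rw [Nat.add_sub_cancel]
        ring
      exact IsPGroup.of_card hc
  exact autGroup_eq_inn_of_isPGroup_mulAut 2 key.1 F hF key.2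

end Cfsg.Agent.Helper26
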