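import Mathlib
import Cfsg.Agent.Helper26.MetaFus

set_option autoImplicit false

namespace Cfsg.Agent.Helper26

open Cfsg Cfsg.FusionSystem
open scoped commutatorElement

variable {Ω : Type*} [Group Ω] {S : Subgroup Ω}

/-- If every element of `S` is conjugate in the system to a central element, then no element of
`S` inverts an element of order greater than two. -/
theorem ch_inv_sq [Finite S] (hS : IsPGroup 2 S) (F : FusionSystem S) (hF : F.IsSaturated 2)
    (h : ∀ x ∈ S, ∃ z ∈ S ⊓ Subgroup.centralizer (S : Set Ω), F.IsConjElt x z)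
    {x v : Ω} (hx : x ∈ S) (hv : v ∈ S) (hxv : x * v * x⁻¹ = v⁻¹) : v * v = 1 := by
  obtain ⟨z, hz, φ, hφ, hφv⟩ := h v hv
  have hzc : z ∈ Subgroup.centralizer (S : Set Ω) := (Subgroup.mem_inf.1 hz).2
  have hPc : ∀ y ∈ φ.range, y ∈ Subgroup.centralizer (S : Set Ω) := by
    rintro _ ⟨t, rfl⟩
    obtain ⟨k, hk⟩ := Subgroup.mem_zpowers_iff.1 t.2
    have ht : t = (⟨v, Subgroup.mem_zpowers v⟩ : Subgroup.zpowers v) ^ k := by
      apply Subtype.ext
      rw [Subgroup.coe_zpow]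
      exact hk.symm
    rw [ht, map_zpow, hφv]
    exact Subgroup.zpow_mem _ hzc k
  have hPS : φ.range ≤ S := by
    rintro _ ⟨t, rfl⟩
    exact (F.le_of_mem hφ).2 t
  have hfn : F.IsFullyNormalized φ.range := by
    refine fn_of_normal F hPS (fun g hg y hy => ?_)
    have h1 : g * y = y * g := Subgroup.mem_centralizer_iff.1 (hPc y hy) g hg
    have e0 : g * y * g⁻¹ = y := by rw [h1, mul_inv_cancel_right]
    rw [e0]
    exact hy
  obtain ⟨hfc, hfa⟩ := sat_fullyNormalized 2 hS F hF hfn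
  have hrec := receptive_of_fullyCentralized 2 hS F hF hfc
  have hconj : F.IsConj (Subgroup.zpowers v) φ.range := ⟨φ, hφ, rfl⟩
  obtain ⟨ρ, hρ, -, hρimg⟩ := exists_normalizer_hom 2 hS F hfa hrec hconj
  have hconjmem : ∀ g : Ω, g * v * g⁻¹ = v⁻¹ →
      ∀ t ∈ Subgroup.zpowers v, g * t * g⁻¹ ∈ Subgroup.zpowers v := by
    intro g hg t ht
    obtain ⟨k, rfl⟩ := Subgroup.mem_zpowers_iff.1 ht
    rw [← conj_zpow, hg]
    exact Subgroup.zpow_mem _ (Subgroup.inv_mem _ (Subgroup.mem_zpowers v)) k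
  have hxv' : x⁻¹ * v * x⁻¹⁻¹ = v⁻¹ := by
    have e1 : x⁻¹ * (x * v * x⁻¹) * x⁻¹⁻¹ = v := by group
    rw [hxv] at e1
    calc x⁻¹ * v * x⁻¹⁻¹ = (x⁻¹ * v⁻¹ * x⁻¹⁻¹)⁻¹ := by group
      _ = v⁻¹ := by rw [e1]
  have hxN : x ∈ normalizerIn S (Subgroup.zpowers v) := by
    refine mem_normalizerIn.2 ⟨hx, fun t => ⟨fun ht => hconjmem x hxv t ht, fun ht => ?_⟩⟩
    have h2 := hconjmem x⁻¹ hxv' _ ht
    have e0 : x⁻¹ * (x * t * x⁻¹) * x⁻¹⁻¹ = t := by group
    rwa [e0] at h2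
  have hvN : v ∈ normalizerIn S (Subgroup.zpowers v) := by
    refine mem_normalizerIn.2 ⟨hv, fun t => ⟨fun ht => ?_, fun ht => ?_⟩⟩
    · exact Subgroup.mul_mem _ (Subgroup.mul_mem _ (Subgroup.mem_zpowers v) ht)
        (Subgroup.inv_mem _ (Subgroup.mem_zpowers v))
    · have h2 := Subgroup.mul_mem _ (Subgroup.mul_mem _
        (Subgroup.inv_mem _ (Subgroup.mem_zpowers v)) ht) (Subgroup.mem_zpowers v)
      have e0 : v⁻¹ * (v * t * v⁻¹) * v = t := by group
      rwa [e0] at h2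
  have hρv : ρ ⟨v, hvN⟩ ∈ φ.range := by
    rw [← hρimg]
    exact Subgroup.mem_map.2 ⟨⟨v, hvN⟩, Subgroup.mem_subgroupOf.2 (Subgroup.mem_zpowers v), rfl⟩
  have hρxS : ρ ⟨x, hxN⟩ ∈ S := (F.le_of_mem hρ).2 _
  have hcomm : ρ ⟨x, hxN⟩ * ρ ⟨v, hvN⟩ = ρ ⟨v, hvN⟩ * ρ ⟨x, hxN⟩ :=
    Subgroup.mem_centralizer_iff.1 (hPc _ hρv) _ hρxS
  have hmul : (⟨x, hxN⟩ : normalizerIn S (Subgroup.zpowers v)) * ⟨v, hvN⟩ * (⟨x, hxN⟩)⁻¹ =
      (⟨v, hvN⟩)⁻¹ := Subtype.ext hxv
  have h3 := congrArg ρ hmul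
  rw [map_mul, map_mul, map_inv, map_inv, hcomm, mul_inv_cancel_right] at h3
  have h4 : ρ ⟨v, hvN⟩ * ρ ⟨v, hvN⟩ = 1 := by
    have h5 := mul_inv_cancel (ρ ⟨v, hvN⟩)
    rwa [← h3] at h5
  have h6 : ρ (⟨v, hvN⟩ * ⟨v, hvN⟩) = ρ 1 := by
    rw [map_mul, map_one]
    exact h4
  have h7 := congrArg Subtype.val (F.injective_of_mem hρ h6)
  exact h7

/-- A strongly closed subgroup containing the centre is everything, when every element is
conjugate to a central one. -/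
theorem ch_sc_top (F : FusionSystem S)
    (h : ∀ x ∈ S, ∃ z ∈ S ⊓ Subgroup.centralizer (S : Set Ω), F.IsConjElt x z)
    {C : Subgroup Ω} (hC : F.StronglyClosed C)
    (hZ : S ⊓ Subgroup.centralizer (S : Set Ω) ≤ C) : S ≤ C := by
  intro x hx
  obtain ⟨z, hz, φ, hφ, hφx⟩ := h x hx
  obtain ⟨ψ, hψ, hψinv⟩ := F.inv_mem hφ
  have hzC : z ∈ C := hZ hz
  have hle : φ.range ≤ C := by
    rintro _ ⟨t, rfl⟩
    obtain ⟨k, hk⟩ := Subgroup.mem_zpowers_iff.1 t.2
    have ht : t = (⟨x, Subgroup.mem_zpowers x⟩ : Subgroup.zpowers x) ^ k := by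
      apply Subtype.ext
      rw [Subgroup.coe_zpow]
      exact hk.symm
    rw [ht, map_zpow, hφx]
    exact Subgroup.zpow_mem _ hzC k
  have h1 := hC.2 φ.range hle ψ hψ
    ⟨φ ⟨x, Subgroup.mem_zpowers x⟩, ⟨⟨x, Subgroup.mem_zpowers x⟩, rfl⟩⟩
  have h2 := hψinv ⟨x, Subgroup.mem_zpowers x⟩
  rw [h2] at h1
  exact h1

/-- The centralizer in `S` of a subgroup normal in the system is strongly closed. -/
theorem ch_cent_sc (F : FusionSystem S) {W : Subgroup Ω} (hW : F.IsNormal W) :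
    F.StronglyClosed (S ⊓ Subgroup.centralizer (W : Set Ω)) := by
  refine ⟨inf_le_left, fun R hR φ hφ y => ?_⟩
  obtain ⟨ψ, hψ, hext, himg⟩ := hW.2 R φ hφ
  refine Subgroup.mem_inf.2 ⟨(F.le_of_mem hφ).2 y, ?_⟩
  rw [Subgroup.mem_centralizer_iff]
  intro w hw
  have hw' : w ∈ (W.subgroupOf (R ⊔ W)).map ψ := by
    rw [himg]
    exact hw
  obtain ⟨w', hw'W, rfl⟩ := Subgroup.mem_map.1 hw'
  have hyc : (y : Ω) ∈ Subgroup.centralizer (W : Set Ω) := (Subgroup.mem_inf.1 (hR y.2)).2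
  have h1 : (w' : Ω) * (y : Ω) = (y : Ω) * (w' : Ω) :=
    Subgroup.mem_centralizer_iff.1 hyc (w' : Ω) (Subgroup.mem_subgroupOf.1 hw'W)
  have h2 : w' * Subgroup.inclusion le_sup_left y = Subgroup.inclusion le_sup_left y * w' :=
    Subtype.ext h1
  have h3 := congrArg ψ h2
  rw [map_mul, map_mul, hext y] at h3
  exact h3

/-- Elements of `S` of order dividing `n` form a strongly closed subgroup, once they form a
subgroup. -/
theorem ch_pow_sc (F : FusionSystem S) (n : ℕ) {W : Subgroup Ω}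
    (hmem : ∀ x, x ∈ W ↔ x ∈ S ∧ x ^ n = 1) : F.StronglyClosed W := by
  refine ⟨fun x hx => ((hmem x).1 hx).1, fun R hR φ hφ y => ?_⟩
  refine (hmem _).2 ⟨(F.le_of_mem hφ).2 y, ?_⟩
  have hy := ((hmem _).1 (hR y.2)).2
  have e : y ^ n = 1 := Subtype.ext (by rw [Subgroup.coe_pow]; exact hy)
  have e2 : φ y ^ n = φ (y ^ n) := (map_pow φ y n).symm
  rw [e2, e, map_one]

/-- A three-term series. -/
def chSeries (W W' : Subgroup Ω) : ℕ → Subgroup Ω
  | 0 => ⊥
  | 1 => W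
  | _ + 2 => W'

theorem ch_central [Finite S] (hS : IsPGroup 2 S) (F : FusionSystem S) (hF : F.IsSaturated 2)
    (h : ∀ x ∈ S, ∃ z ∈ S ⊓ Subgroup.centralizer (S : Set Ω), F.IsConjElt x z) (k : ℕ) :
    ∃ W : Subgroup Ω, (∀ x, x ∈ W ↔ x ∈ S ∧ x ^ (2 ^ k) = 1) ∧
      ∀ w ∈ W, ∀ s ∈ S, s * w = w * s := by
  induction k with
  | zero =>
    refine ⟨⊥, fun x => ?_, fun w hw s _ => ?_⟩
    · rw [Subgroup.mem_bot, pow_zero, pow_one]
      constructor
      · intro hx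
        rw [hx]
        exact ⟨S.one_mem, rfl⟩
      · intro hx
        exact hx.2
    · rw [Subgroup.mem_bot] at hw
      rw [hw, mul_one, one_mul]
  | succ k ih =>
    obtain ⟨W, hWmem, hWc⟩ := ih
    have hWS : W ≤ S := fun x hx => ((hWmem x).1 hx).1
    have hsq : ∀ x ∈ S, x ^ (2 ^ (k + 1)) = 1 → x * x ∈ W := by
      intro x hx hxp
      refine (hWmem _).2 ⟨S.mul_mem hx hx, ?_⟩
      have e : x ^ (2 ^ (k + 1)) = (x * x) ^ (2 ^ k) := by
        rw [pow_succ' 2 k, pow_mul x 2 (2 ^ k), pow_two x]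
      rw [← e]
      exact hxp
    have hmul : ∀ x ∈ S, ∀ y ∈ S, x ^ (2 ^ (k + 1)) = 1 → y ^ (2 ^ (k + 1)) = 1 →
        (x * y) ^ (2 ^ (k + 1)) = 1 := by
      intro x hx y hy hxp hyp
      have hx2 := hsq x hx hxp
      have hy2 := hsq y hy hyp
      obtain ⟨u, hu⟩ : ∃ u : Ω, u = (x * x) * (y * y) := ⟨_, rfl⟩
      have huW : u ∈ W := by
        rw [hu]
        exact W.mul_mem hx2 hy2
      have huk : u ^ (2 ^ k) = 1 := ((hWmem u).1 huW).2
      have hxyS : x * y ∈ S := S.mul_mem hx hy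
      have hucomm : Commute u (x * y)⁻¹ := (hWc u huW (x * y)⁻¹ (S.inv_mem hxyS)).symm
      have hconj : x * (x * y) * x⁻¹ = u * (x * y)⁻¹ := by
        rw [hu]
        group
      have hconj2 : x * (x * y) ^ (2 ^ k) * x⁻¹ = ((x * y) ^ (2 ^ k))⁻¹ := by
        rw [← conj_pow, hconj, hucomm.mul_pow, huk, one_mul, inv_pow]
      have hv := ch_inv_sq hS F hF h hx (S.pow_mem hxyS _) hconj2
      rw [pow_succ' 2 k, two_mul, pow_add]
      exact hv
    obtain ⟨W', hW'mem⟩ : ∃ W' : Subgroup Ω, ∀ x, x ∈ W' ↔ x ∈ S ∧ x ^ (2 ^ (k + 1)) = 1 :=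
      ⟨{ carrier := {x | x ∈ S ∧ x ^ (2 ^ (k + 1)) = 1}
         mul_mem' := fun {a b} ha hb => ⟨S.mul_mem ha.1 hb.1, hmul a ha.1 b hb.1 ha.2 hb.2⟩
         one_mem' := ⟨S.one_mem, one_pow _⟩
         inv_mem' := fun {a} ha => ⟨S.inv_mem ha.1, by rw [inv_pow, ha.2, inv_one]⟩ },
       fun x => Iff.rfl⟩
    have hW'S : W' ≤ S := fun x hx => ((hW'mem x).1 hx).1
    have hWW' : W ≤ W' := by
      intro x hx
      obtain ⟨hxS, hxp⟩ := (hWmem x).1 hx
      refine (hW'mem x).2 ⟨hxS, ?_⟩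
      rw [pow_succ 2 k, pow_mul x (2 ^ k) 2, hxp, one_pow]
    have hWsc : F.StronglyClosed W := ch_pow_sc F _ hWmem
    have hW'sc : F.StronglyClosed W' := ch_pow_sc F _ hW'mem
    have hW'n : F.IsNormal W' := by
      refine normal_of_weak_series 2 hS F hF hW'sc (chSeries W W') 2 rfl rfl ?_ ?_ ?_
      · intro i
        obtain rfl | rfl | ⟨j, rfl⟩ : i = 0 ∨ i = 1 ∨ ∃ j, i = j + 2 := by
          rcases i with _ | _ | j
          · exact Or.inl rfl
          · exact Or.inr (Or.inl rfl)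
          · exact Or.inr (Or.inr ⟨j, rfl⟩)
        · show (⊥ : Subgroup Ω) ≤ W
          exact bot_le
        · show W ≤ W'
          exact hWW'
        · show W' ≤ W'
          exact le_rfl
      · intro i hi
        obtain rfl | rfl : i = 0 ∨ i = 1 := by omega
        · show F.WeaklyClosed (⊥ : Subgroup Ω)
          exact weaklyClosed_of_stronglyClosed F (stronglyClosed_bot F)
        · show F.WeaklyClosed W
          exact weaklyClosed_of_stronglyClosed F hWsc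
      · intro i hi
        obtain rfl | rfl : i = 0 ∨ i = 1 := by omega
        · show ⁅W, W'⁆ ≤ (⊥ : Subgroup Ω)
          rw [Subgroup.commutator_le]
          intro a ha b hb
          have hc : b * a = a * b := hWc a ha b (hW'S hb)
          rw [Subgroup.mem_bot, commutatorElement_def, ← hc, mul_inv_cancel_right,
            mul_inv_cancel]
        · show ⁅W', W'⁆ ≤ W
          rw [Subgroup.commutator_le]
          intro x hx y hy
          obtain ⟨hxS, hxp⟩ := (hW'mem x).1 hx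
          obtain ⟨hyS, hyp⟩ := (hW'mem y).1 hy
          have hx2 := hsq x hxS hxp
          have hy2 := hsq y hyS hyp
          have hm := hsq (x * y) (S.mul_mem hxS hyS) (hmul x hxS y hyS hxp hyp)
          have hcy : Commute y (x * x)⁻¹ := Commute.inv_right (hWc (x * x) hx2 y hyS)
          have e : ⁅x, y⁆ = x * y * (x * y) * (x * x)⁻¹ * (y * y)⁻¹ := by
            rw [commutatorElement_def]
            calc x * y * x⁻¹ * y⁻¹ = x * y * x * ((x * x)⁻¹ * y) * (y * y)⁻¹ := by group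
              _ = x * y * x * (y * (x * x)⁻¹) * (y * y)⁻¹ := by rw [hcy.eq]
              _ = x * y * (x * y) * (x * x)⁻¹ * (y * y)⁻¹ := by group
          rw [e]
          exact W.mul_mem (W.mul_mem hm (W.inv_mem hx2)) (W.inv_mem hy2)
    have hCsc := ch_cent_sc F hW'n
    have hZC : S ⊓ Subgroup.centralizer (S : Set Ω) ≤ S ⊓ Subgroup.centralizer (W' : Set Ω) := by
      intro z hz
      obtain ⟨hz1, hz2⟩ := Subgroup.mem_inf.1 hz
      refine Subgroup.mem_inf.2 ⟨hz1, ?_⟩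
      rw [Subgroup.mem_centralizer_iff]
      intro w hw
      exact Subgroup.mem_centralizer_iff.1 hz2 w (hW'S hw)
    have htop := ch_sc_top F h hCsc hZC
    refine ⟨W', hW'mem, fun w hw s hs => ?_⟩
    have hs' := (Subgroup.mem_inf.1 (htop hs)).2
    exact (Subgroup.mem_centralizer_iff.1 hs' w hw).symm

/-- The fusion-system form of the Camina–Herzog criterion. -/
theorem ch_comm [Finite S] (hS : IsPGroup 2 S) (F : FusionSystem S) (hF : F.IsSaturated 2)
    (h : ∀ x ∈ S, ∃ z ∈ S ⊓ Subgroup.centralizer (S : Set Ω), F.IsConjElt x z) :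
    ∀ a ∈ S, ∀ b ∈ S, a * b = b * a := by
  obtain ⟨n, hn⟩ := (IsPGroup.iff_card).1 hS
  obtain ⟨W, hWmem, hWc⟩ := ch_central hS F hF h n
  intro a ha b hb
  have hb' : b ∈ W := by
    refine (hWmem b).2 ⟨hb, ?_⟩
    have h1 : (⟨b, hb⟩ : S) ^ Nat.card S = 1 := pow_card_eq_one'
    rw [hn] at h1
    have h2 := congrArg Subtype.val h1
    simpa using h2
  exact hWc b hb' a ha

end Cfsg.Agent.Helper26
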