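import Cfsg.Agent.Helper26.FusionNormal4

set_option autoImplicit false

namespace Cfsg.Agent.Helper26

open Cfsg Cfsg.FusionSystem

variable {Ω : Type*} [Group Ω] {S : Subgroup Ω}

theorem autGroup_pGroup_of_focal_chain [Finite S] (p : ℕ) [Fact p.Prime] (hS : IsPGroup p S)
    (F : FusionSystem S) (R : ℕ → Subgroup Ω) (n : ℕ) (hR0 : R 0 = S)
    (hRn : ∀ i, n ≤ i → R i = ⊥)
    (hstep : ∀ i, ∀ x ∈ R i, ∀ φ ∈ F.Hom (Subgroup.zpowers x),
      x⁻¹ * φ ⟨x, Subgroup.mem_zpowers x⟩ ∈ R (i + 1))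
    {P : Subgroup Ω} (hPS : P ≤ S) : IsPGroup p (F.autGroup P) := by
  have hPfin : Finite P := finite_of_le hPS
  rintro ⟨α, hα⟩
  have hαF := (mem_autGroup_iff F hPS).1 hα
  obtain ⟨D, hD⟩ : ∃ D : ℕ → Subgroup P, ∀ j (x : P), x ∈ D j ↔ ∀ i, i ≤ j → (x : Ω) ∈ R i :=
    ⟨fun j => (⨅ (i : ℕ) (_ : i ≤ j), R i).subgroupOf P, fun j x => by
      simp [Subgroup.mem_subgroupOf, Subgroup.mem_iInf]⟩
  have hanti : ∀ j, D (j + 1) ≤ D j := by
    intro j x hx
    rw [hD] at hx ⊢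
    intro i hi
    exact hx i (by omega)
  have h0 : D 0 = ⊤ := by
    ext x
    rw [hD]
    simp only [Subgroup.mem_top, iff_true]
    intro i hi
    have e : i = 0 := by omega
    rw [e, hR0]; exact hPS x.2
  have hstab : StabChain D α := by
    intro j x hx
    rw [hD] at hx ⊢
    intro i hi
    cases i with
    | zero =>
      rw [hR0]
      exact hPS (x⁻¹ * α x).2
    | succ i =>
      have hxi := hx i (by omega)
      have hle : Subgroup.zpowers (x : Ω) ≤ P := (Subgroup.zpowers_le).2 x.2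
      have hφ : (P.subtype.comp α.toMonoidHom).comp (Subgroup.inclusion hle) ∈
          F.Hom (Subgroup.zpowers (x : Ω)) := restrict_mem F hαF hle (fun _ => rfl)
      exact hstep i (x : Ω) hxi _ hφ
  have hbase : ∃ k, ∀ x ∈ D n, (α ^ p ^ k) x = x := by
    refine ⟨0, fun x hx => ?_⟩
    have h1 := (hD n x).1 hx n le_rfl
    rw [hRn n le_rfl, Subgroup.mem_bot] at h1
    have hx1 : x = 1 := Subtype.ext h1
    rw [hx1, map_one]
  obtain ⟨k, hk⟩ := stab_pow_eq_one (hS.to_le hPS) α D hanti h0 n hbase hstab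
  exact ⟨k, Subtype.ext hk⟩

theorem inner_of_focal_chain [Finite S] (p : ℕ) [Fact p.Prime] (hS : IsPGroup p S)
    (F : FusionSystem S) (hF : F.IsSaturated p) (n : ℕ) (Q : Fin (n + 1) → Subgroup Ω)
    (hQ0 : Q 0 = S) (hQn : Q (Fin.last n) = ⊥)
    (hstep : ∀ i : Fin n, Subgroup.closure {y : Ω | ∃ x ∈ Q i.castSucc,
      ∃ φ ∈ F.Hom (Subgroup.zpowers x), y = x⁻¹ * φ ⟨x, Subgroup.mem_zpowers x⟩} ≤ Q i.succ) :
    ∀ P : Subgroup Ω, F.Hom P = (Cfsg.innerFusionSystem S).Hom P := by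
  have hlt : ∀ i : ℕ, min i n < n + 1 := fun i => Nat.lt_succ_of_le (Nat.min_le_right i n)
  have key : F = innerFusionSystem S := by
    apply eq_inner_of_pGroups p hS F hF
    intro P hPS
    apply autGroup_pGroup_of_focal_chain p hS F (fun i => Q ⟨min i n, hlt i⟩) n ?_ ?_ ?_ hPS
    · show Q ⟨min 0 n, hlt 0⟩ = S
      have e : (⟨min 0 n, hlt 0⟩ : Fin (n + 1)) = 0 := Fin.ext (Nat.zero_min n)
      rw [e, hQ0]
    · intro i hi
      show Q ⟨min i n, hlt i⟩ = ⊥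
      have e : (⟨min i n, hlt i⟩ : Fin (n + 1)) = Fin.last n := Fin.ext (Nat.min_eq_right hi)
      rw [e, hQn]
    · intro i x hx φ hφ
      show x⁻¹ * φ ⟨x, Subgroup.mem_zpowers x⟩ ∈ Q ⟨min (i + 1) n, hlt (i + 1)⟩
      have hx' : x ∈ Q ⟨min i n, hlt i⟩ := hx
      by_cases hi : i < n
      · have e1 : (⟨min i n, hlt i⟩ : Fin (n + 1)) = Fin.castSucc ⟨i, hi⟩ :=
          Fin.ext (Nat.min_eq_left hi.le)
        have e2 : (⟨min (i + 1) n, hlt (i + 1)⟩ : Fin (n + 1)) = Fin.succ ⟨i, hi⟩ :=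
          Fin.ext (Nat.min_eq_left hi)
        rw [e1] at hx'
        rw [e2]
        exact hstep ⟨i, hi⟩ (Subgroup.subset_closure ⟨x, hx', φ, hφ, rfl⟩)
      · have e1 : (⟨min i n, hlt i⟩ : Fin (n + 1)) = Fin.last n :=
          Fin.ext (Nat.min_eq_right (not_lt.1 hi))
        rw [e1, hQn, Subgroup.mem_bot] at hx'
        subst hx'
        have e3 : φ ⟨1, Subgroup.mem_zpowers 1⟩ = 1 := map_one φ
        rw [e3]; simp
  intro P
  rw [key]

end Cfsg.Agent.Helper26
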