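import Cfsg.Agent.Helper26.FusionBasic
import Cfsg.Prelude.Def_FusionComponents

set_option autoImplicit false

namespace Cfsg.Agent.Helper26

open Cfsg Cfsg.FusionSystem

variable {Ω₁ Ω₂ : Type*} [Group Ω₁] [Group Ω₂] {S₁ : Subgroup Ω₁} {S₂ : Subgroup Ω₂}

def prodHomSet (F₁ : FusionSystem S₁) (F₂ : FusionSystem S₂) (P : Subgroup (Ω₁ × Ω₂)) :
    Set (P →* Ω₁ × Ω₂) :=
  {φ | P ≤ S₁.prod S₂ ∧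
      ∃ φ₁ ∈ F₁.Hom (P.map (MonoidHom.fst Ω₁ Ω₂)), ∃ φ₂ ∈ F₂.Hom (P.map (MonoidHom.snd Ω₁ Ω₂)),
        ∀ (x : P) (h₁ : (x : Ω₁ × Ω₂).1 ∈ P.map (MonoidHom.fst Ω₁ Ω₂))
          (h₂ : (x : Ω₁ × Ω₂).2 ∈ P.map (MonoidHom.snd Ω₁ Ω₂)),
          φ x = (φ₁ ⟨(x : Ω₁ × Ω₂).1, h₁⟩, φ₂ ⟨(x : Ω₁ × Ω₂).2, h₂⟩)}

theorem fst_mem_map (P : Subgroup (Ω₁ × Ω₂)) (x : P) :
    (x : Ω₁ × Ω₂).1 ∈ P.map (MonoidHom.fst Ω₁ Ω₂) := ⟨x, x.2, rfl⟩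

theorem snd_mem_map (P : Subgroup (Ω₁ × Ω₂)) (x : P) :
    (x : Ω₁ × Ω₂).2 ∈ P.map (MonoidHom.snd Ω₁ Ω₂) := ⟨x, x.2, rfl⟩

def prodSystem (F₁ : FusionSystem S₁) (F₂ : FusionSystem S₂) : FusionSystem (S₁.prod S₂) where
  Hom := prodHomSet F₁ F₂
  le_of_mem := by
    rintro P φ ⟨hP, φ₁, hφ₁, φ₂, hφ₂, h⟩
    refine ⟨hP, fun x => ?_⟩
    rw [h x (fst_mem_map P x) (snd_mem_map P x)]
    exact Subgroup.mem_prod.2 ⟨(F₁.le_of_mem hφ₁).2 _, (F₂.le_of_mem hφ₂).2 _⟩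
  injective_of_mem := by
    rintro P φ ⟨hP, φ₁, hφ₁, φ₂, hφ₂, h⟩ a b hab
    rw [h a (fst_mem_map P a) (snd_mem_map P a), h b (fst_mem_map P b) (snd_mem_map P b)] at hab
    have h1 := F₁.injective_of_mem hφ₁ (congrArg Prod.fst hab)
    have h2 := F₂.injective_of_mem hφ₂ (congrArg Prod.snd hab)
    exact Subtype.ext (Prod.ext (congrArg Subtype.val h1) (congrArg Subtype.val h2))
  conj_mem := by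
    intro P g hP hg
    have hg' := Subgroup.mem_prod.1 hg
    have hP₁ : P.map (MonoidHom.fst Ω₁ Ω₂) ≤ S₁ := by
      rintro _ ⟨x, hx, rfl⟩; exact (Subgroup.mem_prod.1 (hP hx)).1
    have hP₂ : P.map (MonoidHom.snd Ω₁ Ω₂) ≤ S₂ := by
      rintro _ ⟨x, hx, rfl⟩; exact (Subgroup.mem_prod.1 (hP hx)).2
    exact ⟨hP, conjHom _ g.1, F₁.conj_mem hP₁ hg'.1, conjHom _ g.2, F₂.conj_mem hP₂ hg'.2,
      fun x h₁ h₂ => rfl⟩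
  comp_mem := by
    rintro P Q φ ψ ⟨hP, φ₁, hφ₁, φ₂, hφ₂, hφ⟩ ⟨hQ, ψ₁, hψ₁, ψ₂, hψ₂, hψ⟩ h
    have h1 : ∀ x : P.map (MonoidHom.fst Ω₁ Ω₂), φ₁ x ∈ Q.map (MonoidHom.fst Ω₁ Ω₂) := by
      rintro ⟨_, x, hx, rfl⟩
      refine ⟨φ ⟨x, hx⟩, h ⟨x, hx⟩, ?_⟩
      rw [hφ ⟨x, hx⟩ (fst_mem_map P ⟨x, hx⟩) (snd_mem_map P ⟨x, hx⟩)]
      rfl
    have h2 : ∀ x : P.map (MonoidHom.snd Ω₁ Ω₂), φ₂ x ∈ Q.map (MonoidHom.snd Ω₁ Ω₂) := by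
      rintro ⟨_, x, hx, rfl⟩
      refine ⟨φ ⟨x, hx⟩, h ⟨x, hx⟩, ?_⟩
      rw [hφ ⟨x, hx⟩ (fst_mem_map P ⟨x, hx⟩) (snd_mem_map P ⟨x, hx⟩)]
      rfl
    refine ⟨hP, ψ₁.comp (φ₁.codRestrict _ h1), F₁.comp_mem hφ₁ hψ₁ h1,
      ψ₂.comp (φ₂.codRestrict _ h2), F₂.comp_mem hφ₂ hψ₂ h2, fun x k₁ k₂ => ?_⟩
    have e := hφ x k₁ k₂
    have e2 := hψ (φ.codRestrict Q h x) (fst_mem_map Q _) (snd_mem_map Q _)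
    show ψ (φ.codRestrict Q h x) = (ψ₁ (φ₁.codRestrict _ h1 ⟨_, k₁⟩),
      ψ₂ (φ₂.codRestrict _ h2 ⟨_, k₂⟩))
    rw [e2]
    have a1 : (⟨((φ.codRestrict Q h x : Q) : Ω₁ × Ω₂).1, fst_mem_map Q _⟩ :
        Q.map (MonoidHom.fst Ω₁ Ω₂)) = φ₁.codRestrict _ h1 ⟨_, k₁⟩ := by
      apply Subtype.ext
      show (φ x).1 = φ₁ ⟨_, k₁⟩
      rw [e]
    have a2 : (⟨((φ.codRestrict Q h x : Q) : Ω₁ × Ω₂).2, snd_mem_map Q _⟩ :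
        Q.map (MonoidHom.snd Ω₁ Ω₂)) = φ₂.codRestrict _ h2 ⟨_, k₂⟩ := by
      apply Subtype.ext
      show (φ x).2 = φ₂ ⟨_, k₂⟩
      rw [e]
    rw [a1, a2]
  inv_mem := by
    rintro P φ ⟨hP, φ₁, hφ₁, φ₂, hφ₂, hφ⟩
    obtain ⟨ψ₁, hψ₁, hinv₁⟩ := F₁.inv_mem hφ₁
    obtain ⟨ψ₂, hψ₂, hinv₂⟩ := F₂.inv_mem hφ₂
    have hle₁ : φ.range.map (MonoidHom.fst Ω₁ Ω₂) ≤ φ₁.range := by
      rintro _ ⟨_, ⟨x, rfl⟩, rfl⟩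
      refine ⟨⟨_, fst_mem_map P x⟩, ?_⟩
      rw [hφ x (fst_mem_map P x) (snd_mem_map P x)]
      rfl
    have hle₂ : φ.range.map (MonoidHom.snd Ω₁ Ω₂) ≤ φ₂.range := by
      rintro _ ⟨_, ⟨x, rfl⟩, rfl⟩
      refine ⟨⟨_, snd_mem_map P x⟩, ?_⟩
      rw [hφ x (fst_mem_map P x) (snd_mem_map P x)]
      rfl
    refine ⟨MonoidHom.prod
      ((ψ₁.comp (Subgroup.inclusion hle₁)).comp ((MonoidHom.fst Ω₁ Ω₂).subgroupMap φ.range))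
      ((ψ₂.comp (Subgroup.inclusion hle₂)).comp ((MonoidHom.snd Ω₁ Ω₂).subgroupMap φ.range)),
      ⟨?_, ψ₁.comp (Subgroup.inclusion hle₁), restrict_mem F₁ hψ₁ hle₁ (fun _ => rfl),
        ψ₂.comp (Subgroup.inclusion hle₂), restrict_mem F₂ hψ₂ hle₂ (fun _ => rfl),
        fun x k₁ k₂ => rfl⟩, fun x => ?_⟩
    · rintro _ ⟨x, rfl⟩
      rw [hφ x (fst_mem_map P x) (snd_mem_map P x)]
      exact Subgroup.mem_prod.2 ⟨(F₁.le_of_mem hφ₁).2 _, (F₂.le_of_mem hφ₂).2 _⟩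
    · have e := hφ x (fst_mem_map P x) (snd_mem_map P x)
      apply Prod.ext
      · have h3 : ψ₁ ⟨φ₁ ⟨_, fst_mem_map P x⟩, ⟨_, rfl⟩⟩ = (x : Ω₁ × Ω₂).1 :=
          hinv₁ ⟨_, fst_mem_map P x⟩
        show ψ₁ (Subgroup.inclusion hle₁ ⟨(φ x).1, _⟩) = (x : Ω₁ × Ω₂).1
        refine Eq.trans ?_ h3
        congr 1
        apply Subtype.ext
        show (φ x).1 = φ₁ ⟨_, fst_mem_map P x⟩
        rw [e]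
      · have h3 : ψ₂ ⟨φ₂ ⟨_, snd_mem_map P x⟩, ⟨_, rfl⟩⟩ = (x : Ω₁ × Ω₂).2 :=
          hinv₂ ⟨_, snd_mem_map P x⟩
        show ψ₂ (Subgroup.inclusion hle₂ ⟨(φ x).2, _⟩) = (x : Ω₁ × Ω₂).2
        refine Eq.trans ?_ h3
        congr 1
        apply Subtype.ext
        show (φ x).2 = φ₂ ⟨_, snd_mem_map P x⟩
        rw [e]

theorem prodSystem_isProductSystem (F₁ : FusionSystem S₁) (F₂ : FusionSystem S₂) :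
    FusionSystem.IsProductSystem F₁ F₂ (prodSystem F₁ F₂) := fun _ _ => Iff.rfl

end Cfsg.Agent.Helper26
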