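import Cfsg.Agent.Helper26.FusionSolvable

set_option autoImplicit false

namespace Cfsg.Agent.Helper26

open Cfsg Cfsg.FusionSystem
open scoped commutatorElement

variable {Ω : Type*} [Group Ω] {S : Subgroup Ω} {Ω' : Type*} [Group Ω']

theorem commutator_self_le (A : Subgroup Ω) : ⁅A, A⁆ ≤ A := by
  rw [Subgroup.commutator_le]
  intro a ha b hb
  exact A.mul_mem (A.mul_mem (A.mul_mem ha hb) (A.inv_mem ha)) (A.inv_mem hb)

theorem stronglyClosed_self (F : FusionSystem S) : F.StronglyClosed S :=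
  ⟨le_rfl, fun _ _ _ hφ x => (F.le_of_mem hφ).2 x⟩

/-- Chains of strongly closed subgroups with abelian quotients, starting at `A`. -/
inductive AbChain (F : FusionSystem S) (A : Subgroup Ω) : Subgroup Ω → Prop
  | refl : F.StronglyClosed A → AbChain F A A
  | step {B C : Subgroup Ω} : AbChain F A B → F.StronglyClosed C → B ≤ C → ⁅C, C⁆ ≤ B →
      AbChain F A C

theorem AbChain.trans {F : FusionSystem S} {A B C : Subgroup Ω} (h₁ : AbChain F A B)
    (h₂ : AbChain F B C) : AbChain F A C := by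
  induction h₂ with
  | refl _ => exact h₁
  | step _ hC hle hcomm ih => exact AbChain.step ih hC hle hcomm

theorem AbChain.exists_link {F : FusionSystem S} {A B : Subgroup Ω} (h : AbChain F A B)
    (R : Subgroup Ω) (hA : A ≤ R) (hB : ¬ B ≤ R) :
    ∃ X Y : Subgroup Ω, F.StronglyClosed Y ∧ X ≤ R ∧ ¬ Y ≤ R ∧ ⁅Y, Y⁆ ≤ X := by
  induction h with
  | refl _ => exact absurd hA hB
  | @step B C hAB hC hle hcomm ih =>
    by_cases hBR : B ≤ R
    · exact ⟨B, C, hC, hBR, hB, hcomm⟩
    · exact ih hBR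

theorem factor_core_ne_bot [Finite S] (p : ℕ) [Fact p.Prime] (hS : IsPGroup p S)
    (F : FusionSystem S) (hF : F.IsSaturated p) {R X Y : Subgroup Ω} (hR : F.StronglyClosed R)
    [(R.subgroupOf S).Normal] (hY : F.StronglyClosed Y) (hXR : X ≤ R) (hYR : ¬ Y ≤ R)
    (hcomm : ⁅Y, Y⁆ ≤ X) (E : FusionSystem (⊤ : Subgroup (S ⧸ R.subgroupOf S)))
    (hE : F.IsFactorSystem R (QuotientGroup.mk' (R.subgroupOf S)) E) : E.core ≠ ⊥ := by
  have hsurj := factor_surjective_morphism p hS F hF R hR _ E hE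
  have hEsat : E.IsSaturated p := surjective_morphism_saturated p hS F hF E _ hsurj
  have hS' : IsPGroup p (⊤ : Subgroup (S ⧸ R.subgroupOf S)) :=
    (hS.to_quotient _).to_subgroup ⊤
  rw [core_ne_bot_iff p hS' E hEsat]
  refine ⟨imageAlong (QuotientGroup.mk' (R.subgroupOf S)) Y, ?_, ?_,
    image_stronglyClosed F _ E hE hY⟩
  · intro hbot
    apply hYR
    intro t ht
    have htS : t ∈ S := hY.1 ht
    have h1 : QuotientGroup.mk' (R.subgroupOf S) ⟨t, htS⟩ ∈
        imageAlong (QuotientGroup.mk' (R.subgroupOf S)) Y :=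
      mem_imageAlong _ htS ht
    rw [hbot, Subgroup.mem_bot] at h1
    exact (hE.2.1 ⟨t, htS⟩).1 h1
  · refine ⟨⟨?_⟩⟩
    rintro ⟨_, a, ha, rfl⟩ ⟨_, b, hb, rfl⟩
    apply Subtype.ext
    show QuotientGroup.mk' (R.subgroupOf S) a * QuotientGroup.mk' (R.subgroupOf S) b =
      QuotientGroup.mk' (R.subgroupOf S) b * QuotientGroup.mk' (R.subgroupOf S) a
    have hc : ⁅(a : Ω), (b : Ω)⁆ ∈ R :=
      hXR (hcomm (Subgroup.commutator_mem_commutator (Subgroup.mem_subgroupOf.1 ha)
        (Subgroup.mem_subgroupOf.1 hb)))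
    have h1 : QuotientGroup.mk' (R.subgroupOf S) ⁅a, b⁆ = 1 := (hE.2.1 _).2 hc
    rw [map_commutatorElement, commutatorElement_eq_one_iff_mul_comm] at h1
    exact h1

theorem solvable_of_abChain [Finite S] (p : ℕ) [Fact p.Prime] (hS : IsPGroup p S)
    (F : FusionSystem S) (hF : F.IsSaturated p) (hc : AbChain F ⊥ S) : F.IsSolvableSystem := by
  intro R hR hRS hn E hE
  obtain ⟨X, Y, hY, hXR, hYR, hcomm⟩ := hc.exists_link R bot_le
    (fun hle => hRS (le_antisymm hR.1 hle))
  exact factor_core_ne_bot p hS F hF hR hY hXR hYR hcomm E hE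

/-- The smallest strongly closed subgroup containing the commutator subgroup of `A`. -/
def derClosure {T : Subgroup Ω} (E : FusionSystem T) (A : Subgroup Ω) : Subgroup Ω :=
  sInf {R | E.StronglyClosed R ∧ ⁅A, A⁆ ≤ R}

theorem derClosure_stronglyClosed {T : Subgroup Ω} (E : FusionSystem T) {A : Subgroup Ω}
    (hA : A ≤ T) : E.StronglyClosed (derClosure E A) := by
  have hT : E.StronglyClosed T ∧ ⁅A, A⁆ ≤ T :=
    ⟨stronglyClosed_self E, (Subgroup.commutator_mono hA hA).trans (commutator_self_le T)⟩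
  refine ⟨sInf_le hT, fun R' hR' φ hφ x => ?_⟩
  refine Subgroup.mem_sInf.2 (fun R hR => ?_)
  have hR2 : E.StronglyClosed R ∧ ⁅A, A⁆ ≤ R := hR
  exact hR2.1.2 R' (hR'.trans (sInf_le hR)) φ hφ x

theorem commutator_le_derClosure {T : Subgroup Ω} (E : FusionSystem T) (A : Subgroup Ω) :
    ⁅A, A⁆ ≤ derClosure E A :=
  le_sInf (fun R hR => (show E.StronglyClosed R ∧ ⁅A, A⁆ ≤ R from hR).2)

theorem derClosure_le {T : Subgroup Ω} (E : FusionSystem T) {A : Subgroup Ω}
    (hA : E.StronglyClosed A) : derClosure E A ≤ A := by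
  have h : E.StronglyClosed A ∧ ⁅A, A⁆ ≤ A := ⟨hA, commutator_self_le A⟩
  exact sInf_le h

theorem derClosure_le_of {T : Subgroup Ω} (E : FusionSystem T) {A X : Subgroup Ω}
    (hX : E.StronglyClosed X) (hAX : ⁅A, A⁆ ≤ X) : derClosure E A ≤ X := by
  have h : E.StronglyClosed X ∧ ⁅A, A⁆ ≤ X := ⟨hX, hAX⟩
  exact sInf_le h

theorem derClosure_mono {T : Subgroup Ω} (E : FusionSystem T) {A B : Subgroup Ω} (h : A ≤ B) :
    derClosure E A ≤ derClosure E B := by
  refine le_sInf (fun R hR => ?_)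
  have hR2 : E.StronglyClosed R ∧ ⁅B, B⁆ ≤ R := hR
  exact derClosure_le_of E hR2.1 ((Subgroup.commutator_mono h h).trans hR2.2)

theorem derClosure_invariant {T : Subgroup Ω} (E : FusionSystem T) (F : FusionSystem S)
    (hinv : E.IsInvariantIn F) {A : Subgroup Ω} (hA : A ≤ T) {α : MulAut T}
    (hα : α ∈ F.autGroup T) (hαA : ∀ x : T, (x : Ω) ∈ A → ((α x : T) : Ω) ∈ A) (x : T)
    (hx : (x : Ω) ∈ derClosure E A) : ((α x : T) : Ω) ∈ derClosure E A := by
  refine Subgroup.mem_sInf.2 (fun R hR => ?_)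
  have hR2 : E.StronglyClosed R ∧ ⁅A, A⁆ ≤ R := hR
  obtain ⟨hRsc, hAR⟩ := hR2
  have hR' : derClosure E A ≤ ((R.subgroupOf T).comap α.toMonoidHom).map T.subtype := by
    apply derClosure_le_of E
    · refine ⟨Subgroup.map_subtype_le _, fun P hP φ hφ y => ?_⟩
      have hPT : P ≤ T := hP.trans (Subgroup.map_subtype_le _)
      obtain ⟨χ, hχ, hχeq⟩ := hinv.2.2.1 P hPT φ hφ α hα
      have hφy : φ y ∈ T := (E.le_of_mem hφ).2 y
      have hαy : ((α ⟨y, hPT y.2⟩ : T) : Ω) ∈
          (P.subgroupOf T).map (T.subtype.comp α.toMonoidHom) :=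
        ⟨⟨y, hPT y.2⟩, Subgroup.mem_subgroupOf.2 y.2, rfl⟩
      have hle : (P.subgroupOf T).map (T.subtype.comp α.toMonoidHom) ≤ R := by
        rintro _ ⟨t, ht, rfl⟩
        obtain ⟨t', ht', htt'⟩ := hP (Subgroup.mem_subgroupOf.1 ht)
        have e : t' = t := Subtype.ext htt'
        subst e
        exact ht'
      have h1 := hRsc.2 _ hle χ hχ ⟨_, hαy⟩
      rw [hχeq y hφy hαy] at h1
      exact ⟨⟨φ y, hφy⟩, h1, rfl⟩
    · rw [Subgroup.commutator_le]
      intro a ha b hb
      have haT := hA ha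
      have hbT := hA hb
      refine ⟨⁅(⟨a, haT⟩ : T), ⟨b, hbT⟩⁆, ?_, rfl⟩
      show ((α ⁅(⟨a, haT⟩ : T), ⟨b, hbT⟩⁆ : T) : Ω) ∈ R
      rw [map_commutatorElement]
      have h2 : ⁅((α ⟨a, haT⟩ : T) : Ω), ((α ⟨b, hbT⟩ : T) : Ω)⁆ ∈ R :=
        hAR (Subgroup.commutator_mem_commutator (hαA ⟨a, haT⟩ ha) (hαA ⟨b, hbT⟩ hb))
      exact h2
  obtain ⟨t, ht, htx⟩ := hR' hx
  have e : t = x := Subtype.ext htx
  subst e
  exact ht

theorem stronglyClosed_of_invariant {T : Subgroup Ω} (E : FusionSystem T) (F : FusionSystem S)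
    (hinv : E.IsInvariantIn F) {A : Subgroup Ω} (hA : E.StronglyClosed A)
    (hαA : ∀ α ∈ F.autGroup T, ∀ x : T, (x : Ω) ∈ A → ((α x : T) : Ω) ∈ A) :
    F.StronglyClosed A := by
  refine ⟨hA.1.trans hinv.2.1.1, fun P hP φ hφ x => ?_⟩
  obtain ⟨α, hα, φ₀, hφ₀, heq⟩ := hinv.2.2.2 P (hP.trans hA.1) φ hφ
  have h1 : φ₀ x ∈ A := hA.2 P hP φ₀ hφ₀ x
  have h2 : φ₀ x ∈ T := hA.1 h1
  rw [heq x h2]
  exact hαA α hα ⟨φ₀ x, h2⟩ h1

theorem solvable_normal_iff [Finite S] (p : ℕ) [Fact p.Prime] (hS : IsPGroup p S)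
    (F : FusionSystem S) (hF : F.IsSaturated p) {T : Subgroup Ω} (E : FusionSystem T)
    (hE : E.IsNormalIn F p) {S' : Subgroup Ω'} (θ : S →* Ω') (D : FusionSystem S')
    (hD : F.IsFactorSystem T θ D) :
    F.IsSolvableSystem ↔ (E.IsSolvableSystem ∧ D.IsSolvableSystem) := by
  have hEsat : E.IsSaturated p := hE.1.1
  have hinv : E.IsInvariantIn F := hE.1.2.2
  have hsub : E.IsSubsystemOf F := hinv.1
  have hTsc : F.StronglyClosed T := hinv.2.1
  have hTS : T ≤ S := hTsc.1
  have hTfin : Finite T := finite_of_le hTS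
  have hTp : IsPGroup p T := hS.to_le hTS
  have hker : ∀ s : S, θ s = 1 ↔ (s : Ω) ∈ T := hD.2.1
  have hrange : θ.range = S' := hD.2.2.1
  have hsurj := factor_surjective_morphism p hS F hF T hTsc θ D hD
  have hDsat : D.IsSaturated p := surjective_morphism_saturated p hS F hF D θ hsurj
  have hS'fin : Finite S' := by
    rw [← hrange]; exact Finite.of_surjective θ.rangeRestrict θ.rangeRestrict_surjective
  have hS'p : IsPGroup p S' := by
    rw [← hrange]; exact IsPGroup.of_surjective hS θ.rangeRestrict θ.rangeRestrict_surjective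
  constructor
  · intro h
    obtain ⟨n, Ss, h0, hlast, hmono, hsc, hcomm⟩ := (solvable_iff_chain p hS F hF).1 h
    constructor
    · apply (solvable_iff_chain p hTp E hEsat).2
      refine ⟨n, fun i => Ss i ⊓ T, ?_, ?_, ?_, ?_, ?_⟩
      · show Ss 0 ⊓ T = ⊥
        rw [h0]; exact bot_inf_eq T
      · show Ss (Fin.last n) ⊓ T = T
        rw [hlast]; exact inf_eq_right.2 hTS
      · intro i j hij
        exact inf_le_inf_right T (hmono hij)
      · intro i
        exact ⟨inf_le_right, fun R hR φ hφ x => Subgroup.mem_inf.2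
          ⟨(hsc i).2 R (hR.trans inf_le_left) φ (hsub R hφ) x, (E.le_of_mem hφ).2 x⟩⟩
      · intro i
        exact le_inf ((Subgroup.commutator_mono inf_le_left inf_le_left).trans (hcomm i))
          ((Subgroup.commutator_mono inf_le_right inf_le_right).trans (commutator_self_le T))
    · apply (solvable_iff_chain p hS'p D hDsat).2
      refine ⟨n, fun i => imageAlong θ (Ss i), ?_, ?_, ?_, ?_, ?_⟩
      · show imageAlong θ (Ss 0) = ⊥
        rw [h0, eq_bot_iff]
        rintro _ ⟨s, hs, rfl⟩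
        have hs1 : (s : Ω) = 1 := Subgroup.mem_bot.1 (Subgroup.mem_subgroupOf.1 hs)
        have hs2 : s = 1 := Subtype.ext hs1
        rw [hs2, map_one]; exact Subgroup.one_mem _
      · show imageAlong θ (Ss (Fin.last n)) = S'
        rw [hlast, ← hrange]
        show (S.subgroupOf S).map θ = θ.range
        rw [Subgroup.subgroupOf_self, MonoidHom.range_eq_map]
      · intro i j hij
        exact Subgroup.map_mono (Subgroup.comap_mono (hmono hij))
      · intro i
        exact image_stronglyClosed F θ D hD (hsc i)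
      · intro i
        rw [Subgroup.commutator_le]
        rintro _ ⟨a, ha, rfl⟩ _ ⟨b, hb, rfl⟩
        rw [← map_commutatorElement]
        exact ⟨⁅a, b⁆, Subgroup.mem_subgroupOf.2 (hcomm i (Subgroup.commutator_mem_commutator
          (Subgroup.mem_subgroupOf.1 ha) (Subgroup.mem_subgroupOf.1 hb))), rfl⟩
  · rintro ⟨hEs, hDs⟩
    apply solvable_of_abChain p hS F hF
    have hpart1 : AbChain F ⊥ T := by
      obtain ⟨a, Ts, hT0, hTlast, hTmono, hTsc', hTcomm⟩ :=
        (solvable_iff_chain p hTp E hEsat).1 hEs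
      obtain ⟨δ, hδ0, hδs⟩ : ∃ δ : ℕ → Subgroup Ω, δ 0 = T ∧
          ∀ k, δ (k + 1) = derClosure E (δ k) :=
        ⟨fun k => (derClosure E)^[k] T, rfl, fun k => Function.iterate_succ_apply' _ k T⟩
      have hδ : ∀ k, E.StronglyClosed (δ k) ∧
          ∀ α ∈ F.autGroup T, ∀ x : T, (x : Ω) ∈ δ k → ((α x : T) : Ω) ∈ δ k := by
        intro k
        induction k with
        | zero =>
          rw [hδ0]
          exact ⟨stronglyClosed_self E, fun α _ x _ => (α x).2⟩
        | succ k ih =>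
          rw [hδs]
          exact ⟨derClosure_stronglyClosed E ih.1.1,
            fun α hα x hx => derClosure_invariant E F hinv ih.1.1 hα (ih.2 α hα) x hx⟩
      have hδF : ∀ k, F.StronglyClosed (δ k) := fun k =>
        stronglyClosed_of_invariant E F hinv (hδ k).1 (hδ k).2
      have hδle : ∀ k, δ (k + 1) ≤ δ k := fun k => by
        rw [hδs]; exact derClosure_le E (hδ k).1
      have hδcomm : ∀ k, ⁅δ k, δ k⁆ ≤ δ (k + 1) := fun k => by
        rw [hδs]; exact commutator_le_derClosure E (δ k)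
      have hδT : ∀ k, ∀ i : Fin (a + 1), i.val + k = a → δ k ≤ Ts i := by
        intro k
        induction k with
        | zero =>
          intro i hi
          have e : i = Fin.last a := Fin.ext (by show i.val = a; omega)
          rw [hδ0, e, hTlast]
        | succ k ih =>
          intro i hi
          have hia : i.val < a := by omega
          have h1 := ih (Fin.succ ⟨i.val, hia⟩) (by show i.val + 1 + k = a; omega)
          have h3 : derClosure E (Ts (Fin.succ ⟨i.val, hia⟩)) ≤
              Ts (Fin.castSucc ⟨i.val, hia⟩) :=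
            derClosure_le_of E (hTsc' _) (hTcomm ⟨i.val, hia⟩)
          have e : Fin.castSucc (⟨i.val, hia⟩ : Fin a) = i := Fin.ext rfl
          rw [e] at h3
          rw [hδs]
          exact (derClosure_mono E h1).trans h3
      have hbot : δ a = ⊥ := by
        have h1 := hδT a 0 (by rw [Fin.val_zero, Nat.zero_add])
        rw [hT0] at h1
        exact le_bot_iff.1 h1
      have hchain : ∀ k, AbChain F (δ k) T := by
        intro k
        induction k with
        | zero => rw [hδ0]; exact AbChain.refl hTsc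
        | succ k ih =>
          exact (AbChain.step (AbChain.refl (hδF (k + 1))) (hδF k) (hδle k) (hδcomm k)).trans ih
      have h2 := hchain a
      rw [hbot] at h2
      exact h2
    have hpart2 : AbChain F T S := by
      obtain ⟨b, Ds, hD0, hDlast, hDmono, hDsc, hDcomm⟩ :=
        (solvable_iff_chain p hS'p D hDsat).1 hDs
      have hU0 : preimageAlong θ (Ds 0) = T := by
        rw [hD0]
        ext x
        rw [mem_preimageAlong]
        constructor
        · rintro ⟨hx, h1⟩
          exact (hker ⟨x, hx⟩).1 (Subgroup.mem_bot.1 h1)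
        · intro hx
          exact ⟨hTS hx, Subgroup.mem_bot.2 ((hker ⟨x, hTS hx⟩).2 hx)⟩
      have hUlast : preimageAlong θ (Ds (Fin.last b)) = S := by
        rw [hDlast]
        apply le_antisymm (preimageAlong_le θ S')
        intro x hx
        refine mem_preimageAlong.2 ⟨hx, ?_⟩
        rw [← hrange]; exact ⟨⟨x, hx⟩, rfl⟩
      have hUsc : ∀ j, F.StronglyClosed (preimageAlong θ (Ds j)) := fun j =>
        preimage_stronglyClosed F D θ hsurj.1 (hDsc j)
      have hUmono : ∀ i j, i ≤ j → preimageAlong θ (Ds i) ≤ preimageAlong θ (Ds j) := by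
        intro i j hij x hx
        obtain ⟨hxS, h1⟩ := mem_preimageAlong.1 hx
        exact mem_preimageAlong.2 ⟨hxS, hDmono hij h1⟩
      have hUcomm : ∀ j : Fin b, ⁅preimageAlong θ (Ds j.succ), preimageAlong θ (Ds j.succ)⁆ ≤
          preimageAlong θ (Ds (Fin.castSucc j)) := by
        intro j
        rw [Subgroup.commutator_le]
        intro x hx y hy
        obtain ⟨hxS, h1⟩ := mem_preimageAlong.1 hx
        obtain ⟨hyS, h2⟩ := mem_preimageAlong.1 hy
        have hxyS : ⁅x, y⁆ ∈ S :=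
          S.mul_mem (S.mul_mem (S.mul_mem hxS hyS) (S.inv_mem hxS)) (S.inv_mem hyS)
        refine mem_preimageAlong.2 ⟨hxyS, ?_⟩
        have e : θ ⟨⁅x, y⁆, hxyS⟩ = ⁅θ ⟨x, hxS⟩, θ ⟨y, hyS⟩⁆ :=
          map_commutatorElement θ (⟨x, hxS⟩ : S) ⟨y, hyS⟩
        rw [e]
        exact hDcomm j (Subgroup.commutator_mem_commutator h1 h2)
      have hchain : ∀ k (hk : k ≤ b), AbChain F (preimageAlong θ (Ds 0))
          (preimageAlong θ (Ds ⟨k, Nat.lt_succ_of_le hk⟩)) := by
        intro k
        induction k with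
        | zero => intro hk; exact AbChain.refl (hUsc 0)
        | succ k ih =>
          intro hk
          have hk' : k ≤ b := by omega
          exact AbChain.step (ih hk') (hUsc _)
            (hUmono _ _ (Fin.mk_le_mk.2 (Nat.le_succ k))) (hUcomm ⟨k, hk⟩)
      have h2 : AbChain F (preimageAlong θ (Ds 0)) (preimageAlong θ (Ds (Fin.last b))) :=
        hchain b le_rfl
      rw [hU0, hUlast] at h2
      exact h2
    exact hpart1.trans hpart2

end Cfsg.Agent.Helper26
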