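import Cfsg.Agent.Helper26.GroupQuot

set_option autoImplicit false

namespace Cfsg.Agent.Helper26

open Cfsg Cfsg.FusionSystem

theorem group_factor_system {G : Type*} [Group G] [Finite G] (p : ℕ) [Fact p.Prime]
    (S : Sylow p G) (H : Subgroup G) [H.Normal] :
    (groupFusionSystem (S : Subgroup G)).IsFactorSystem ((S : Subgroup G) ⊓ H)
      ((QuotientGroup.mk' H).comp (S : Subgroup G).subtype)
      (groupFusionSystem ((S : Subgroup G).map (QuotientGroup.mk' H))) := by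
  refine ⟨inf_le_left, fun s => ?_, ?_, fun P' φ' => ?_⟩
  · show (QuotientGroup.mk (s : G) : G ⧸ H) = 1 ↔ (s : G) ∈ (S : Subgroup G) ⊓ H
    rw [QuotientGroup.eq_one_iff, Subgroup.mem_inf]
    exact ⟨fun h => ⟨s.2, h⟩, fun h => h.2⟩
  · ext y
    constructor
    · rintro ⟨s, rfl⟩; exact ⟨s, s.2, rfl⟩
    · rintro ⟨x, hx, rfl⟩; exact ⟨⟨x, hx⟩, rfl⟩
  · have hPS : preimageAlong ((QuotientGroup.mk' H).comp (S : Subgroup G).subtype) P' ≤
        (S : Subgroup G) := by
      rintro _ ⟨s, -, rfl⟩; exact s.2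
    have hP' : ∀ x : ↥(preimageAlong ((QuotientGroup.mk' H).comp (S : Subgroup G).subtype) P'),
        ((QuotientGroup.mk' H).comp (S : Subgroup G).subtype) ⟨x, hPS x.2⟩ ∈ P' := by
      rintro ⟨_, s, hs, rfl⟩
      exact hs
    have hsurj : P' ≤ (S : Subgroup G).map (QuotientGroup.mk' H) → ∀ y : P',
        ∃ x : ↥(preimageAlong ((QuotientGroup.mk' H).comp (S : Subgroup G).subtype) P'),
          (QuotientGroup.mk (x : G) : G ⧸ H) = y := by
      intro hle y
      obtain ⟨s, hs, hsy⟩ := hle y.2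
      refine ⟨⟨s, ⟨⟨s, hs⟩, ?_, rfl⟩⟩, hsy⟩
      show (QuotientGroup.mk' H) s ∈ P'
      rw [hsy]; exact y.2
    constructor
    · rintro ⟨hle, hφ'S, γ, hγ⟩
      refine ⟨hle, ?_⟩
      have hcond : ∀ x ∈ preimageAlong ((QuotientGroup.mk' H).comp (S : Subgroup G).subtype) P',
          γ * QuotientGroup.mk x * γ⁻¹ ∈ (S : Subgroup G).map (QuotientGroup.mk' H) := by
        intro x hx
        have h1 := hφ'S ⟨_, hP' ⟨x, hx⟩⟩
        rw [hγ] at h1
        exact h1
      obtain ⟨g, hg⟩ := fusion_lifts_quot H S _ hPS γ hcond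
      refine ⟨conjHom _ g, ⟨hPS, fun x => (hg x x.2).1, g, fun x => rfl⟩, hPS,
        fun x => (hg x x.2).1, hP', fun x => ?_⟩
      rw [hγ]
      exact ((hg x x.2).2).symm
    · rintro ⟨hle, φ, ⟨-, hφS, g, hg⟩, hP, hφ, hP'', hind⟩
      refine ⟨hle, fun y => ?_, QuotientGroup.mk g, fun y => ?_⟩
      · obtain ⟨x, hx⟩ := hsurj hle y
        have e : y = ⟨((QuotientGroup.mk' H).comp (S : Subgroup G).subtype) ⟨x, hP x.2⟩,
            hP'' x⟩ := Subtype.ext hx.symm
        rw [e, hind x]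
        exact ⟨φ x, hφ x, rfl⟩
      · obtain ⟨x, hx⟩ := hsurj hle y
        have e : y = ⟨((QuotientGroup.mk' H).comp (S : Subgroup G).subtype) ⟨x, hP x.2⟩,
            hP'' x⟩ := Subtype.ext hx.symm
        rw [e, hind x]
        show (QuotientGroup.mk (φ x) : G ⧸ H) =
          QuotientGroup.mk g * QuotientGroup.mk (x : G) * (QuotientGroup.mk g)⁻¹
        rw [hg x]
        rfl

end Cfsg.Agent.Helper26
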