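import Mathlib
import Cfsg.Agent.Helper26.MetaFus

set_option autoImplicit false

namespace Cfsg.Agent.Helper26

open Cfsg Cfsg.FusionSystem
open scoped commutatorElement

variable {Ω : Type*} [Group Ω] {S : Subgroup Ω}

/-- The subgroup generated by the elements of `P` whose `p`-th power lies in `W`. -/
noncomputable def metaT (P : Subgroup Ω) (p : ℕ) (W : Subgroup Ω) : Subgroup Ω :=
  Subgroup.closure {x | x ∈ P ∧ x ^ p ∈ W}

/-- The subgroup generated by the elements of `T` that are central in `P` modulo `W`. -/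
noncomputable def metaY (P W T : Subgroup Ω) : Subgroup Ω :=
  Subgroup.closure {x | x ∈ T ∧ ∀ g ∈ P, ⁅x, g⁆ ∈ W}

open Classical in
/-- One step of the weakly closed central series of a metacyclic strongly closed subgroup. -/
noncomputable def metaStep (P : Subgroup Ω) (p : ℕ) (W : Subgroup Ω) : Subgroup Ω :=
  if ∀ t ∈ metaT P p W, ∀ g ∈ P, ⁅t, g⁆ ∈ W then metaT P p W else metaY P W (metaT P p W)

/-- The weakly closed central series of a metacyclic strongly closed subgroup. -/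
noncomputable def metaSeq (P : Subgroup Ω) (p : ℕ) : ℕ → Subgroup Ω
  | 0 => ⊥
  | n + 1 => metaStep P p (metaSeq P p n)

theorem metaSeq_zero (P : Subgroup Ω) (p : ℕ) : metaSeq P p 0 = ⊥ := rfl

theorem metaSeq_succ (P : Subgroup Ω) (p : ℕ) (n : ℕ) :
    metaSeq P p (n + 1) = metaStep P p (metaSeq P p n) := rfl

theorem meta_step_spec [Finite S] (p : ℕ) [Fact p.Prime] (hS : IsPGroup p S) (hp2 : p ≠ 2)
    (F : FusionSystem S) (hF : F.IsSaturated p) {P W : Subgroup Ω}
    (hP : F.StronglyClosed P) (hm : Cfsg.IsMetacyclic ↥P) (hWP : W ≤ P)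
    (hW : F.WeaklyClosed W) :
    F.WeaklyClosed (metaStep P p W) ∧ W ≤ metaStep P p W ∧ metaStep P p W ≤ P ∧
      (∀ x ∈ metaStep P p W, ∀ g ∈ P, ⁅x, g⁆ ∈ W) ∧ (W ≠ P → W ≠ metaStep P p W) := by
  classical
  have hp := (Fact.out : p.Prime)
  have hPS : P ≤ S := hP.1
  have hfinP : Finite P := finite_of_le hPS
  have hPp : IsPGroup p P := hS.to_le hPS
  have hWn' : ∀ g ∈ S, ∀ x ∈ W, g * x * g⁻¹ ∈ W :=
    fun g hg x hx => weaklyClosed_conj_mem F hW hg hx
  haveI hWnP : (W.subgroupOf P).Normal := by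
    refine ⟨fun x hx g => ?_⟩
    rw [Subgroup.mem_subgroupOf] at hx ⊢
    rw [Subgroup.coe_mul, Subgroup.coe_mul, Subgroup.coe_inv]
    exact hWn' g (hPS g.2) x hx
  have hQm : Cfsg.IsMetacyclic (↥P ⧸ W.subgroupOf P) := meta_quot hm (W.subgroupOf P)
  have hQp : IsPGroup p (↥P ⧸ W.subgroupOf P) := hPp.to_quotient (W.subgroupOf P)
  have hmk : ∀ (x : Ω) (hx : x ∈ P), x ^ p ∈ W ↔
      (QuotientGroup.mk (⟨x, hx⟩ : ↥P) : ↥P ⧸ W.subgroupOf P) ^ p = 1 := by
    intro x hx
    constructor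
    · intro h
      rw [← QuotientGroup.mk_pow, QuotientGroup.eq_one_iff, Subgroup.mem_subgroupOf]
      exact h
    · intro h
      rw [← QuotientGroup.mk_pow, QuotientGroup.eq_one_iff, Subgroup.mem_subgroupOf] at h
      exact h
  obtain ⟨T, hTdef0⟩ : ∃ T : Subgroup Ω, T = metaT P p W := ⟨_, rfl⟩
  have hTmem : ∀ x, x ∈ T ↔ x ∈ P ∧ x ^ p ∈ W := by
    intro x
    constructor
    · intro hx
      rw [hTdef0, metaT] at hx
      refine Subgroup.closure_induction (p := fun x _ => x ∈ P ∧ x ^ p ∈ W) ?_ ?_ ?_ ?_ hx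
      · intro y hy
        exact hy
      · exact ⟨P.one_mem, by rw [one_pow]; exact W.one_mem⟩
      · intro a b _ _ ha hb
        have ha' : a ∈ P ∧ a ^ p ∈ W := ha
        have hb' : b ∈ P ∧ b ^ p ∈ W := hb
        refine ⟨P.mul_mem ha'.1 hb'.1, ?_⟩
        have h1 := (hmk a ha'.1).1 ha'.2
        have h2 := (hmk b hb'.1).1 hb'.2
        have h3 := meta_pow_mul hp2 hQp hQm h1 h2
        rw [← QuotientGroup.mk_mul] at h3
        exact (hmk (a * b) (P.mul_mem ha'.1 hb'.1)).2 h3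
      · intro a _ ha
        have ha' : a ∈ P ∧ a ^ p ∈ W := ha
        refine ⟨P.inv_mem ha'.1, ?_⟩
        rw [inv_pow]
        exact W.inv_mem ha'.2
    · intro hx
      rw [hTdef0, metaT]
      exact Subgroup.subset_closure hx
  have hTP : T ≤ P := fun x hx => ((hTmem x).1 hx).1
  have hWT : W ≤ T := fun x hx => (hTmem x).2 ⟨hWP hx, W.pow_mem hx p⟩
  have hTS : T ≤ S := hTP.trans hPS
  have hfinT : Finite T := finite_of_le hTS
  have hTwc : F.WeaklyClosed T := by
    refine ⟨hTS, fun φ hφ => ?_⟩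
    have hφres : φ.comp (Subgroup.inclusion hWT) ∈ F.Hom W :=
      restrict_mem F hφ hWT (fun _ => rfl)
    have hφrange := hW.2 _ hφres
    have hφW : ∀ w : T, (w : Ω) ∈ W → φ w ∈ W := by
      intro w hw
      have h3 : (φ.comp (Subgroup.inclusion hWT)) ⟨w, hw⟩ ∈
          (φ.comp (Subgroup.inclusion hWT)).range := ⟨⟨w, hw⟩, rfl⟩
      rw [hφrange] at h3
      exact h3
    have hle : φ.range ≤ T := by
      rintro _ ⟨x, rfl⟩
      refine (hTmem _).2 ⟨hP.2 T hTP φ hφ x, ?_⟩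
      have hxT := (hTmem _).1 x.2
      have h1 := hφW (x ^ p) (by rw [Subgroup.coe_pow]; exact hxT.2)
      rwa [map_pow] at h1
    exact Subgroup.eq_of_le_of_card_ge hle
      (Nat.card_congr (MonoidHom.ofInjective (F.injective_of_mem hφ)).toEquiv).le
  by_cases hC : ∀ t ∈ T, ∀ g ∈ P, ⁅t, g⁆ ∈ W
  · have hstep : metaStep P p W = T := by
      rw [metaStep, ← hTdef0, if_pos hC]
    rw [hstep]
    refine ⟨hTwc, hWT, hTP, hC, fun hne heq => ?_⟩
    have hQnt : Nat.card (↥P ⧸ W.subgroupOf P) ≠ 1 := by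
      intro h1
      apply hne
      apply le_antisymm hWP
      intro x hx
      have h2 : (QuotientGroup.mk (⟨x, hx⟩ : ↥P) : ↥P ⧸ W.subgroupOf P) = 1 := by
        haveI : Subsingleton (↥P ⧸ W.subgroupOf P) := (Nat.card_eq_one_iff_unique.1 h1).1
        exact Subsingleton.elim _ _
      rw [QuotientGroup.eq_one_iff, Subgroup.mem_subgroupOf] at h2
      exact h2
    obtain ⟨n, hn⟩ := (IsPGroup.iff_card).1 hQp
    have hn0 : n ≠ 0 := by
      rintro rfl
      exact hQnt (by rw [hn, pow_zero])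
    have hdvd : p ∣ Nat.card (↥P ⧸ W.subgroupOf P) := by
      rw [hn]
      exact dvd_pow_self p hn0
    obtain ⟨q, hq⟩ := exists_prime_orderOf_dvd_card' p hdvd
    obtain ⟨⟨x, hx⟩, rfl⟩ := QuotientGroup.mk_surjective q
    have h3 : (QuotientGroup.mk (⟨x, hx⟩ : ↥P) : ↥P ⧸ W.subgroupOf P) ^ p = 1 := by
      have h4 := pow_orderOf_eq_one (QuotientGroup.mk (⟨x, hx⟩ : ↥P) : ↥P ⧸ W.subgroupOf P)
      rwa [hq] at h4
    have h4 : x ∈ T := (hTmem x).2 ⟨hx, (hmk x hx).2 h3⟩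
    rw [← heq] at h4
    have h5 : (QuotientGroup.mk (⟨x, hx⟩ : ↥P) : ↥P ⧸ W.subgroupOf P) = 1 := by
      rw [QuotientGroup.eq_one_iff, Subgroup.mem_subgroupOf]
      exact h4
    rw [h5, orderOf_one] at hq
    exact hp.one_lt.ne hq
  · have hstep : metaStep P p W = metaY P W T := by
      rw [metaStep, ← hTdef0, if_neg hC]
    rw [hstep]
    obtain ⟨Y, hYdef0⟩ : ∃ Y : Subgroup Ω, Y = metaY P W T := ⟨_, rfl⟩
    rw [← hYdef0]
    have hWnT : ∀ t ∈ T, ∀ w ∈ W, t * w * t⁻¹ ∈ W := fun t ht w hw => hWn' t (hTS ht) w hw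
    have hYmem : ∀ x, x ∈ Y ↔ x ∈ T ∧ ∀ g ∈ P, ⁅x, g⁆ ∈ W := by
      intro x
      constructor
      · intro hx
        rw [hYdef0, metaY] at hx
        refine Subgroup.closure_induction (p := fun x _ => x ∈ T ∧ ∀ g ∈ P, ⁅x, g⁆ ∈ W)
          ?_ ?_ ?_ ?_ hx
        · intro y hy
          exact hy
        · refine ⟨T.one_mem, fun g _ => ?_⟩
          rw [commutatorElement_one_left]
          exact W.one_mem
        · intro a b _ _ ha hb
          have ha' : a ∈ T ∧ ∀ g ∈ P, ⁅a, g⁆ ∈ W := ha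
          have hb' : b ∈ T ∧ ∀ g ∈ P, ⁅b, g⁆ ∈ W := hb
          refine ⟨T.mul_mem ha'.1 hb'.1, fun g hg => ?_⟩
          have e0 : ⁅a * b, g⁆ = (a * ⁅b, g⁆ * a⁻¹) * ⁅a, g⁆ := by
            simp only [commutatorElement_def]; group
          rw [e0]
          exact W.mul_mem (hWnT a ha'.1 _ (hb'.2 g hg)) (ha'.2 g hg)
        · intro a _ ha
          have ha' : a ∈ T ∧ ∀ g ∈ P, ⁅a, g⁆ ∈ W := ha
          refine ⟨T.inv_mem ha'.1, fun g hg => ?_⟩
          have e0 : ⁅a⁻¹, g⁆ = a⁻¹ * (⁅a, g⁆)⁻¹ * a⁻¹⁻¹ := by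
            simp only [commutatorElement_def]; group
          rw [e0]
          exact hWnT a⁻¹ (T.inv_mem ha'.1) _ (W.inv_mem (ha'.2 g hg))
      · intro hx
        rw [hYdef0, metaY]
        exact Subgroup.subset_closure hx
    have hWY : W ≤ Y := by
      intro w hw
      refine (hYmem w).2 ⟨hWT hw, fun g hg => ?_⟩
      have e0 : ⁅w, g⁆ = w * (g * w⁻¹ * g⁻¹) := by
        simp only [commutatorElement_def]; group
      rw [e0]
      exact W.mul_mem hw (hWn' g (hPS hg) _ (W.inv_mem hw))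
    have hYT : Y ≤ T := fun x hx => ((hYmem x).1 hx).1
    haveI hWnT' : (W.subgroupOf T).Normal := by
      refine ⟨fun x hx g => ?_⟩
      rw [Subgroup.mem_subgroupOf] at hx ⊢
      rw [Subgroup.coe_mul, Subgroup.coe_mul, Subgroup.coe_inv]
      exact hWn' g (hTS g.2) x hx
    have hιle : W.subgroupOf T ≤ (W.subgroupOf P).comap (Subgroup.inclusion hTP) := by
      intro x hx
      rw [Subgroup.mem_comap, Subgroup.mem_subgroupOf]
      rw [Subgroup.mem_subgroupOf] at hx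
      exact hx
    obtain ⟨ι, hι⟩ : ∃ ι : (↥T ⧸ W.subgroupOf T) →* (↥P ⧸ W.subgroupOf P),
        ∀ t : ↥T, ι (QuotientGroup.mk t) = QuotientGroup.mk (Subgroup.inclusion hTP t) :=
      ⟨QuotientGroup.map _ _ (Subgroup.inclusion hTP) hιle, fun t => rfl⟩
    have hιinj : Function.Injective ι := by
      rw [injective_iff_map_eq_one]
      intro a ha
      obtain ⟨t, rfl⟩ := QuotientGroup.mk_surjective a
      rw [hι, QuotientGroup.eq_one_iff, Subgroup.mem_subgroupOf] at ha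
      rw [QuotientGroup.eq_one_iff, Subgroup.mem_subgroupOf]
      exact ha
    have hVexp : ∀ v ∈ ι.range, v ^ p = 1 := by
      rintro _ ⟨a, rfl⟩
      obtain ⟨t, rfl⟩ := QuotientGroup.mk_surjective a
      rw [hι]
      exact (hmk (t : Ω) (hTP t.2)).1 ((hTmem _).1 t.2).2
    have hcardle : Nat.card (↥T ⧸ W.subgroupOf T) ≤ p ^ 2 :=
      (Nat.card_congr (MonoidHom.ofInjective hιinj).toEquiv).le.trans
        (meta_card_exp hQm ι.range hVexp)
    have hTp : IsPGroup p T := hS.to_le hTS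
    have hTQp : IsPGroup p (↥T ⧸ W.subgroupOf T) := hTp.to_quotient (W.subgroupOf T)
    obtain ⟨n, hn⟩ := (IsPGroup.iff_card).1 hTQp
    have hnle : n ≤ 2 := by
      by_contra hcon
      have h2 : 2 < n := by omega
      have h3 : p ^ 2 < p ^ n := Nat.pow_lt_pow_right hp.one_lt h2
      rw [hn] at hcardle
      exact Nat.lt_irrefl _ (lt_of_lt_of_le h3 hcardle)
    have hYneT : Y ≠ T := by
      intro h
      apply hC
      intro t ht g hg
      rw [← h] at ht
      exact ((hYmem t).1 ht).2 g hg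
    have hTW : ¬ T ≤ W := fun h => hYneT (le_antisymm hYT (h.trans hWY))
    have hTn : ∀ g ∈ S, ∀ x ∈ T, g * x * g⁻¹ ∈ T :=
      fun g hg x hx => weaklyClosed_conj_mem F hTwc hg hx
    haveI hTnP : (T.subgroupOf P).Normal := by
      refine ⟨fun x hx g => ?_⟩
      rw [Subgroup.mem_subgroupOf] at hx ⊢
      rw [Subgroup.coe_mul, Subgroup.coe_mul, Subgroup.coe_inv]
      exact hTn g (hPS g.2) x hx
    haveI hNn : ((T.subgroupOf P).map (QuotientGroup.mk' (W.subgroupOf P))).Normal :=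
      Subgroup.Normal.map hTnP _ (QuotientGroup.mk'_surjective _)
    have hNne : (T.subgroupOf P).map (QuotientGroup.mk' (W.subgroupOf P)) ≠ ⊥ := by
      intro h
      apply hTW
      intro t ht
      have h1 : (QuotientGroup.mk (⟨t, hTP ht⟩ : ↥P) : ↥P ⧸ W.subgroupOf P) ∈
          (T.subgroupOf P).map (QuotientGroup.mk' (W.subgroupOf P)) :=
        Subgroup.mem_map.2 ⟨⟨t, hTP ht⟩, Subgroup.mem_subgroupOf.2 ht, rfl⟩
      rw [h, Subgroup.mem_bot, QuotientGroup.eq_one_iff, Subgroup.mem_subgroupOf] at h1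
      exact h1
    obtain ⟨z, hzN, hzc, hz1⟩ := Helper24.pgroup_normal_inf_center hQp
      ((T.subgroupOf P).map (QuotientGroup.mk' (W.subgroupOf P))) hNne
    obtain ⟨⟨y₀, hy₀P⟩, hy₀T, rfl⟩ := Subgroup.mem_map.1 hzN
    have hy₀T' : y₀ ∈ T := Subgroup.mem_subgroupOf.1 hy₀T
    have hy₀W : y₀ ∉ W := by
      intro h
      apply hz1
      show (QuotientGroup.mk (⟨y₀, hy₀P⟩ : ↥P) : ↥P ⧸ W.subgroupOf P) = 1
      rw [QuotientGroup.eq_one_iff, Subgroup.mem_subgroupOf]
      exact h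
    have hcomm1 : ∀ τ γ : ↥P ⧸ W.subgroupOf P, γ * τ * γ⁻¹ = τ → τ * γ * τ⁻¹ * γ⁻¹ = 1 := by
      intro τ γ h
      calc τ * γ * τ⁻¹ * γ⁻¹ = τ * (γ * τ * γ⁻¹)⁻¹ := by group
        _ = 1 := by rw [h, mul_inv_cancel]
    have hy₀Y : y₀ ∈ Y := by
      refine (hYmem y₀).2 ⟨hy₀T', fun g hg => ?_⟩
      have h1 := (Subgroup.mem_center_iff.1 hzc) (QuotientGroup.mk (⟨g, hg⟩ : ↥P))
      have h3 : (QuotientGroup.mk (⟨g, hg⟩ : ↥P) : ↥P ⧸ W.subgroupOf P) *
          QuotientGroup.mk (⟨y₀, hy₀P⟩ : ↥P) =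
          QuotientGroup.mk (⟨y₀, hy₀P⟩ : ↥P) * QuotientGroup.mk (⟨g, hg⟩ : ↥P) := h1
      have h2 : (((⟨y₀, hy₀P⟩ * ⟨g, hg⟩ * (⟨y₀, hy₀P⟩ : ↥P)⁻¹ * (⟨g, hg⟩ : ↥P)⁻¹ : ↥P)) :
          ↥P ⧸ W.subgroupOf P) = 1 := by
        rw [QuotientGroup.mk_mul, QuotientGroup.mk_mul, QuotientGroup.mk_mul, QuotientGroup.mk_inv,
          QuotientGroup.mk_inv, ← h3, mul_inv_cancel_right, mul_inv_cancel]
      rw [QuotientGroup.eq_one_iff, Subgroup.mem_subgroupOf] at h2
      rw [commutatorElement_def]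
      exact h2
    have hrel : W.relIndex T = p ^ n := hn
    have hmul := Subgroup.relIndex_mul_relIndex W Y T hWY hYT
    rw [hrel] at hmul
    have h1ne : W.relIndex Y ≠ 1 := by
      rw [Ne, Subgroup.relIndex_eq_one]
      exact fun h => hy₀W (h hy₀Y)
    have h2ne : Y.relIndex T ≠ 1 := by
      rw [Ne, Subgroup.relIndex_eq_one]
      exact fun h => hYneT (le_antisymm hYT h)
    obtain ⟨a, -, ha⟩ := (Nat.dvd_prime_pow hp).1 (Dvd.intro _ hmul)
    obtain ⟨b, -, hb⟩ := (Nat.dvd_prime_pow hp).1 (Dvd.intro_left _ hmul)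
    have ha0 : a ≠ 0 := by
      rintro rfl
      exact h1ne (by rw [ha, pow_zero])
    have hb0 : b ≠ 0 := by
      rintro rfl
      exact h2ne (by rw [hb, pow_zero])
    rw [ha, hb, ← pow_add] at hmul
    have hab : a + b = n := Nat.pow_right_injective hp.two_le hmul
    have hn2 : n = 2 := by omega
    have hb1 : b = 1 := by omega
    have hcard : Nat.card (↥T ⧸ W.subgroupOf T) = p ^ 2 := by rw [hn, hn2]
    have hYTp : Y.relIndex T = p := by rw [hb, hb1, pow_one]
    have hidx : ∀ Z : Subgroup Ω, Y ≤ Z → Z ≤ T → Z = Y ∨ Z = T := by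
      intro Z hYZ hZT
      have hm2 := Subgroup.relIndex_mul_relIndex Y Z T hYZ hZT
      rw [hYTp] at hm2
      rcases (Nat.dvd_prime hp).1 (Dvd.intro _ hm2) with h | h
      · left
        exact le_antisymm (Subgroup.relIndex_eq_one.1 h) hYZ
      · right
        rw [h] at hm2
        have h3 : Z.relIndex T = 1 := by
          have h4 : p * Z.relIndex T = p * 1 := by rw [hm2, mul_one]
          exact Nat.eq_of_mul_eq_mul_left hp.pos h4
        exact le_antisymm hZT (Subgroup.relIndex_eq_one.1 h3)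
    have hG3 : ∀ f : ↥P →* ↥P, (∀ x : ↥P, (x : Ω) ∈ T → ((f x : ↥P) : Ω) * x ∈ W) →
        ∀ t ∈ T, ∀ g ∈ P, ⁅t, g⁆ ∈ W := by
      intro f hf t ht g hg
      have hfW : W.subgroupOf P ≤ (W.subgroupOf P).comap f := by
        intro x hx
        rw [Subgroup.mem_subgroupOf] at hx
        rw [Subgroup.mem_comap, Subgroup.mem_subgroupOf]
        have h1 := hf x (hWT hx)
        have e0 : ((f x : ↥P) : Ω) = ((f x : ↥P) : Ω) * x * (x : Ω)⁻¹ := by group
        rw [e0]
        exact W.mul_mem h1 (W.inv_mem hx)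
      obtain ⟨fb, hfb⟩ : ∃ fb : (↥P ⧸ W.subgroupOf P) →* (↥P ⧸ W.subgroupOf P),
          ∀ x : ↥P, fb (QuotientGroup.mk x) = QuotientGroup.mk (f x) :=
        ⟨QuotientGroup.map _ _ f hfW, fun x => rfl⟩
      have hfbinv : ∀ v : ↥P ⧸ W.subgroupOf P, v ^ p = 1 → fb v = v⁻¹ := by
        intro v hv
        obtain ⟨⟨x, hx⟩, rfl⟩ := QuotientGroup.mk_surjective v
        have hxT : x ∈ T := (hTmem x).2 ⟨hx, (hmk x hx).2 hv⟩
        have h1 := hf ⟨x, hx⟩ hxT
        rw [hfb, eq_inv_iff_mul_eq_one, ← QuotientGroup.mk_mul, QuotientGroup.eq_one_iff,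
          Subgroup.mem_subgroupOf, Subgroup.coe_mul]
        exact h1
      have hcen := meta_central hp2 hQp hQm fb hfbinv
      have htp : (QuotientGroup.mk (⟨t, hTP ht⟩ : ↥P) : ↥P ⧸ W.subgroupOf P) ^ p = 1 :=
        (hmk t (hTP ht)).1 ((hTmem t).1 ht).2
      have h1 := hcen _ (QuotientGroup.mk (⟨g, hg⟩ : ↥P)) htp
      have h2 : (((⟨t, hTP ht⟩ * ⟨g, hg⟩ * (⟨t, hTP ht⟩ : ↥P)⁻¹ * (⟨g, hg⟩ : ↥P)⁻¹ : ↥P)) :
          ↥P ⧸ W.subgroupOf P) = 1 := by
        rw [QuotientGroup.mk_mul, QuotientGroup.mk_mul, QuotientGroup.mk_mul, QuotientGroup.mk_inv,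
          QuotientGroup.mk_inv]
        exact hcomm1 _ _ h1
      rw [QuotientGroup.eq_one_iff, Subgroup.mem_subgroupOf] at h2
      rw [commutatorElement_def]
      exact h2
    have hYwc : F.WeaklyClosed Y :=
      meta_y_wc p hS hp2 F hF hP hW hTwc hWY hYT hTP hTmem hYmem hcard hidx hC hG3
    refine ⟨hYwc, hWY, hYT.trans hTP, fun x hx g hg => ((hYmem x).1 hx).2 g hg,
      fun _ heq => ?_⟩
    have h9 : y₀ ∈ W := by
      rw [heq]
      exact hy₀Y
    exact hy₀W h9

theorem metacyclic_odd_normal [Finite S] (p : ℕ) [Fact p.Prime] (hS : IsPGroup p S)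
    (F : FusionSystem S) (hF : F.IsSaturated p) (P : Subgroup Ω) (hP : F.StronglyClosed P)
    (hp2 : p ≠ 2) (hm : Cfsg.IsMetacyclic ↥P) : F.IsNormal P := by
  have hPS : P ≤ S := hP.1
  have hfinP : Finite P := finite_of_le hPS
  have hinv : ∀ i, metaSeq P p i ≤ P ∧ F.WeaklyClosed (metaSeq P p i) := by
    intro i
    induction i with
    | zero =>
      rw [metaSeq_zero]
      exact ⟨bot_le, weaklyClosed_of_stronglyClosed F (stronglyClosed_bot F)⟩
    | succ i ih =>
      have h := meta_step_spec p hS hp2 F hF hP hm ih.1 ih.2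
      rw [metaSeq_succ]
      exact ⟨h.2.2.1, h.1⟩
  have hgrow : ∀ i, metaSeq P p i = P ∨ i < Nat.card (metaSeq P p i) := by
    intro i
    induction i with
    | zero =>
      right
      rw [metaSeq_zero, Subgroup.card_bot]
      exact Nat.one_pos
    | succ i ih =>
      have h := meta_step_spec p hS hp2 F hF hP hm (hinv i).1 (hinv i).2
      rw [metaSeq_succ]
      by_cases hWP : metaSeq P p i = P
      · left
        exact le_antisymm h.2.2.1 ((le_of_eq hWP.symm).trans h.2.1)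
      · right
        have hlt0 : i < Nat.card (metaSeq P p i) := ih.resolve_left hWP
        have hne := h.2.2.2.2 hWP
        have hle := h.2.1
        have hfinStep : Finite (metaStep P p (metaSeq P p i)) :=
          finite_of_le (h.2.2.1.trans hPS)
        have hlt : Nat.card (metaSeq P p i) < Nat.card (metaStep P p (metaSeq P p i)) := by
          by_contra hcon
          exact hne (Subgroup.eq_of_le_of_card_ge hle (not_lt.1 hcon))
        omega
  have hn : metaSeq P p (Nat.card P) = P := by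
    rcases hgrow (Nat.card P) with h | h
    · exact h
    · exact absurd (Subgroup.card_le_of_le (hinv (Nat.card P)).1) (not_le.2 h)
  exact normal_of_weak_series p hS F hF hP (metaSeq P p) (Nat.card P) (metaSeq_zero P p) hn
    (fun i => by
      rw [metaSeq_succ]
      exact (meta_step_spec p hS hp2 F hF hP hm (hinv i).1 (hinv i).2).2.1)
    (fun i _ => (hinv i).2)
    (fun i _ => by
      rw [metaSeq_succ, Subgroup.commutator_le]
      intro x hx g hg
      exact (meta_step_spec p hS hp2 F hF hP hm (hinv i).1 (hinv i).2).2.2.2.1 x hx g hg)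

end Cfsg.Agent.Helper26
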