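import Cfsg.Agent.Helper26.KNorm3
import Cfsg.Agent.Helper26.FusionModel
import Cfsg.Agent.Helper26.FusionNormal3

set_option autoImplicit false

namespace Cfsg.Agent.Helper26

open Cfsg Cfsg.FusionSystem

variable {Ω : Type*} [Group Ω] {S : Subgroup Ω}

theorem exists_hom_of_conj {G : Type*} [Group G] (F : FusionSystem S) (ι : S →* G)
    (hreal : F.IsRealizedBy ι) {P : Subgroup Ω} (hPS : P ≤ S) (g : G)
    (hval : ∀ y : P, g * ι ⟨y, hPS y.2⟩ * g⁻¹ ∈ ι.range) :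
    ∃ φ ∈ F.Hom P, ∀ y : P, ∃ h : φ y ∈ S, ι ⟨φ y, h⟩ = g * ι ⟨y, hPS y.2⟩ * g⁻¹ := by
  have hι := hreal.1
  have hR : ι.range = ι.range := rfl
  have hval' : ∀ y : P,
      (((MulAut.conj g).toMonoidHom.comp ι).comp (Subgroup.inclusion hPS)) y ∈ ι.range := hval
  obtain ⟨ψ, hψdef⟩ : ∃ ψ : P →* Ω, ψ = (invHom ι hι hR).comp
      (MonoidHom.codRestrict (((MulAut.conj g).toMonoidHom.comp ι).comp
        (Subgroup.inclusion hPS)) ι.range hval') := ⟨_, rfl⟩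
  have hψS : ∀ y : P, ψ y ∈ S := by
    intro y; subst hψdef; exact invHom_mem ι hι hR _
  have hψι : ∀ y : P, ι ⟨ψ y, hψS y⟩ = g * ι ⟨y, hPS y.2⟩ * g⁻¹ := by
    intro y
    have h1 := ι_invHom ι hι hR (MonoidHom.codRestrict (((MulAut.conj g).toMonoidHom.comp ι).comp
        (Subgroup.inclusion hPS)) ι.range hval' y)
    have e : (⟨ψ y, hψS y⟩ : S) = ⟨invHom ι hι hR (MonoidHom.codRestrict
        (((MulAut.conj g).toMonoidHom.comp ι).comp (Subgroup.inclusion hPS))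
          ι.range hval' y), invHom_mem ι hι hR _⟩ := by
      apply Subtype.ext
      subst hψdef
      rfl
    exact (congrArg ι e).trans h1
  exact ⟨ψ, (hreal.2 P hPS ψ hψS).2 ⟨g, hψι⟩, fun y => ⟨hψS y, hψι y⟩⟩

theorem model_pCore_eq [Finite S] {G : Type*} [Group G] (p : ℕ) [Fact p.Prime]
    (hS : IsPGroup p S) (F : FusionSystem S) (ι : S →* G) (hG : F.IsModel p G ι)
    {R : Subgroup Ω} (hRn : F.IsNormal R) (hRc : F.IsCentric R) (hRr : F.IsRadical p R) :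
    (pCore p G : Subgroup G) = (R.subgroupOf S).map ι := by
  obtain ⟨hfin, hreal, ⟨T, hT⟩, hcen⟩ := hG
  have hι := hreal.1
  have hRS : R ≤ S := hRn.1
  have hKn := Helper27.pCore_normal' p G
  have hKT : pCore p G ≤ ι.range := hT ▸ pCore_le_sylow T
  obtain ⟨U₀, hU₀def⟩ : ∃ U₀ : Subgroup Ω, U₀ = ((pCore p G).comap ι).map S.subtype :=
    ⟨_, rfl⟩
  have hU₀S : U₀ ≤ S := by
    rw [hU₀def]; rintro _ ⟨s, -, rfl⟩; exact s.2
  have hU₀mem : ∀ y (hy : y ∈ S), y ∈ U₀ ↔ ι ⟨y, hy⟩ ∈ pCore p G := by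
    intro y hy
    rw [hU₀def]
    constructor
    · rintro ⟨s, hs, hsy⟩
      have e : s = ⟨y, hy⟩ := Subtype.ext hsy
      rw [← e]; exact hs
    · intro h; exact ⟨⟨y, hy⟩, h, rfl⟩
  have hU₀nc := model_normal_centric p F ι hreal T hT hcen U₀ hU₀S hU₀mem
  have hU₀R : U₀ ≤ R := normal_le_of_centric_radical p hS F hU₀nc.1 hRc hRr
  have hRsc := stronglyClosed_of_normal F hRn
  have hKU₀ : ∀ k ∈ pCore p G, ∃ (v : Ω) (hv : v ∈ S), v ∈ U₀ ∧ ι ⟨v, hv⟩ = k := by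
    intro k hk
    obtain ⟨s, hs⟩ := hKT hk
    have hs' : ι ⟨(s : Ω), s.2⟩ ∈ pCore p G := by
      have e : (⟨(s : Ω), s.2⟩ : S) = s := rfl
      rw [e, hs]; exact hk
    exact ⟨s, s.2, (hU₀mem s s.2).2 hs', hs⟩
  apply le_antisymm
  · intro k hk
    obtain ⟨v, hv, hvU, rfl⟩ := hKU₀ k hk
    exact ⟨⟨v, hv⟩, Subgroup.mem_subgroupOf.2 (hU₀R hvU), rfl⟩
  · apply Helper27.le_pCore
    · refine ⟨?_⟩
      rintro _ ⟨r, hr, rfl⟩ g
      replace hr : (r : Ω) ∈ R := Subgroup.mem_subgroupOf.1 hr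
      have hval : ∀ y : U₀, g * ι ⟨y, hU₀S y.2⟩ * g⁻¹ ∈ ι.range :=
        fun y => hKT (hKn.conj_mem _ ((hU₀mem y (hU₀S y.2)).1 y.2) g)
      obtain ⟨φ, hφ, hφι⟩ := exists_hom_of_conj F ι hreal hU₀S g hval
      obtain ⟨ψ, hψ, hψφ, hψR⟩ := hRn.2 U₀ φ hφ
      have hXS : U₀ ⊔ R ≤ S := sup_le hU₀S hRS
      have hψS : ∀ y : ↥(U₀ ⊔ R), ψ y ∈ S := (F.le_of_mem hψ).2
      obtain ⟨g', hg'⟩ := (hreal.2 (U₀ ⊔ R) hXS ψ hψS).1 hψ
      have hcent : g⁻¹ * g' ∈ Subgroup.centralizer ((pCore p G : Subgroup G) : Set G) := by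
        rw [Subgroup.mem_centralizer_iff]
        intro k hk
        obtain ⟨v, hv, hvU, rfl⟩ := hKU₀ k hk
        obtain ⟨h1, h2⟩ := hφι ⟨v, hvU⟩
        have h3 := hg' (Subgroup.inclusion le_sup_left ⟨v, hvU⟩)
        have h4 : (⟨ψ (Subgroup.inclusion le_sup_left ⟨v, hvU⟩),
            hψS (Subgroup.inclusion le_sup_left ⟨v, hvU⟩)⟩ : S) = ⟨φ ⟨v, hvU⟩, h1⟩ :=
          Subtype.ext (hψφ ⟨v, hvU⟩)
        rw [h4, h2] at h3
        have h5 : g * ι ⟨v, hv⟩ * g⁻¹ = g' * ι ⟨v, hv⟩ * g'⁻¹ := h3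
        calc ι ⟨v, hv⟩ * (g⁻¹ * g') = g⁻¹ * (g * ι ⟨v, hv⟩ * g⁻¹) * g' := by group
          _ = g⁻¹ * (g' * ι ⟨v, hv⟩ * g'⁻¹) * g' := by rw [h5]
          _ = g⁻¹ * g' * ι ⟨v, hv⟩ := by group
      obtain ⟨v, hv, hvU, hvι⟩ := hKU₀ _ (hcen hcent)
      have hr' : v⁻¹ * (r : Ω) * v ∈ R := by
        have h0 := stronglyClosed_conj_mem F hRsc (S.inv_mem hv) hr
        simpa using h0
      have hr'X : v⁻¹ * (r : Ω) * v ∈ U₀ ⊔ R := (le_sup_right : R ≤ U₀ ⊔ R) hr'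
      have h6 : ι ⟨ψ ⟨_, hr'X⟩, hψS _⟩ = g' * ι ⟨v⁻¹ * (r : Ω) * v, hXS hr'X⟩ * g'⁻¹ :=
        hg' ⟨_, hr'X⟩
      have hψr : ψ ⟨_, hr'X⟩ ∈ R := by
        have h7 : ψ ⟨_, hr'X⟩ ∈ (R.subgroupOf (U₀ ⊔ R)).map ψ :=
          ⟨_, Subgroup.mem_subgroupOf.2 hr', rfl⟩
        rw [hψR] at h7; exact h7
      refine ⟨⟨ψ ⟨_, hr'X⟩, hψS _⟩, Subgroup.mem_subgroupOf.2 hψr, ?_⟩
      have h8 : (⟨v⁻¹ * (r : Ω) * v, hXS hr'X⟩ : S) = ⟨v, hv⟩⁻¹ * r * ⟨v, hv⟩ :=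
        Subtype.ext rfl
      rw [h6, h8, map_mul, map_mul, map_inv, hvι]
      group
    · exact (hS.to_subgroup (R.subgroupOf S)).map ι

theorem normalizer_normal (F : FusionSystem S) {R : Subgroup Ω} (hRS : R ≤ S)
    (E : FusionSystem (normalizerIn S R)) (hE : F.IsNormalizerSystem R E) : E.IsNormal R := by
  have hRN : R ≤ normalizerIn S R := le_normalizerIn hRS
  refine ⟨hRN, fun P φ hφ => ?_⟩
  rw [hE P, mem_normalizerHom_iff'] at hφ
  obtain ⟨hφF, hPN, hφN, ψ, hψ, hψP, hψR⟩ := hφ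
  have hψN : ∀ y : ↥(P ⊔ R), ψ y ∈ normalizerIn S R :=
    forall_sup_mem ψ
      (fun a ha => by
        have h1 : ψ ⟨a, (le_sup_left : P ≤ P ⊔ R) ha⟩ = φ ⟨a, ha⟩ := hψP ⟨a, ha⟩
        rw [h1]; exact hφN _)
      (fun b hb => hRN (by
        have h1 : ψ ⟨b, (le_sup_right : R ≤ P ⊔ R) hb⟩ ∈ (R.subgroupOf (P ⊔ R)).map ψ :=
          ⟨_, Subgroup.mem_subgroupOf.2 hb, rfl⟩
        rw [hψR] at h1; exact h1))
  have hle : (P ⊔ R) ⊔ R ≤ P ⊔ R := sup_le le_rfl le_sup_right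
  refine ⟨ψ, ?_, hψP, hψR⟩
  rw [hE (P ⊔ R), mem_normalizerHom_iff']
  refine ⟨hψ, sup_le hPN hRN, hψN, ψ.comp (Subgroup.inclusion hle),
    restrict_mem F hψ hle (fun x => rfl), fun x => ?_, ?_⟩
  · show ψ (Subgroup.inclusion hle (Subgroup.inclusion le_sup_left x)) = ψ x
    exact congrArg ψ (Subtype.ext rfl)
  · ext z
    constructor
    · rintro ⟨y, hy, rfl⟩
      have h1 : ψ (Subgroup.inclusion hle y) ∈ (R.subgroupOf (P ⊔ R)).map ψ :=
        ⟨_, Subgroup.mem_subgroupOf.2 (Subgroup.mem_subgroupOf.1 hy), rfl⟩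
      rw [hψR] at h1
      exact h1
    · intro hz
      rw [← hψR] at hz
      obtain ⟨y, hy, rfl⟩ := hz
      refine ⟨⟨y, (le_sup_left : P ⊔ R ≤ (P ⊔ R) ⊔ R) y.2⟩,
        Subgroup.mem_subgroupOf.2 (Subgroup.mem_subgroupOf.1 hy), ?_⟩
      show ψ (Subgroup.inclusion hle ⟨y, (le_sup_left : P ⊔ R ≤ (P ⊔ R) ⊔ R) y.2⟩) = ψ y
      exact congrArg ψ (Subtype.ext rfl)

theorem normalizer_centric [Finite S] (F : FusionSystem S) {R : Subgroup Ω}
    (hRc : F.IsCentric R) (E : FusionSystem (normalizerIn S R))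
    (hE : F.IsNormalizerSystem R E) : E.IsCentric R := by
  have hRS : R ≤ S := hRc.1
  have hRN : R ≤ normalizerIn S R := le_normalizerIn hRS
  have hfinN : Finite ↥(normalizerIn S R) := finite_of_le (normalizerIn_le S R)
  have hnorm := normalizer_normal F hRS E hE
  refine ⟨hRN, fun R' hR' => ?_⟩
  have hwc := weaklyClosed_of_stronglyClosed E (stronglyClosed_of_normal E hnorm)
  obtain ⟨φ, hφ, rfl⟩ := hR'
  rw [hwc.2 φ hφ]
  intro c hc
  exact hRc.2 R (isConj_refl F hRS) (Subgroup.mem_inf.2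
    ⟨(normalizerIn_le S R) (Subgroup.mem_inf.1 hc).1, (Subgroup.mem_inf.1 hc).2⟩)

theorem normalizer_autGroup_eq (F : FusionSystem S) {R : Subgroup Ω} (hRS : R ≤ S)
    (E : FusionSystem (normalizerIn S R)) (hE : F.IsNormalizerSystem R E) :
    E.autGroup R = F.autGroup R := by
  have hRN : R ≤ normalizerIn S R := le_normalizerIn hRS
  ext α
  rw [mem_autGroup_iff E hRN, mem_autGroup_iff F hRS, hE R, mem_normalizerHom_iff']
  constructor
  · intro h; exact h.1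
  · intro h
    have hle : R ⊔ R ≤ R := sup_le le_rfl le_rfl
    refine ⟨h, hRN, fun x => hRN (α x).2,
      (R.subtype.comp α.toMonoidHom).comp (Subgroup.inclusion hle),
      restrict_mem F h hle (fun x => rfl), fun x => ?_, ?_⟩
    · show ((α (Subgroup.inclusion hle (Subgroup.inclusion le_sup_left x)) : R) : Ω) = α x
      exact congrArg (fun y : R => ((α y : R) : Ω)) (Subtype.ext rfl)
    · ext z
      constructor
      · rintro ⟨y, hy, rfl⟩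
        exact (α _).2
      · intro hz
        refine ⟨⟨(α.symm ⟨z, hz⟩ : R), (le_sup_left : R ≤ R ⊔ R) (α.symm ⟨z, hz⟩).2⟩,
          Subgroup.mem_subgroupOf.2 (α.symm ⟨z, hz⟩).2, ?_⟩
        have h1 : Subgroup.inclusion hle ⟨(α.symm ⟨z, hz⟩ : R),
            (le_sup_left : R ≤ R ⊔ R) (α.symm ⟨z, hz⟩).2⟩ = α.symm ⟨z, hz⟩ := Subtype.ext rfl
        exact (congrArg (fun y : R => ((α y : R) : Ω)) h1).trans
          (congrArg Subtype.val (α.apply_symm_apply ⟨z, hz⟩))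

theorem normalizer_constrained_model [Finite S] (p : ℕ) [Fact p.Prime] (hS : IsPGroup p S)
    (F : FusionSystem S) (hF : F.IsSaturated p) (R : Subgroup Ω)
    (hRn : F.IsFullyNormalized R) (hRc : F.IsCentric R) (hRr : F.IsRadical p R)
    (E : FusionSystem (normalizerIn S R)) (hE : F.IsNormalizerSystem R E)
    {G : Type*} [Group G] (ι : ↥(normalizerIn S R) →* G) :
    E.IsConstrained p ∧ (E.IsModel p G ι →
      (pCore p G : Subgroup G) = (R.subgroupOf (normalizerIn S R)).map ι) := by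
  have hRS : R ≤ S := hRc.1
  have hfinN : Finite ↥(normalizerIn S R) := finite_of_le (normalizerIn_le S R)
  have hNp : IsPGroup p ↥(normalizerIn S R) := hS.to_le (normalizerIn_le S R)
  have hEsat : E.IsSaturated p :=
    knorm_saturated p hS F hF (isKNormalizer_normalizer p hS F hF R hRn E hE)
  have hnorm := normalizer_normal F hRS E hE
  have hcen := normalizer_centric F hRc E hE
  refine ⟨⟨hEsat, R, hnorm, hcen⟩, fun hG => ?_⟩
  have hrad : E.IsRadical p R := by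
    refine ⟨le_normalizerIn hRS, ?_⟩
    rw [normalizer_autGroup_eq F hRS E hE]
    exact hRr.2
  exact model_pCore_eq p hNp E ι hG hnorm hcen hrad

end Cfsg.Agent.Helper26
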