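import Cfsg.Agent.Helper26.FusionSat
import Cfsg.Prelude.Def_FusionComponents

set_option autoImplicit false

namespace Cfsg.Agent.Helper26

open Cfsg Cfsg.FusionSystem

section ProjAut

variable {G G' : Type*} [Group G] [Group G']

def projAut (π : G →* G') (P : Subgroup G) (T : Subgroup (MulAut P)) :
    Subgroup (MulAut ↥(P.map π)) where
  carrier := {α | ∃ τ ∈ T, ∀ x : P, π ((τ x : P) : G) =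
    ((α ⟨π (x : G), ⟨x, x.2, rfl⟩⟩ : ↥(P.map π)) : G')}
  one_mem' := ⟨1, T.one_mem, fun x => rfl⟩
  mul_mem' := by
    rintro α α' ⟨τ, hτ, h⟩ ⟨τ', hτ', h'⟩
    refine ⟨τ * τ', T.mul_mem hτ hτ', fun x => ?_⟩
    have e : (⟨π ((τ' x : P) : G), ⟨τ' x, (τ' x).2, rfl⟩⟩ : ↥(P.map π)) =
        α' ⟨π (x : G), ⟨x, x.2, rfl⟩⟩ := Subtype.ext (h' x)
    show π ((τ (τ' x) : P) : G) = ((α (α' ⟨π (x : G), ⟨x, x.2, rfl⟩⟩) : ↥(P.map π)) : G')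
    rw [h (τ' x), e]
  inv_mem' := by
    rintro α ⟨τ, hτ, h⟩
    refine ⟨τ⁻¹, T.inv_mem hτ, fun x => ?_⟩
    have h1 := h (τ⁻¹ x)
    rw [MulAut.apply_inv_self] at h1
    have e : (⟨π (x : G), ⟨x, x.2, rfl⟩⟩ : ↥(P.map π)) =
        α ⟨π ((τ⁻¹ x : P) : G), ⟨τ⁻¹ x, (τ⁻¹ x).2, rfl⟩⟩ := Subtype.ext h1
    have e' : α⁻¹ ⟨π (x : G), ⟨x, x.2, rfl⟩⟩ =
        (⟨π ((τ⁻¹ x : P) : G), ⟨τ⁻¹ x, (τ⁻¹ x).2, rfl⟩⟩ : ↥(P.map π)) := by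
      rw [e, MulAut.inv_apply_self]
    exact (congrArg Subtype.val e').symm

theorem mem_projAut {π : G →* G'} {P : Subgroup G} {T : Subgroup (MulAut P)}
    {α : MulAut ↥(P.map π)} : α ∈ projAut π P T ↔ ∃ τ ∈ T, ∀ x : P, π ((τ x : P) : G) =
      ((α ⟨π (x : G), ⟨x, x.2, rfl⟩⟩ : ↥(P.map π)) : G') := Iff.rfl

theorem projAut_pow {π : G →* G'} {P : Subgroup G} {τ : MulAut P} {α : MulAut ↥(P.map π)}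
    (h : ∀ x : P, π ((τ x : P) : G) = ((α ⟨π (x : G), ⟨x, x.2, rfl⟩⟩ : ↥(P.map π)) : G'))
    (n : ℕ) : ∀ x : P, π (((τ ^ n) x : P) : G) =
      (((α ^ n) ⟨π (x : G), ⟨x, x.2, rfl⟩⟩ : ↥(P.map π)) : G') := by
  induction n with
  | zero =>
    have aux : ∀ (τ' : MulAut P) (α' : MulAut ↥(P.map π)), τ' = 1 → α' = 1 →
        ∀ x : P, π ((τ' x : P) : G) =
          ((α' ⟨π (x : G), ⟨x, x.2, rfl⟩⟩ : ↥(P.map π)) : G') := by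
      intro τ' α' h1 h2 x
      subst h1
      subst h2
      rfl
    exact aux _ _ (pow_zero τ) (pow_zero α)
  | succ n ih =>
    have aux : ∀ (τ' : MulAut P) (α' : MulAut ↥(P.map π)), τ' = τ ^ n * τ → α' = α ^ n * α →
        ∀ x : P, π ((τ' x : P) : G) =
          ((α' ⟨π (x : G), ⟨x, x.2, rfl⟩⟩ : ↥(P.map π)) : G') := by
      intro τ' α' h1 h2 x
      subst h1
      subst h2
      have e : (⟨π ((τ x : P) : G), ⟨τ x, (τ x).2, rfl⟩⟩ : ↥(P.map π)) =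
          α ⟨π (x : G), ⟨x, x.2, rfl⟩⟩ := Subtype.ext (h x)
      show π (((τ ^ n) (τ x) : P) : G) =
        (((α ^ n) (α ⟨π (x : G), ⟨x, x.2, rfl⟩⟩) : ↥(P.map π)) : G')
      rw [ih (τ x), e]
    exact aux _ _ (pow_succ τ n) (pow_succ α n)

theorem isPGroup_projAut {p : ℕ} (π : G →* G') (P : Subgroup G) {T : Subgroup (MulAut P)}
    (hT : IsPGroup p T) : IsPGroup p (projAut π P T) := by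
  rintro ⟨α, hα⟩
  obtain ⟨τ, hτ, h⟩ := mem_projAut.1 hα
  obtain ⟨k, hk⟩ := hT ⟨τ, hτ⟩
  have hk' : τ ^ p ^ k = 1 := by
    have h0 := congrArg Subtype.val hk
    rw [Subgroup.coe_pow, Subgroup.coe_one] at h0
    exact h0
  refine ⟨k, Subtype.ext ?_⟩
  rw [Subgroup.coe_pow, Subgroup.coe_one]
  apply MulEquiv.ext
  rintro ⟨_, x, hx, rfl⟩
  apply Subtype.ext
  have h1 := projAut_pow h (p ^ k) ⟨x, hx⟩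
  rw [hk'] at h1
  exact h1.symm

theorem exists_projAut_of (π : G →* G') (P : Subgroup G) (τ : MulAut P)
    (φ' : ↥(P.map π) →* G') (hinj : Function.Injective φ')
    (h : ∀ x : P, π ((τ x : P) : G) = φ' ⟨π (x : G), ⟨x, x.2, rfl⟩⟩) :
    ∃ α : MulAut ↥(P.map π), ∀ x : P, π ((τ x : P) : G) =
      ((α ⟨π (x : G), ⟨x, x.2, rfl⟩⟩ : ↥(P.map π)) : G') := by
  have hr : φ'.range = P.map π := by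
    ext y
    constructor
    · rintro ⟨⟨_, x, hx, rfl⟩, rfl⟩
      have hmem : π ((τ ⟨x, hx⟩ : P) : G) ∈ P.map π := ⟨_, (τ ⟨x, hx⟩).2, rfl⟩
      rw [h ⟨x, hx⟩] at hmem
      exact hmem
    · rintro ⟨x, hx, rfl⟩
      have h' := h (τ.symm ⟨x, hx⟩)
      rw [MulEquiv.apply_symm_apply] at h'
      exact ⟨_, h'.symm⟩
  exact ⟨isoOfInj φ' hinj hr, fun x => h x⟩

end ProjAut

section ProdSys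

variable {Ω₁ Ω₂ : Type*} [Group Ω₁] [Group Ω₂] {S₁ : Subgroup Ω₁} {S₂ : Subgroup Ω₂}

def prodHom (P : Subgroup (Ω₁ × Ω₂)) (φ₁ : ↥(P.map (MonoidHom.fst Ω₁ Ω₂)) →* Ω₁)
    (φ₂ : ↥(P.map (MonoidHom.snd Ω₁ Ω₂)) →* Ω₂) : P →* Ω₁ × Ω₂ :=
  (φ₁.comp ((MonoidHom.fst Ω₁ Ω₂).subgroupMap P)).prod
    (φ₂.comp ((MonoidHom.snd Ω₁ Ω₂).subgroupMap P))

theorem prodHom_apply (P : Subgroup (Ω₁ × Ω₂)) (φ₁ : ↥(P.map (MonoidHom.fst Ω₁ Ω₂)) →* Ω₁)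
    (φ₂ : ↥(P.map (MonoidHom.snd Ω₁ Ω₂)) →* Ω₂) (x : P) :
    prodHom P φ₁ φ₂ x = (φ₁ ⟨(MonoidHom.fst Ω₁ Ω₂) (x : Ω₁ × Ω₂), ⟨x, x.2, rfl⟩⟩,
      φ₂ ⟨(MonoidHom.snd Ω₁ Ω₂) (x : Ω₁ × Ω₂), ⟨x, x.2, rfl⟩⟩) := rfl

def prodAutHom (P : Subgroup (Ω₁ × Ω₂)) (β₁ : MulAut ↥(P.map (MonoidHom.fst Ω₁ Ω₂)))
    (β₂ : MulAut ↥(P.map (MonoidHom.snd Ω₁ Ω₂))) : P →* Ω₁ × Ω₂ :=
  prodHom P ((P.map (MonoidHom.fst Ω₁ Ω₂)).subtype.comp β₁.toMonoidHom)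
    ((P.map (MonoidHom.snd Ω₁ Ω₂)).subtype.comp β₂.toMonoidHom)

theorem finite_prod (S₁ : Subgroup Ω₁) (S₂ : Subgroup Ω₂) [Finite S₁] [Finite S₂] :
    Finite ↥(S₁.prod S₂) := by
  apply Finite.of_injective (fun x : ↥(S₁.prod S₂) =>
    ((⟨(x : Ω₁ × Ω₂).1, (Subgroup.mem_prod.1 x.2).1⟩ : S₁),
     (⟨(x : Ω₁ × Ω₂).2, (Subgroup.mem_prod.1 x.2).2⟩ : S₂)))
  intro x y h
  apply Subtype.ext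
  have h1 := congrArg (fun z : S₁ × S₂ => (z.1 : Ω₁)) h
  have h2 := congrArg (fun z : S₁ × S₂ => (z.2 : Ω₂)) h
  exact Prod.ext h1 h2

theorem isPGroup_prod {p : ℕ} (h₁ : IsPGroup p S₁) (h₂ : IsPGroup p S₂) :
    IsPGroup p ↥(S₁.prod S₂) := by
  rintro ⟨⟨a, b⟩, hab⟩
  obtain ⟨ha, hb⟩ := Subgroup.mem_prod.1 hab
  obtain ⟨k, hk⟩ := h₁ ⟨a, ha⟩
  obtain ⟨l, hl⟩ := h₂ ⟨b, hb⟩
  have hk' : a ^ p ^ k = 1 := by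
    have h0 := congrArg Subtype.val hk
    rw [Subgroup.coe_pow, Subgroup.coe_one] at h0
    exact h0
  have hl' : b ^ p ^ l = 1 := by
    have h0 := congrArg Subtype.val hl
    rw [Subgroup.coe_pow, Subgroup.coe_one] at h0
    exact h0
  have e1 : a ^ p ^ (k + l) = 1 := by rw [pow_add, pow_mul, hk', one_pow]
  have e2 : b ^ p ^ (k + l) = 1 := by rw [pow_add, pow_mul', hl', one_pow]
  refine ⟨k + l, Subtype.ext ?_⟩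
  rw [Subgroup.coe_pow, Subgroup.coe_one]
  show (a, b) ^ p ^ (k + l) = 1
  rw [Prod.pow_mk, e1, e2]
  exact rfl

theorem map_fst_le {P : Subgroup (Ω₁ × Ω₂)} (hP : P ≤ S₁.prod S₂) :
    P.map (MonoidHom.fst Ω₁ Ω₂) ≤ S₁ := by
  rintro _ ⟨x, hx, rfl⟩
  exact (Subgroup.mem_prod.1 (hP hx)).1

theorem map_snd_le {P : Subgroup (Ω₁ × Ω₂)} (hP : P ≤ S₁.prod S₂) :
    P.map (MonoidHom.snd Ω₁ Ω₂) ≤ S₂ := by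
  rintro _ ⟨x, hx, rfl⟩
  exact (Subgroup.mem_prod.1 (hP hx)).2

theorem prod_mem_iff {F₁ : FusionSystem S₁} {F₂ : FusionSystem S₂}
    {E : FusionSystem (S₁.prod S₂)} (hE : IsProductSystem F₁ F₂ E) {P : Subgroup (Ω₁ × Ω₂)}
    {φ : P →* Ω₁ × Ω₂} :
    φ ∈ E.Hom P ↔ P ≤ S₁.prod S₂ ∧ ∃ φ₁ ∈ F₁.Hom (P.map (MonoidHom.fst Ω₁ Ω₂)),
      ∃ φ₂ ∈ F₂.Hom (P.map (MonoidHom.snd Ω₁ Ω₂)), φ = prodHom P φ₁ φ₂ := by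
  rw [hE P φ]
  constructor
  · rintro ⟨hP, φ₁, h₁, φ₂, h₂, h⟩
    exact ⟨hP, φ₁, h₁, φ₂, h₂, MonoidHom.ext (fun x => h x ⟨x, x.2, rfl⟩ ⟨x, x.2, rfl⟩)⟩
  · rintro ⟨hP, φ₁, h₁, φ₂, h₂, rfl⟩
    exact ⟨hP, φ₁, h₁, φ₂, h₂, fun x _ _ => rfl⟩

theorem range_prodHom_fst (P : Subgroup (Ω₁ × Ω₂))
    (φ₁ : ↥(P.map (MonoidHom.fst Ω₁ Ω₂)) →* Ω₁) (φ₂ : ↥(P.map (MonoidHom.snd Ω₁ Ω₂)) →* Ω₂) :
    ((prodHom P φ₁ φ₂).range).map (MonoidHom.fst Ω₁ Ω₂) = φ₁.range := by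
  ext y
  constructor
  · rintro ⟨_, ⟨x, rfl⟩, rfl⟩
    exact ⟨⟨(MonoidHom.fst Ω₁ Ω₂) (x : Ω₁ × Ω₂), ⟨x, x.2, rfl⟩⟩, rfl⟩
  · rintro ⟨⟨_, x, hx, rfl⟩, rfl⟩
    exact ⟨prodHom P φ₁ φ₂ ⟨x, hx⟩, ⟨_, rfl⟩, rfl⟩

theorem range_prodHom_snd (P : Subgroup (Ω₁ × Ω₂))
    (φ₁ : ↥(P.map (MonoidHom.fst Ω₁ Ω₂)) →* Ω₁) (φ₂ : ↥(P.map (MonoidHom.snd Ω₁ Ω₂)) →* Ω₂) :
    ((prodHom P φ₁ φ₂).range).map (MonoidHom.snd Ω₁ Ω₂) = φ₂.range := by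
  ext y
  constructor
  · rintro ⟨_, ⟨x, rfl⟩, rfl⟩
    exact ⟨⟨(MonoidHom.snd Ω₁ Ω₂) (x : Ω₁ × Ω₂), ⟨x, x.2, rfl⟩⟩, rfl⟩
  · rintro ⟨⟨_, x, hx, rfl⟩, rfl⟩
    exact ⟨prodHom P φ₁ φ₂ ⟨x, hx⟩, ⟨_, rfl⟩, rfl⟩

theorem prod_receptive {F₁ : FusionSystem S₁} {F₂ : FusionSystem S₂}
    {E : FusionSystem (S₁.prod S₂)} (hE : IsProductSystem F₁ F₂ E) {Q : Subgroup (Ω₁ × Ω₂)}
    (hQ : Q ≤ S₁.prod S₂) (h₁ : F₁.IsReceptive (Q.map (MonoidHom.fst Ω₁ Ω₂)))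
    (h₂ : F₂.IsReceptive (Q.map (MonoidHom.snd Ω₁ Ω₂))) : E.IsReceptive Q := by
  refine ⟨hQ, fun P φ hφ hr => ?_⟩
  obtain ⟨hP, φ₁, hφ₁, φ₂, hφ₂, rfl⟩ := (prod_mem_iff hE).1 hφ
  have hr₁ : φ₁.range = Q.map (MonoidHom.fst Ω₁ Ω₂) := by
    rw [← hr, range_prodHom_fst]
  have hr₂ : φ₂.range = Q.map (MonoidHom.snd Ω₁ Ω₂) := by
    rw [← hr, range_prodHom_snd]
  obtain ⟨ψ₁, hψ₁, hext₁⟩ := h₁.2 _ φ₁ hφ₁ hr₁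
  obtain ⟨ψ₂, hψ₂, hext₂⟩ := h₂.2 _ φ₂ hφ₂ hr₂
  have hN₁ : (extender (S₁.prod S₂) P (prodHom P φ₁ φ₂)).map (MonoidHom.fst Ω₁ Ω₂) ≤
      extender S₁ (P.map (MonoidHom.fst Ω₁ Ω₂)) φ₁ := by
    rintro _ ⟨g, hg, rfl⟩
    obtain ⟨hgS, hgN, h, hhS, hgh⟩ := mem_extender_iff.1 hg
    refine mem_extender_iff.2 ⟨(Subgroup.mem_prod.1 hgS).1,
      Subgroup.le_normalizer_map (MonoidHom.fst Ω₁ Ω₂) ⟨g, hgN, rfl⟩,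
      (MonoidHom.fst Ω₁ Ω₂) h, (Subgroup.mem_prod.1 hhS).1, ?_⟩
    rintro ⟨_, x, hx, rfl⟩ hx'
    have hx2 : g * x * g⁻¹ ∈ P := (Subgroup.mem_normalizer_iff.1 hgN x).1 hx
    exact congrArg Prod.fst (hgh ⟨x, hx⟩ hx2)
  have hN₂ : (extender (S₁.prod S₂) P (prodHom P φ₁ φ₂)).map (MonoidHom.snd Ω₁ Ω₂) ≤
      extender S₂ (P.map (MonoidHom.snd Ω₁ Ω₂)) φ₂ := by
    rintro _ ⟨g, hg, rfl⟩
    obtain ⟨hgS, hgN, h, hhS, hgh⟩ := mem_extender_iff.1 hg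
    refine mem_extender_iff.2 ⟨(Subgroup.mem_prod.1 hgS).2,
      Subgroup.le_normalizer_map (MonoidHom.snd Ω₁ Ω₂) ⟨g, hgN, rfl⟩,
      (MonoidHom.snd Ω₁ Ω₂) h, (Subgroup.mem_prod.1 hhS).2, ?_⟩
    rintro ⟨_, x, hx, rfl⟩ hx'
    have hx2 : g * x * g⁻¹ ∈ P := (Subgroup.mem_normalizer_iff.1 hgN x).1 hx
    exact congrArg Prod.snd (hgh ⟨x, hx⟩ hx2)
  have hNS : extender (S₁.prod S₂) P (prodHom P φ₁ φ₂) ≤ S₁.prod S₂ :=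
    (extender_le_normalizerIn _ _ _).trans (normalizerIn_le _ _)
  have hψ₁' : ψ₁.comp (Subgroup.inclusion hN₁) ∈ F₁.Hom _ :=
    restrict_mem F₁ hψ₁ hN₁ (fun x => rfl)
  have hψ₂' : ψ₂.comp (Subgroup.inclusion hN₂) ∈ F₂.Hom _ :=
    restrict_mem F₂ hψ₂ hN₂ (fun x => rfl)
  refine ⟨prodHom _ (ψ₁.comp (Subgroup.inclusion hN₁)) (ψ₂.comp (Subgroup.inclusion hN₂)),
    (prod_mem_iff hE).2 ⟨hNS, _, hψ₁', _, hψ₂', rfl⟩, ?_⟩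
  intro x hxP hxN
  apply Prod.ext
  · exact hext₁ ((MonoidHom.fst Ω₁ Ω₂) x) ⟨x, hxP, rfl⟩ (hN₁ ⟨x, hxN, rfl⟩)
  · exact hext₂ ((MonoidHom.snd Ω₁ Ω₂) x) ⟨x, hxP, rfl⟩ (hN₂ ⟨x, hxN, rfl⟩)

theorem exists_projAut {F₁ : FusionSystem S₁} {F₂ : FusionSystem S₂}
    {E : FusionSystem (S₁.prod S₂)} (hE : IsProductSystem F₁ F₂ E) {P : Subgroup (Ω₁ × Ω₂)}
    (hP : P ≤ S₁.prod S₂) {τ : MulAut P} (hτ : τ ∈ E.autGroup P) :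
    (∃ α₁ : MulAut ↥(P.map (MonoidHom.fst Ω₁ Ω₂)), ∀ x : P,
      (MonoidHom.fst Ω₁ Ω₂) ((τ x : P) : Ω₁ × Ω₂) =
        ((α₁ ⟨(MonoidHom.fst Ω₁ Ω₂) (x : Ω₁ × Ω₂), ⟨x, x.2, rfl⟩⟩ :
          ↥(P.map (MonoidHom.fst Ω₁ Ω₂))) : Ω₁)) ∧
    (∃ α₂ : MulAut ↥(P.map (MonoidHom.snd Ω₁ Ω₂)), ∀ x : P,
      (MonoidHom.snd Ω₁ Ω₂) ((τ x : P) : Ω₁ × Ω₂) =
        ((α₂ ⟨(MonoidHom.snd Ω₁ Ω₂) (x : Ω₁ × Ω₂), ⟨x, x.2, rfl⟩⟩ :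
          ↥(P.map (MonoidHom.snd Ω₁ Ω₂))) : Ω₂)) := by
  obtain ⟨-, φ₁, hφ₁, φ₂, hφ₂, hτeq⟩ := (prod_mem_iff hE).1 ((mem_autGroup_iff E hP).1 hτ)
  have hval : ∀ x : P, ((τ x : P) : Ω₁ × Ω₂) = prodHom P φ₁ φ₂ x :=
    fun x => DFunLike.congr_fun hτeq x
  exact ⟨exists_projAut_of (MonoidHom.fst Ω₁ Ω₂) P τ φ₁ (F₁.injective_of_mem hφ₁)
      (fun x => congrArg Prod.fst (hval x)),
    exists_projAut_of (MonoidHom.snd Ω₁ Ω₂) P τ φ₂ (F₂.injective_of_mem hφ₂)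
      (fun x => congrArg Prod.snd (hval x))⟩

theorem prodAut_conj_mem {P : Subgroup (Ω₁ × Ω₂)}
    (β₁ : MulAut ↥(P.map (MonoidHom.fst Ω₁ Ω₂))) (β₂ : MulAut ↥(P.map (MonoidHom.snd Ω₁ Ω₂)))
    (e : P ≃* ↥(prodAutHom P β₁ β₂).range)
    (he : ∀ x : P, ((e x : ↥(prodAutHom P β₁ β₂).range) : Ω₁ × Ω₂) = prodAutHom P β₁ β₂ x)
    (τ : MulAut P) (α₁ : MulAut ↥(P.map (MonoidHom.fst Ω₁ Ω₂)))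
    (α₂ : MulAut ↥(P.map (MonoidHom.snd Ω₁ Ω₂)))
    (hα₁ : ∀ x : P, (MonoidHom.fst Ω₁ Ω₂) ((τ x : P) : Ω₁ × Ω₂) =
        ((α₁ ⟨(MonoidHom.fst Ω₁ Ω₂) (x : Ω₁ × Ω₂), ⟨x, x.2, rfl⟩⟩ :
          ↥(P.map (MonoidHom.fst Ω₁ Ω₂))) : Ω₁))
    (hα₂ : ∀ x : P, (MonoidHom.snd Ω₁ Ω₂) ((τ x : P) : Ω₁ × Ω₂) =
        ((α₂ ⟨(MonoidHom.snd Ω₁ Ω₂) (x : Ω₁ × Ω₂), ⟨x, x.2, rfl⟩⟩ :
          ↥(P.map (MonoidHom.snd Ω₁ Ω₂))) : Ω₂))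
    (g₁ : Ω₁) (g₂ : Ω₂)
    (hg₁ : ∀ z : ↥(P.map (MonoidHom.fst Ω₁ Ω₂)),
      ((((MulAut.conj β₁).toMonoidHom α₁) z : ↥(P.map (MonoidHom.fst Ω₁ Ω₂))) : Ω₁) =
        g₁ * (z : Ω₁) * g₁⁻¹)
    (hg₂ : ∀ z : ↥(P.map (MonoidHom.snd Ω₁ Ω₂)),
      ((((MulAut.conj β₂).toMonoidHom α₂) z : ↥(P.map (MonoidHom.snd Ω₁ Ω₂))) : Ω₂) =
        g₂ * (z : Ω₂) * g₂⁻¹) :
    ∀ y : ↥(prodAutHom P β₁ β₂).range,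
      ((((MulAut.congr e) τ) y : ↥(prodAutHom P β₁ β₂).range) : Ω₁ × Ω₂) =
        (g₁, g₂) * (y : Ω₁ × Ω₂) * (g₁, g₂)⁻¹ := by
  intro y
  obtain ⟨x, hx⟩ : ∃ x : P, x = e.symm y := ⟨_, rfl⟩
  have hy : e x = y := by rw [hx]; exact e.apply_symm_apply y
  have hyv : (y : Ω₁ × Ω₂) = prodAutHom P β₁ β₂ x := by rw [← hy]; exact he x
  show ((e (τ (e.symm y)) : ↥(prodAutHom P β₁ β₂).range) : Ω₁ × Ω₂) = _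
  rw [← hx, he (τ x), hyv]
  apply Prod.ext
  · show ((β₁ ⟨(MonoidHom.fst Ω₁ Ω₂) ((τ x : P) : Ω₁ × Ω₂), ⟨τ x, (τ x).2, rfl⟩⟩ :
        ↥(P.map (MonoidHom.fst Ω₁ Ω₂))) : Ω₁) =
      g₁ * ((β₁ ⟨(MonoidHom.fst Ω₁ Ω₂) (x : Ω₁ × Ω₂), ⟨x, x.2, rfl⟩⟩ :
        ↥(P.map (MonoidHom.fst Ω₁ Ω₂))) : Ω₁) * g₁⁻¹
    have e1 : (⟨(MonoidHom.fst Ω₁ Ω₂) ((τ x : P) : Ω₁ × Ω₂), ⟨τ x, (τ x).2, rfl⟩⟩ :
        ↥(P.map (MonoidHom.fst Ω₁ Ω₂))) =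
        α₁ ⟨(MonoidHom.fst Ω₁ Ω₂) (x : Ω₁ × Ω₂), ⟨x, x.2, rfl⟩⟩ := Subtype.ext (hα₁ x)
    have e2 := hg₁ (β₁ ⟨(MonoidHom.fst Ω₁ Ω₂) (x : Ω₁ × Ω₂), ⟨x, x.2, rfl⟩⟩)
    have e3 : (((MulAut.conj β₁).toMonoidHom α₁)
        (β₁ ⟨(MonoidHom.fst Ω₁ Ω₂) (x : Ω₁ × Ω₂), ⟨x, x.2, rfl⟩⟩)) =
        β₁ (α₁ ⟨(MonoidHom.fst Ω₁ Ω₂) (x : Ω₁ × Ω₂), ⟨x, x.2, rfl⟩⟩) := by
      show β₁ (α₁ (β₁⁻¹ (β₁ ⟨(MonoidHom.fst Ω₁ Ω₂) (x : Ω₁ × Ω₂), ⟨x, x.2, rfl⟩⟩))) = _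
      rw [MulAut.inv_apply_self]
    rw [e3] at e2
    rw [e1]
    exact e2
  · show ((β₂ ⟨(MonoidHom.snd Ω₁ Ω₂) ((τ x : P) : Ω₁ × Ω₂), ⟨τ x, (τ x).2, rfl⟩⟩ :
        ↥(P.map (MonoidHom.snd Ω₁ Ω₂))) : Ω₂) =
      g₂ * ((β₂ ⟨(MonoidHom.snd Ω₁ Ω₂) (x : Ω₁ × Ω₂), ⟨x, x.2, rfl⟩⟩ :
        ↥(P.map (MonoidHom.snd Ω₁ Ω₂))) : Ω₂) * g₂⁻¹
    have e1 : (⟨(MonoidHom.snd Ω₁ Ω₂) ((τ x : P) : Ω₁ × Ω₂), ⟨τ x, (τ x).2, rfl⟩⟩ :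
        ↥(P.map (MonoidHom.snd Ω₁ Ω₂))) =
        α₂ ⟨(MonoidHom.snd Ω₁ Ω₂) (x : Ω₁ × Ω₂), ⟨x, x.2, rfl⟩⟩ := Subtype.ext (hα₂ x)
    have e2 := hg₂ (β₂ ⟨(MonoidHom.snd Ω₁ Ω₂) (x : Ω₁ × Ω₂), ⟨x, x.2, rfl⟩⟩)
    have e3 : (((MulAut.conj β₂).toMonoidHom α₂)
        (β₂ ⟨(MonoidHom.snd Ω₁ Ω₂) (x : Ω₁ × Ω₂), ⟨x, x.2, rfl⟩⟩)) =
        β₂ (α₂ ⟨(MonoidHom.snd Ω₁ Ω₂) (x : Ω₁ × Ω₂), ⟨x, x.2, rfl⟩⟩) := by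
      show β₂ (α₂ (β₂⁻¹ (β₂ ⟨(MonoidHom.snd Ω₁ Ω₂) (x : Ω₁ × Ω₂), ⟨x, x.2, rfl⟩⟩))) = _
      rw [MulAut.inv_apply_self]
    rw [e3] at e2
    rw [e1]
    exact e2

theorem prod_fullyAutomized [Finite S₁] [Finite S₂] (p : ℕ) [Fact p.Prime]
    (hp₁ : IsPGroup p S₁) (hp₂ : IsPGroup p S₂)
    {F₁ : FusionSystem S₁} {F₂ : FusionSystem S₂} {E : FusionSystem (S₁.prod S₂)}
    (hE : IsProductSystem F₁ F₂ E) {P : Subgroup (Ω₁ × Ω₂)} (hP : P ≤ S₁.prod S₂)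
    (h₁ : F₁.IsFullyAutomized p (P.map (MonoidHom.fst Ω₁ Ω₂)))
    (h₂ : F₂.IsFullyAutomized p (P.map (MonoidHom.snd Ω₁ Ω₂))) :
    ∃ β ∈ E.Hom P, (β.range).map (MonoidHom.fst Ω₁ Ω₂) = P.map (MonoidHom.fst Ω₁ Ω₂) ∧
      (β.range).map (MonoidHom.snd Ω₁ Ω₂) = P.map (MonoidHom.snd Ω₁ Ω₂) ∧
      E.IsFullyAutomized p β.range := by
  have hfinS : Finite ↥(S₁.prod S₂) := finite_prod S₁ S₂
  have hSp : IsPGroup p ↥(S₁.prod S₂) := isPGroup_prod hp₁ hp₂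
  have hfinP : Finite P := finite_of_le hP
  have hQ₁ : P.map (MonoidHom.fst Ω₁ Ω₂) ≤ S₁ := h₁.1
  have hQ₂ : P.map (MonoidHom.snd Ω₁ Ω₂) ≤ S₂ := h₂.1
  have hfinQ₁ : Finite ↥(P.map (MonoidHom.fst Ω₁ Ω₂)) := finite_of_le hQ₁
  have hfinQ₂ : Finite ↥(P.map (MonoidHom.snd Ω₁ Ω₂)) := finite_of_le hQ₂
  obtain ⟨T₀⟩ : Nonempty (Sylow p ↥(E.autGroup P)) := inferInstance
  obtain ⟨T, hTdef⟩ : ∃ T : Subgroup (MulAut P),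
      T = (T₀ : Subgroup ↥(E.autGroup P)).map (E.autGroup P).subtype := ⟨_, rfl⟩
  have hTp : IsPGroup p T := by rw [hTdef]; exact T₀.isPGroup'.map _
  have hTK : T ≤ E.autGroup P := by rw [hTdef]; exact Subgroup.map_subtype_le _
  have hTsyl : ∃ R : Sylow p ↥(E.autGroup P),
      (R : Subgroup ↥(E.autGroup P)) = T.subgroupOf (E.autGroup P) :=
    ⟨T₀, by rw [hTdef]; exact (Subgroup.comap_map_eq_self_of_injective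
      (E.autGroup P).subtype_injective _).symm⟩
  have hH₁p : IsPGroup p (projAut (MonoidHom.fst Ω₁ Ω₂) P T) := isPGroup_projAut _ _ hTp
  have hH₂p : IsPGroup p (projAut (MonoidHom.snd Ω₁ Ω₂) P T) := isPGroup_projAut _ _ hTp
  have hH₁K : projAut (MonoidHom.fst Ω₁ Ω₂) P T ≤
      F₁.autGroup (P.map (MonoidHom.fst Ω₁ Ω₂)) := by
    intro α hα
    obtain ⟨τ, hτ, hrel⟩ := mem_projAut.1 hα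
    obtain ⟨-, φ₁, hφ₁, φ₂, hφ₂, hτeq⟩ :=
      (prod_mem_iff hE).1 ((mem_autGroup_iff E hP).1 (hTK hτ))
    rw [mem_autGroup_iff F₁ hQ₁]
    refine mem_of_eq F₁ hφ₁ ?_
    rintro ⟨_, x, hx, rfl⟩
    have h0 : ((τ ⟨x, hx⟩ : P) : Ω₁ × Ω₂) = prodHom P φ₁ φ₂ ⟨x, hx⟩ :=
      DFunLike.congr_fun hτeq (⟨x, hx⟩ : P)
    have h3 : (MonoidHom.fst Ω₁ Ω₂) ((τ ⟨x, hx⟩ : P) : Ω₁ × Ω₂) =
        φ₁ ⟨(MonoidHom.fst Ω₁ Ω₂) x, ⟨x, hx, rfl⟩⟩ :=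
      congrArg Prod.fst h0
    exact (hrel ⟨x, hx⟩).symm.trans h3
  have hH₂K : projAut (MonoidHom.snd Ω₁ Ω₂) P T ≤
      F₂.autGroup (P.map (MonoidHom.snd Ω₁ Ω₂)) := by
    intro α hα
    obtain ⟨τ, hτ, hrel⟩ := mem_projAut.1 hα
    obtain ⟨-, φ₁, hφ₁, φ₂, hφ₂, hτeq⟩ :=
      (prod_mem_iff hE).1 ((mem_autGroup_iff E hP).1 (hTK hτ))
    rw [mem_autGroup_iff F₂ hQ₂]
    refine mem_of_eq F₂ hφ₂ ?_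
    rintro ⟨_, x, hx, rfl⟩
    have h0 : ((τ ⟨x, hx⟩ : P) : Ω₁ × Ω₂) = prodHom P φ₁ φ₂ ⟨x, hx⟩ :=
      DFunLike.congr_fun hτeq (⟨x, hx⟩ : P)
    have h3 : (MonoidHom.snd Ω₁ Ω₂) ((τ ⟨x, hx⟩ : P) : Ω₁ × Ω₂) =
        φ₂ ⟨(MonoidHom.snd Ω₁ Ω₂) x, ⟨x, hx, rfl⟩⟩ :=
      congrArg Prod.snd h0
    exact (hrel ⟨x, hx⟩).symm.trans h3
  obtain ⟨β₁, hβ₁, hconj₁⟩ := exists_conj_le_of_sylowIn h₁.2 hH₁p hH₁K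
  obtain ⟨β₂, hβ₂, hconj₂⟩ := exists_conj_le_of_sylowIn h₂.2 hH₂p hH₂K
  have hβ : prodAutHom P β₁ β₂ ∈ E.Hom P :=
    (prod_mem_iff hE).2 ⟨hP, _, (mem_autGroup_iff F₁ hQ₁).1 hβ₁, _,
      (mem_autGroup_iff F₂ hQ₂).1 hβ₂, rfl⟩
  have hRS : (prodAutHom P β₁ β₂).range ≤ S₁.prod S₂ := by
    rintro _ ⟨x, rfl⟩
    exact (E.le_of_mem hβ).2 x
  have hfinR : Finite ↥(prodAutHom P β₁ β₂).range := finite_of_le hRS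
  refine ⟨prodAutHom P β₁ β₂, hβ, ?_, ?_, ?_⟩
  · exact (range_prodHom_fst P _ _).trans (range_iso β₁)
  · exact (range_prodHom_snd P _ _).trans (range_iso β₂)
  · obtain ⟨e, he⟩ : ∃ e : P ≃* ↥(prodAutHom P β₁ β₂).range, ∀ x : P,
        ((e x : ↥(prodAutHom P β₁ β₂).range) : Ω₁ × Ω₂) = prodAutHom P β₁ β₂ x :=
      ⟨isoOfInj _ (E.injective_of_mem hβ) rfl, fun x => rfl⟩
    have hemem : ((prodAutHom P β₁ β₂).range).subtype.comp e.toMonoidHom ∈ E.Hom P :=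
      mem_of_eq E hβ (fun x => he x)
    have hsymm : P.subtype.comp e.symm.toMonoidHom ∈ E.Hom (prodAutHom P β₁ β₂).range :=
      iso_symm_mem E e hemem
    refine ⟨hRS, sylowIn_of_card_le (autInducedBy_le_autGroup E hRS)
      (isPGroup_autInducedBy hSp _) ?_⟩
    intro H' hH'p _ hH'K
    have hle1 : H'.map (MulAut.congr e.symm).toMonoidHom ≤ E.autGroup P := by
      rintro _ ⟨α, hα, rfl⟩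
      exact congr_mem_autGroup E e.symm hsymm (hH'K hα)
    have hc1 : Nat.card (H'.map (MulAut.congr e.symm).toMonoidHom) ≤ Nat.card T :=
      card_le_of_sylowIn hTK hTsyl (hH'p.map _) hle1
    rw [Subgroup.card_map_of_injective (MulAut.congr e.symm).injective] at hc1
    have hle2 : T.map (MulAut.congr e).toMonoidHom ≤
        autInducedBy (S₁.prod S₂) (prodAutHom P β₁ β₂).range := by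
      rintro _ ⟨τ, hτ, rfl⟩
      obtain ⟨⟨α₁, hα₁⟩, ⟨α₂, hα₂⟩⟩ := exists_projAut hE hP (hTK hτ)
      obtain ⟨g₁, hg₁, hg₁eq⟩ := mem_autInducedBy_iff.1
        (hconj₁ (Subgroup.mem_map_of_mem _ (mem_projAut.2 ⟨τ, hτ, hα₁⟩)))
      obtain ⟨g₂, hg₂, hg₂eq⟩ := mem_autInducedBy_iff.1
        (hconj₂ (Subgroup.mem_map_of_mem _ (mem_projAut.2 ⟨τ, hτ, hα₂⟩)))
      exact mem_autInducedBy_iff.2 ⟨(g₁, g₂), Subgroup.mem_prod.2 ⟨hg₁, hg₂⟩,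
        prodAut_conj_mem β₁ β₂ e he τ α₁ α₂ hα₁ hα₂ g₁ g₂ hg₁eq hg₂eq⟩
    have hc2 := Subgroup.card_le_of_le hle2
    rw [Subgroup.card_map_of_injective (MulAut.congr e).injective] at hc2
    exact hc1.trans hc2

theorem prod_saturated [Finite S₁] [Finite S₂] (p : ℕ) [Fact p.Prime]
    (hp₁ : IsPGroup p S₁) (hp₂ : IsPGroup p S₂) (F₁ : FusionSystem S₁) (F₂ : FusionSystem S₂)
    (hF₁ : F₁.IsSaturated p) (hF₂ : F₂.IsSaturated p) (E : FusionSystem (S₁.prod S₂))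
    (hE : IsProductSystem F₁ F₂ E) : E.IsSaturated p := by
  intro P hP
  obtain ⟨Q₁, ⟨φ₁, hφ₁, hr₁⟩, ha₁, hrec₁⟩ := hF₁ _ (map_fst_le hP)
  obtain ⟨Q₂, ⟨φ₂, hφ₂, hr₂⟩, ha₂, hrec₂⟩ := hF₂ _ (map_snd_le hP)
  have hφ : prodHom P φ₁ φ₂ ∈ E.Hom P := (prod_mem_iff hE).2 ⟨hP, φ₁, hφ₁, φ₂, hφ₂, rfl⟩
  obtain ⟨P', hP'⟩ : ∃ P' : Subgroup (Ω₁ × Ω₂), P' = (prodHom P φ₁ φ₂).range := ⟨_, rfl⟩
  have h1 : P'.map (MonoidHom.fst Ω₁ Ω₂) = Q₁ := by rw [hP', range_prodHom_fst, hr₁]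
  have h2 : P'.map (MonoidHom.snd Ω₁ Ω₂) = Q₂ := by rw [hP', range_prodHom_snd, hr₂]
  have hP'S : P' ≤ S₁.prod S₂ := by
    rw [hP']
    rintro _ ⟨x, rfl⟩
    exact (E.le_of_mem hφ).2 x
  obtain ⟨β, hβ, hb1, hb2, hfa⟩ := prod_fullyAutomized p hp₁ hp₂ hE hP'S
    (by rw [h1]; exact ha₁) (by rw [h2]; exact ha₂)
  have hRS : β.range ≤ S₁.prod S₂ := by
    rintro _ ⟨x, rfl⟩
    exact (E.le_of_mem hβ).2 x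
  refine ⟨β.range, isConj_trans E ⟨_, hφ, hP'.symm⟩ ⟨β, hβ, rfl⟩, hfa,
    prod_receptive hE hRS (by rw [hb1, h1]; exact hrec₁) (by rw [hb2, h2]; exact hrec₂)⟩

end ProdSys

end Cfsg.Agent.Helper26
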