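import Cfsg.Agent.Helper26.SubnCons
import Cfsg.Agent.Helper26.FusionNormal4
import Cfsg.Agent.Helper26.FusionNormal3
import Cfsg.Agent.Helper26.CentricUnique
import Cfsg.Agent.Helper26.GroupQuot
import Cfsg.Agent.Helper26.StabCoreB
import Cfsg.Agent.Helper16.PCore

set_option autoImplicit false

namespace Cfsg.Agent.Helper26

open Cfsg Cfsg.FusionSystem

section CoreLift

variable {Ω : Type*} [Group Ω] {S : Subgroup Ω}

def coreLift (F : FusionSystem S) (p : ℕ) (Q : Subgroup Ω) : Subgroup Ω :=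
  S ⊓ ((((pCore p (F.autGroup Q)).map (F.autGroup Q).subtype).comap
    Q.normalizerMonoidHom).map (Subgroup.normalizer (Q : Set Ω)).subtype)

theorem mem_coreLift {F : FusionSystem S} {p : ℕ} {Q : Subgroup Ω} {t : Ω} :
    t ∈ coreLift F p Q ↔ t ∈ S ∧ ∃ h : t ∈ Subgroup.normalizer (Q : Set Ω),
      Q.normalizerMonoidHom ⟨t, h⟩ ∈ (pCore p (F.autGroup Q)).map (F.autGroup Q).subtype := by
  constructor
  · rintro ⟨hS, n, hn, rfl⟩
    exact ⟨hS, n.2, hn⟩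
  · rintro ⟨hS, h, hB⟩
    exact ⟨hS, ⟨t, h⟩, hB, rfl⟩

theorem mem_normalizer_of_stronglyClosed (F : FusionSystem S) {Q : Subgroup Ω}
    (hQ : F.StronglyClosed Q) {g : Ω} (hg : g ∈ S) : g ∈ Subgroup.normalizer (Q : Set Ω) := by
  rw [Subgroup.mem_normalizer_iff]
  intro x
  constructor
  · intro hx
    exact stronglyClosed_conj_mem F hQ hg hx
  · intro hx
    have h := stronglyClosed_conj_mem F hQ (S.inv_mem hg) hx
    have e : g⁻¹ * (g * x * g⁻¹) * g⁻¹⁻¹ = x := by group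
    rw [e] at h
    exact h

theorem mem_coreLift_of_stab [Finite S] (p : ℕ) [Fact p.Prime] (hS : IsPGroup p S)
    (F : FusionSystem S) {Q Z₀ : Subgroup Ω} (hQS : Q ≤ S) (hZ₀ : F.StronglyClosed Z₀)
    {d : Ω} (hdS : d ∈ S) (hdN : d ∈ Subgroup.normalizer (Q : Set Ω))
    (h1 : ∀ y ∈ Q, y ∈ Z₀ → d * y * d⁻¹ = y)
    (h2 : ∀ y ∈ Q, y⁻¹ * (d * y * d⁻¹) ∈ Z₀) : d ∈ coreLift F p Q := by
  refine mem_coreLift.2 ⟨hdS, hdN, ?_⟩
  have hγ : Q.normalizerMonoidHom ⟨d, hdN⟩ ∈ F.autGroup Q :=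
    autInducedBy_le_autGroup F hQS (mem_autInducedBy_iff.2 ⟨d, hdS, fun x => rfl⟩)
  exact stab_mem_pCore_b p hS F hZ₀ hQS _ hγ
    (fun y hy => Subtype.ext (h1 y y.2 hy)) (fun y => h2 y y.2)

theorem coreLift_normal [Finite S] (p : ℕ) [Fact p.Prime] (hS : IsPGroup p S)
    (F : FusionSystem S) (hF : F.IsSaturated p) {Q : Subgroup Ω} (hQn : F.IsNormal Q)
    (hQc : F.IsCentric Q) : F.IsNormal (coreLift F p Q) ∧ Q ≤ coreLift F p Q := by
  have hQS : Q ≤ S := hQn.1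
  have hQsc : F.StronglyClosed Q := stronglyClosed_of_normal F hQn
  have hnorm : ∀ g ∈ S, g ∈ Subgroup.normalizer (Q : Set Ω) :=
    fun g hg => mem_normalizer_of_stronglyClosed F hQsc hg
  have hfinQ : Finite Q := finite_of_le hQS
  have hQfn : F.IsFullyNormalized Q := by
    refine ⟨hQS, fun Q' _ => ?_⟩
    have e : normalizerIn S Q = S := by
      apply le_antisymm (normalizerIn_le S Q)
      intro g hg
      exact Subgroup.mem_inf.2 ⟨hg, hnorm g hg⟩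
    rw [e]
    exact Subgroup.card_le_of_le (normalizerIn_le S Q')
  obtain ⟨hQfc, hQfa⟩ := sat_fullyNormalized p hS F hF hQfn
  have hQrec : F.IsReceptive Q := receptive_of_fullyCentralized p hS F hF hQfc
  obtain ⟨B, hB⟩ : ∃ B : Subgroup (MulAut Q),
      B = (pCore p (F.autGroup Q)).map (F.autGroup Q).subtype := ⟨_, rfl⟩
  have hmemR : ∀ t : Ω, t ∈ coreLift F p Q ↔ t ∈ S ∧
      ∃ h : t ∈ Subgroup.normalizer (Q : Set Ω), Q.normalizerMonoidHom ⟨t, h⟩ ∈ B := by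
    intro t
    rw [hB]
    exact mem_coreLift
  have hBn : ∀ α ∈ F.autGroup Q, ∀ β ∈ B, α * β * α⁻¹ ∈ B := by
    intro α hα β hβ
    rw [hB] at hβ ⊢
    obtain ⟨b, hb, rfl⟩ := hβ
    have hn : (pCore p (F.autGroup Q)).Normal := inferInstance
    exact ⟨(⟨α, hα⟩ : F.autGroup Q) * b * (⟨α, hα⟩ : F.autGroup Q)⁻¹,
      hn.conj_mem b hb ⟨α, hα⟩, rfl⟩
  have hBS : B ≤ autInducedBy S Q := by
    obtain ⟨R₀, hR₀⟩ := hQfa.2
    intro β hβ
    rw [hB] at hβ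
    obtain ⟨b, hb, rfl⟩ := hβ
    have h1 : b ∈ (R₀ : Subgroup (F.autGroup Q)) := Helper16.pCore_le_sylow R₀ hb
    rw [hR₀] at h1
    exact Subgroup.mem_subgroupOf.1 h1
  have hRconj : ∀ s ∈ S, ∀ r ∈ coreLift F p Q, s * r * s⁻¹ ∈ coreLift F p Q := by
    intro s hs r hr
    obtain ⟨hrS, hrN, hrB⟩ := (hmemR r).1 hr
    have hsN := hnorm s hs
    have hsrS : s * r * s⁻¹ ∈ S := S.mul_mem (S.mul_mem hs hrS) (S.inv_mem hs)
    refine (hmemR _).2 ⟨hsrS, hnorm _ hsrS, ?_⟩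
    have e : (⟨s * r * s⁻¹, hnorm _ hsrS⟩ : Subgroup.normalizer (Q : Set Ω)) =
        ⟨s, hsN⟩ * ⟨r, hrN⟩ * ⟨s, hsN⟩⁻¹ := Subtype.ext rfl
    rw [e, map_mul, map_mul, map_inv]
    apply hBn _ _ _ hrB
    exact autInducedBy_le_autGroup F hQS (mem_autInducedBy_iff.2 ⟨s, hs, fun x => rfl⟩)
  have hInn : ∀ q ∈ Q, ∀ hqN : q ∈ Subgroup.normalizer (Q : Set Ω),
      Q.normalizerMonoidHom ⟨q, hqN⟩ ∈ B := by
    intro q hq hqN
    rw [hB]
    have hNp : IsPGroup p ((autInducedBy Q Q).subgroupOf (F.autGroup Q)) :=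
      (isPGroup_autInducedBy (hS.to_le hQS) Q).comap_subtype
    have hNn : ((autInducedBy Q Q).subgroupOf (F.autGroup Q)).Normal := by
      refine ⟨fun n hn g => ?_⟩
      rw [Subgroup.mem_subgroupOf] at hn ⊢
      obtain ⟨q', hq', hn'⟩ := mem_autInducedBy_iff.1 hn
      refine mem_autInducedBy_iff.2 ⟨((g : MulAut Q) ⟨q', hq'⟩ : Q),
        ((g : MulAut Q) ⟨q', hq'⟩).2, fun x => ?_⟩
      have e1 : (n : MulAut Q) ((g : MulAut Q)⁻¹ x) =
          ⟨q', hq'⟩ * ((g : MulAut Q)⁻¹ x) * ⟨q', hq'⟩⁻¹ := Subtype.ext (hn' _)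
      have e3 : (g : MulAut Q) ((n : MulAut Q) ((g : MulAut Q)⁻¹ x)) =
          (g : MulAut Q) ⟨q', hq'⟩ * x * ((g : MulAut Q) ⟨q', hq'⟩)⁻¹ := by
        rw [e1, map_mul, map_mul, map_inv, MulAut.apply_inv_self]
      exact congrArg Subtype.val e3
    have hle := Helper16.le_pCore hNn hNp
    have hmem : Q.normalizerMonoidHom ⟨q, hqN⟩ ∈ autInducedBy Q Q :=
      mem_autInducedBy_iff.2 ⟨q, hq, fun x => rfl⟩
    have hF' : Q.normalizerMonoidHom ⟨q, hqN⟩ ∈ F.autGroup Q :=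
      autInducedBy_le_autGroup F hQS (mem_autInducedBy_iff.2 ⟨q, hQS hq, fun x => rfl⟩)
    exact ⟨⟨_, hF'⟩, hle (Subgroup.mem_subgroupOf.2 hmem), rfl⟩
  have hQR : Q ≤ coreLift F p Q := fun q hq =>
    (hmemR q).2 ⟨hQS hq, Subgroup.le_normalizer hq, hInn q hq _⟩
  have hRS : coreLift F p Q ≤ S := fun t ht => ((hmemR t).1 ht).1
  refine ⟨(normal_iff_extend p hS F hF _ hRS).2 ?_, hQR⟩
  intro P hPR φ hφ
  obtain ⟨ψ, hψ, hψP, hψQ⟩ := hQn.2 P φ hφ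
  obtain ⟨φ₀, hφ₀def⟩ : ∃ φ₀ : Q →* Ω,
      φ₀ = ψ.comp (Subgroup.inclusion (le_sup_right : Q ≤ P ⊔ Q)) := ⟨_, rfl⟩
  have hφ₀ : φ₀ ∈ F.Hom Q := by
    rw [hφ₀def]
    exact restrict_mem F hψ le_sup_right (fun x => rfl)
  have hφ₀apply : ∀ (x : Ω) (hx : x ∈ Q),
      φ₀ ⟨x, hx⟩ = ψ ⟨x, (le_sup_right : Q ≤ P ⊔ Q) hx⟩ := by
    intro x hx
    subst hφ₀def
    rfl
  have hmemQ : ∀ y : Ω, y ∈ Q ↔ ∃ x : ↥(P ⊔ Q), (x : Ω) ∈ Q ∧ ψ x = y := by
    intro y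
    constructor
    · intro hy
      have hy' : y ∈ (Q.subgroupOf (P ⊔ Q)).map ψ := by rw [hψQ]; exact hy
      obtain ⟨x, hx, hxy⟩ := hy'
      exact ⟨x, Subgroup.mem_subgroupOf.1 hx, hxy⟩
    · rintro ⟨x, hx, rfl⟩
      have hm : ψ x ∈ (Q.subgroupOf (P ⊔ Q)).map ψ := ⟨x, Subgroup.mem_subgroupOf.2 hx, rfl⟩
      rw [hψQ] at hm
      exact hm
  have hφ₀range : φ₀.range = Q := by
    ext y
    constructor
    · rintro ⟨x, rfl⟩
      exact (hmemQ _).2 ⟨⟨x, (le_sup_right : Q ≤ P ⊔ Q) x.2⟩, x.2, (hφ₀apply x x.2).symm⟩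
    · intro hy
      obtain ⟨x, hx, rfl⟩ := (hmemQ y).1 hy
      exact ⟨⟨x, hx⟩, hφ₀apply _ hx⟩
  obtain ⟨α₀, hα₀⟩ : ∃ α₀ : MulAut Q, ∀ x : Q, ((α₀ x : Q) : Ω) = φ₀ x :=
    ⟨isoOfInj φ₀ (F.injective_of_mem hφ₀) hφ₀range, fun x => rfl⟩
  have hα₀F : α₀ ∈ F.autGroup Q := by
    rw [mem_autGroup_iff F hQS]
    exact mem_of_eq F hφ₀ (fun x => hα₀ x)
  obtain ⟨α', hα', hext⟩ := hQrec.2 Q φ₀ hφ₀ hφ₀range
  have hQN : Q ≤ extender S Q φ₀ := le_extender F hφ₀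
  have hconjB : ∀ (r : Ω) (hrN : r ∈ Subgroup.normalizer (Q : Set Ω)),
      Q.normalizerMonoidHom ⟨r, hrN⟩ ∈ B →
      ∃ h ∈ S, ∀ (x : Q) (hx : r * (x : Ω) * r⁻¹ ∈ Q),
        φ₀ ⟨r * x * r⁻¹, hx⟩ = h * φ₀ x * h⁻¹ := by
    intro r hrN hrB
    obtain ⟨h, hh, hheq⟩ := mem_autInducedBy_iff.1 (hBS (hBn α₀ hα₀F _ hrB))
    refine ⟨h, hh, fun x hx => ?_⟩
    have h1 := hheq (α₀ x)
    have h2 : (α₀ * Q.normalizerMonoidHom ⟨r, hrN⟩ * α₀⁻¹) (α₀ x) = α₀ ⟨r * x * r⁻¹, hx⟩ :=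
      congrArg (fun y => α₀ (Q.normalizerMonoidHom ⟨r, hrN⟩ y)) (MulAut.inv_apply_self _ α₀ x)
    rw [h2, hα₀, hα₀] at h1
    exact h1
  have hRN : coreLift F p Q ≤ extender S Q φ₀ := by
    intro r hr
    obtain ⟨hrS, hrN, hrB⟩ := (hmemR r).1 hr
    obtain ⟨h, hh, hheq⟩ := hconjB r hrN hrB
    exact mem_extender_iff.2 ⟨hrS, hrN, h, hh, hheq⟩
  have hPQN : P ⊔ Q ≤ extender S Q φ₀ := sup_le (hPR.trans hRN) hQN
  obtain ⟨α'', hα''def⟩ : ∃ α'' : ↥(P ⊔ Q) →* Ω,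
      α'' = α'.comp (Subgroup.inclusion hPQN) := ⟨_, rfl⟩
  have hα'' : α'' ∈ F.Hom (P ⊔ Q) := by
    rw [hα''def]
    exact restrict_mem F hα' hPQN (fun x => rfl)
  have hα''apply : ∀ x : ↥(P ⊔ Q), α'' x = α' ⟨(x : Ω), hPQN x.2⟩ := by
    intro x
    subst hα''def
    rfl
  have hagree : ∀ x : ↥(P ⊔ Q), (x : Ω) ∈ Q → α'' x = ψ x := by
    intro x hx
    rw [hα''apply]
    exact (hext (x : Ω) hx (hPQN x.2)).trans (hφ₀apply (x : Ω) hx)
  have hnormPQ : ∀ g ∈ P ⊔ Q, ∀ u ∈ Q, g * u * g⁻¹ ∈ Q := by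
    intro g hg u hu
    have hgS : g ∈ S := (sup_le (hPR.trans hRS) hQS) hg
    exact stronglyClosed_conj_mem F hQsc hgS hu
  obtain ⟨z, hzQ, hzC, hz⟩ := centric_unique_normal p hS F hF (le_sup_right : Q ≤ P ⊔ Q) hQc
    hnormPQ hα'' hψ hagree
  have hzS : (z : Ω) ∈ S := hQS hzQ
  have hconjR : ∀ x : ↥(coreLift F p Q),
      conjHom (coreLift F p Q) (z : Ω) x ∈ extender S Q φ₀ := by
    intro x
    exact hRN (hRconj (z : Ω) hzS x x.2)
  have hα'R : ∀ (r : Ω) (hr : r ∈ coreLift F p Q) (hrE : r ∈ extender S Q φ₀),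
      α' ⟨r, hrE⟩ ∈ coreLift F p Q := by
    intro r hr hrE
    obtain ⟨hrS, hrN, hrB⟩ := (hmemR r).1 hr
    have hvS : α' ⟨r, hrE⟩ ∈ S := (F.le_of_mem hα').2 _
    have hvN := hnorm _ hvS
    refine (hmemR _).2 ⟨hvS, hvN, ?_⟩
    have e : Q.normalizerMonoidHom ⟨α' ⟨r, hrE⟩, hvN⟩ =
        α₀ * Q.normalizerMonoidHom ⟨r, hrN⟩ * α₀⁻¹ := by
      apply MulEquiv.ext
      intro y
      apply Subtype.ext
      obtain ⟨x, hx⟩ : ∃ x : Q, x = α₀⁻¹ y := ⟨_, rfl⟩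
      have hy : α₀ x = y := by rw [hx]; exact MulAut.apply_inv_self _ α₀ y
      show α' ⟨r, hrE⟩ * (y : Ω) * (α' ⟨r, hrE⟩)⁻¹ =
        ((α₀ (Q.normalizerMonoidHom ⟨r, hrN⟩ (α₀⁻¹ y)) : Q) : Ω)
      rw [← hx, hα₀]
      have hxr : r * (x : Ω) * r⁻¹ ∈ Q := (Q.normalizerMonoidHom ⟨r, hrN⟩ x).2
      have h1 : φ₀ (Q.normalizerMonoidHom ⟨r, hrN⟩ x) =
          α' ⟨r * (x : Ω) * r⁻¹, hQN hxr⟩ := (hext _ hxr (hQN hxr)).symm
      have h2 : (y : Ω) = α' ⟨(x : Ω), hQN x.2⟩ := by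
        rw [← hy, hα₀]
        exact (hext _ x.2 (hQN x.2)).symm
      have h3 : (⟨r * (x : Ω) * r⁻¹, hQN hxr⟩ : extender S Q φ₀) =
          ⟨r, hrE⟩ * ⟨(x : Ω), hQN x.2⟩ * ⟨r, hrE⟩⁻¹ := Subtype.ext rfl
      rw [h1, h3, map_mul, map_mul, map_inv, ← h2]
    rw [e]
    exact hBn α₀ hα₀F _ hrB
  obtain ⟨θ, hθdef⟩ : ∃ θ : ↥(coreLift F p Q) →* Ω,
      θ = α'.comp ((conjHom (coreLift F p Q) (z : Ω)).codRestrict (extender S Q φ₀) hconjR) :=
    ⟨_, rfl⟩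
  have hθF : θ ∈ F.Hom (coreLift F p Q) := by
    rw [hθdef]
    exact F.comp_mem (F.conj_mem hRS hzS) hα' hconjR
  have hθapply : ∀ x : ↥(coreLift F p Q),
      θ x = α' ⟨(z : Ω) * x * (z : Ω)⁻¹, hconjR x⟩ := by
    intro x
    subst hθdef
    rfl
  have hθR : ∀ x : ↥(coreLift F p Q), θ x ∈ coreLift F p Q := by
    intro x
    rw [hθapply]
    exact hα'R _ (hRconj (z : Ω) hzS x x.2) _
  have hfinR : Finite ↥(coreLift F p Q) := finite_of_le hRS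
  have hθrange : θ.range = coreLift F p Q := by
    apply Subgroup.eq_of_le_of_card_ge
    · rintro _ ⟨x, rfl⟩
      exact hθR x
    · exact le_of_eq (Nat.card_congr (MonoidHom.ofInjective (F.injective_of_mem hθF)).toEquiv)
  refine ⟨isoOfInj θ (F.injective_of_mem hθF) hθrange, ?_, fun x => ?_⟩
  · rw [mem_autGroup_iff F hRS]
    exact mem_of_eq F hθF (fun _ => rfl)
  · have h1 := hz (Subgroup.inclusion (le_sup_left : P ≤ P ⊔ Q) x)
    rw [hψP x, hα''apply] at h1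
    show θ (Subgroup.inclusion hPR x) = φ x
    rw [hθapply, h1]
    rfl

end CoreLift

section QuotCentral

variable {L : Type*} [Group L]

theorem quot_central_stronglyClosed (T Z : Subgroup L) (hZ : Z ≤ Subgroup.center L) :
    (groupFusionSystem T).StronglyClosed (Z ⊓ T) := by
  refine ⟨inf_le_right, fun R hR φ hφ x => ?_⟩
  obtain ⟨-, -, g, hg⟩ := hφ
  have hx : (x : L) ∈ Z ⊓ T := hR x.2
  have hc : (x : L) ∈ Subgroup.center L := hZ (Subgroup.mem_inf.1 hx).1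
  have e : φ x = x := by
    rw [hg x]
    have h := Subgroup.mem_center_iff.1 hc g
    rw [h, mul_inv_cancel_right]
  rw [e]
  exact hx

theorem normal_map_quot [Finite L] (p : ℕ) [Fact p.Prime] (T : Sylow p L) (Z : Subgroup L)
    [Z.Normal] {R : Subgroup L} (hR : (groupFusionSystem (T : Subgroup L)).IsNormal R) :
    (groupFusionSystem ((T : Subgroup L).map (QuotientGroup.mk' Z))).IsNormal
      (R.map (QuotientGroup.mk' Z)) := by
  refine ⟨Subgroup.map_mono hR.1, fun Pb φb hφb => ?_⟩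
  obtain ⟨hPb, hφbT, γ, hγ⟩ := hφb
  obtain ⟨P, hPdef⟩ : ∃ P : Subgroup L,
      P = (T : Subgroup L) ⊓ Pb.comap (QuotientGroup.mk' Z) := ⟨_, rfl⟩
  have hPT : P ≤ (T : Subgroup L) := by rw [hPdef]; exact inf_le_left
  have hPmap : ∀ x ∈ P, (QuotientGroup.mk' Z) x ∈ Pb := by
    intro x hx
    rw [hPdef] at hx
    exact (Subgroup.mem_inf.1 hx).2
  have hPsurj : ∀ y ∈ Pb, ∃ x ∈ P, (QuotientGroup.mk' Z) x = y := by
    intro y hy
    obtain ⟨t, ht, rfl⟩ := hPb hy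
    exact ⟨t, by rw [hPdef]; exact Subgroup.mem_inf.2 ⟨ht, hy⟩, rfl⟩
  have hγ' : ∀ x ∈ P, γ * QuotientGroup.mk x * γ⁻¹ ∈
      ((T : Subgroup L).map (QuotientGroup.mk' Z)) := by
    intro x hx
    have h := hφbT ⟨(QuotientGroup.mk' Z) x, hPmap x hx⟩
    rw [hγ] at h
    exact h
  obtain ⟨g, hg⟩ := fusion_lifts_quot Z T P hPT γ hγ'
  have hcg : conjHom P g ∈ (groupFusionSystem (T : Subgroup L)).Hom P :=
    ⟨hPT, fun x => (hg x x.2).1, g, fun x => rfl⟩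
  obtain ⟨ψ, hψ, hψP, hψR⟩ := hR.2 P (conjHom P g) hcg
  obtain ⟨hPRT, hψT, h, hh⟩ := hψ
  have hsup : ∀ y ∈ Pb ⊔ R.map (QuotientGroup.mk' Z),
      ∃ x ∈ P ⊔ R, (QuotientGroup.mk' Z) x = y := by
    intro y hy
    have hle : Pb ⊔ R.map (QuotientGroup.mk' Z) ≤ (P ⊔ R).map (QuotientGroup.mk' Z) := by
      apply sup_le
      · intro y hy
        obtain ⟨x, hx, rfl⟩ := hPsurj y hy
        exact ⟨x, (le_sup_left : P ≤ P ⊔ R) hx, rfl⟩
      · exact Subgroup.map_mono le_sup_right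
    exact hle hy
  have hRmem : ∀ r : L, r ∈ R ↔ ∃ y₀ : ↥(P ⊔ R), (y₀ : L) ∈ R ∧ h * (y₀ : L) * h⁻¹ = r := by
    intro r
    constructor
    · intro hr
      have hr' : r ∈ (R.subgroupOf (P ⊔ R)).map ψ := by rw [hψR]; exact hr
      obtain ⟨y₀, hy₀, rfl⟩ := hr'
      exact ⟨y₀, Subgroup.mem_subgroupOf.1 hy₀, (hh y₀).symm⟩
    · rintro ⟨y₀, hy₀, rfl⟩
      have hm : ψ y₀ ∈ (R.subgroupOf (P ⊔ R)).map ψ :=
        ⟨y₀, Subgroup.mem_subgroupOf.2 hy₀, rfl⟩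
      rw [hψR, hh] at hm
      exact hm
  refine ⟨conjHom (Pb ⊔ R.map (QuotientGroup.mk' Z)) ((QuotientGroup.mk' Z) h),
    ⟨sup_le hPb (Subgroup.map_mono hR.1), ?_, (QuotientGroup.mk' Z) h, fun x => rfl⟩, ?_, ?_⟩
  · intro y
    obtain ⟨x, hx, hxy⟩ := hsup y y.2
    show (QuotientGroup.mk' Z) h * (y : L ⧸ Z) * ((QuotientGroup.mk' Z) h)⁻¹ ∈ _
    rw [← hxy, ← map_inv, ← map_mul, ← map_mul]
    refine ⟨h * x * h⁻¹, ?_, rfl⟩
    have h3 := hψT ⟨x, hx⟩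
    rw [hh] at h3
    exact h3
  · intro y
    obtain ⟨x, hx, hxy⟩ := hPsurj y y.2
    show (QuotientGroup.mk' Z) h * (y : L ⧸ Z) * ((QuotientGroup.mk' Z) h)⁻¹ = φb y
    rw [hγ y, ← hxy, ← map_inv, ← map_mul, ← map_mul]
    have h1 := hψP ⟨x, hx⟩
    rw [hh] at h1
    have h2 : h * x * h⁻¹ = g * x * g⁻¹ := h1
    rw [h2]
    exact (hg x hx).2
  · ext w
    constructor
    · rintro ⟨y, hy, rfl⟩
      obtain ⟨r, hr, hry⟩ := Subgroup.mem_subgroupOf.1 hy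
      have hr2 : h * r * h⁻¹ ∈ R :=
        (hRmem _).2 ⟨⟨r, (le_sup_right : R ≤ P ⊔ R) hr⟩, hr, rfl⟩
      refine ⟨h * r * h⁻¹, hr2, ?_⟩
      show (QuotientGroup.mk' Z) (h * r * h⁻¹) =
        (QuotientGroup.mk' Z) h * (y : L ⧸ Z) * ((QuotientGroup.mk' Z) h)⁻¹
      rw [← hry, map_mul, map_mul, map_inv]
    · rintro ⟨r, hr, rfl⟩
      obtain ⟨y₀, hy₀, hyr⟩ := (hRmem r).1 hr
      have hmem : (QuotientGroup.mk' Z) (y₀ : L) ∈ R.map (QuotientGroup.mk' Z) :=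
        ⟨_, hy₀, rfl⟩
      refine ⟨⟨(QuotientGroup.mk' Z) (y₀ : L),
        (le_sup_right : R.map (QuotientGroup.mk' Z) ≤ Pb ⊔ R.map (QuotientGroup.mk' Z)) hmem⟩,
        Subgroup.mem_subgroupOf.2 hmem, ?_⟩
      show (QuotientGroup.mk' Z) h * (QuotientGroup.mk' Z) (y₀ : L) *
        ((QuotientGroup.mk' Z) h)⁻¹ = (QuotientGroup.mk' Z) r
      rw [← hyr, map_mul, map_mul, map_inv]

theorem constrained_quot_central [Finite L] (p : ℕ) [Fact p.Prime] (T : Sylow p L)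
    (Z : Subgroup L) [Z.Normal] (hZ : Z ≤ Subgroup.center L)
    (hF : (groupFusionSystem (T : Subgroup L)).IsConstrained p) :
    (groupFusionSystem ((T : Subgroup L).map (QuotientGroup.mk' Z))).IsConstrained p := by
  obtain ⟨hsat, Q, hQn, hQc⟩ := hF
  have hTp : IsPGroup p (T : Subgroup L) := T.isPGroup'
  have hfinT : Finite (T : Subgroup L) := inferInstance
  obtain ⟨hRn, hQR⟩ := coreLift_normal p hTp (groupFusionSystem (T : Subgroup L)) hsat hQn hQc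
  obtain ⟨R, hRdef⟩ : ∃ R : Subgroup L,
      R = coreLift (groupFusionSystem (T : Subgroup L)) p Q := ⟨_, rfl⟩
  rw [← hRdef] at hRn hQR
  have hsatb : (groupFusionSystem
      ((T : Subgroup L).map (QuotientGroup.mk' Z))).IsSaturated p := by
    have h := groupFusion_saturated p (T.mapSurjective (QuotientGroup.mk'_surjective Z))
    rw [Sylow.coe_mapSurjective] at h
    exact h
  have hRnb := normal_map_quot p T Z hRn
  have hfinTb : Finite ↥((T : Subgroup L).map (QuotientGroup.mk' Z)) := inferInstance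
  refine ⟨hsatb, R.map (QuotientGroup.mk' Z), hRnb, ⟨hRnb.1, fun R' hconj => ?_⟩⟩
  have hwc := weaklyClosed_of_stronglyClosed _ (stronglyClosed_of_normal _ hRnb)
  obtain ⟨φ, hφ, hrange⟩ := hconj
  have hR' : R' = R.map (QuotientGroup.mk' Z) := by
    rw [← hrange]
    exact hwc.2 φ hφ
  rw [hR']
  intro xb hxb
  obtain ⟨hxbT, hxbC⟩ := mem_centralizerIn.1 hxb
  obtain ⟨d, hdT, rfl⟩ := hxbT
  refine ⟨d, ?_, rfl⟩
  rw [hRdef]
  have hQT : Q ≤ (T : Subgroup L) := hQn.1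
  have hQsc := stronglyClosed_of_normal _ hQn
  have hdN : d ∈ Subgroup.normalizer (Q : Set L) :=
    mem_normalizer_of_stronglyClosed _ hQsc hdT
  have hcomm : ∀ y ∈ Q, y⁻¹ * (d * y * d⁻¹) ∈ Z := by
    intro y hy
    have h1 := hxbC ((QuotientGroup.mk' Z) y) ⟨y, hQR hy, rfl⟩
    apply (QuotientGroup.eq_one_iff _).1
    show (QuotientGroup.mk' Z) (y⁻¹ * (d * y * d⁻¹)) = 1
    rw [map_mul, map_mul, map_mul, map_inv, map_inv, ← h1]
    group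
  refine mem_coreLift_of_stab p hTp _ hQT (quot_central_stronglyClosed (T : Subgroup L) Z hZ)
    hdT hdN ?_ ?_
  · intro y hy hyZ
    have hc : y ∈ Subgroup.center L := hZ (Subgroup.mem_inf.1 hyZ).1
    have h := Subgroup.mem_center_iff.1 hc d
    rw [h, mul_inv_cancel_right]
  · intro y hy
    refine Subgroup.mem_inf.2 ⟨hcomm y hy, ?_⟩
    have hyT := hQT hy
    exact (T : Subgroup L).mul_mem ((T : Subgroup L).inv_mem hyT)
      ((T : Subgroup L).mul_mem ((T : Subgroup L).mul_mem hdT hyT)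
        ((T : Subgroup L).inv_mem hdT))

end QuotCentral

theorem subnormal_sylow {G : Type*} [Group G] [Finite G] (p : ℕ) [Fact p.Prime] (S : Sylow p G)
    (H : Subgroup G) (hH : H.IsSubnormal) :
    ∃ R : Sylow p H, (R : Subgroup H) = (S : Subgroup G).subgroupOf H := by
  have key : ∃ R : Sylow p H, (R : Subgroup H) = ((S : Subgroup G) ⊓ H).subgroupOf H := by
    induction hH with
    | top =>
      refine sylowIn_of_card_le inf_le_right (S.2.to_le inf_le_left) ?_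
      intro H' hH' hle _
      have h1 : (S : Subgroup G) ≤ H' := fun x hx => hle ⟨hx, Subgroup.mem_top x⟩
      have h2 : H' = (S : Subgroup G) := S.3 hH' h1
      rw [h2]
      exact Subgroup.card_le_of_le (le_inf le_rfl le_top)
    | step H K hHK hK hN ih =>
      exact sylowIn_normal_step _ H K hHK hN S.2 ih
  obtain ⟨R, hR⟩ := key
  rw [Subgroup.inf_subgroupOf_right] at hR
  exact ⟨R, hR⟩

theorem component_quot_constrained {G : Type*} [Group G] [Finite G] (p : ℕ) [Fact p.Prime]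
    (S : Sylow p G) (hF : (groupFusionSystem (S : Subgroup G)).IsConstrained p)
    (L : Subgroup G) (hL : L.IsSubnormal) :
    (groupFusionSystem (((S : Subgroup G).subgroupOf L).map
      (QuotientGroup.mk' (Subgroup.center L)))).IsConstrained p := by
  obtain ⟨R, hR⟩ := subnormal_sylow p S L hL
  have hc := subnormal_group_constrained p S hF L hL
  rw [← hR] at hc ⊢
  exact constrained_quot_central p R (Subgroup.center L) le_rfl hc

end Cfsg.Agent.Helper26
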