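import Cfsg.Agent.Helper27.RealNormal
import Cfsg.Agent.Helper27.ConstrainedSub
import Cfsg.Agent.Helper26.GroupSaturated
import Cfsg.Agent.Helper26.FusionAlperin

set_option autoImplicit false

namespace Cfsg.Agent.Helper26

open Cfsg Cfsg.FusionSystem

theorem constrained_congr {Ω : Type*} [Group Ω] {S₁ S₂ : Subgroup Ω} (h : S₁ = S₂)
    (F₁ : FusionSystem S₁) (F₂ : FusionSystem S₂) (hH : ∀ P, F₁.Hom P = F₂.Hom P) (p : ℕ)
    (hc : F₁.IsConstrained p) : F₂.IsConstrained p := by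
  subst h
  have e : F₁ = F₂ := fusionSystem_ext hH
  subst e
  exact hc

theorem subgroupSys_top_constrained {G : Type*} [Group G] (S : Subgroup G) (p : ℕ)
    (hF : (groupFusionSystem S).IsConstrained p) :
    (fusionSystemOfSubgroup ⊤ (S ⊓ ⊤) inf_le_right).IsConstrained p := by
  refine constrained_congr (inf_top_eq S).symm _ _ (fun P => ?_) p hF
  ext φ
  constructor
  · rintro ⟨hP, hv, g, hg⟩
    exact ⟨hP.trans (le_inf le_rfl le_top), fun x => ⟨hv x, Subgroup.mem_top _⟩, g,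
      Subgroup.mem_top _, hg⟩
  · rintro ⟨hP, hv, g, -, hg⟩
    exact ⟨hP.trans inf_le_left, fun x => (hv x).1, g, hg⟩

theorem subgroupSys_realized {G : Type*} [Group G] (K T : Subgroup G) (hTK : T ≤ K) :
    (fusionSystemOfSubgroup K T hTK).IsRealizedBy (Subgroup.inclusion hTK) := by
  refine ⟨Subgroup.inclusion_injective hTK, fun P hP φ hφ => ?_⟩
  constructor
  · rintro ⟨_, _, g, hg, h⟩
    exact ⟨⟨g, hg⟩, fun x => Subtype.ext (h x)⟩
  · rintro ⟨g, h⟩
    exact ⟨hP, hφ, g, g.2, fun x => congrArg Subtype.val (h x)⟩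

theorem sylowIn_normal_step {G : Type*} [Group G] [Finite G] {p : ℕ} [Fact p.Prime]
    (S H K : Subgroup G) (hHK : H ≤ K) (hN : (H.subgroupOf K).Normal) (hSp : IsPGroup p S)
    (hK : ∃ R : Sylow p K, (R : Subgroup K) = (S ⊓ K).subgroupOf K) :
    ∃ R : Sylow p H, (R : Subgroup H) = (S ⊓ H).subgroupOf H := by
  refine sylowIn_of_card_le inf_le_right (hSp.to_le inf_le_left) ?_
  intro H' hH' _ hH'H
  obtain ⟨k, hk, hkle⟩ := exists_conj_le_of_sylowIn hK hH' (hH'H.trans hHK)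
  have hle : H'.map (MulAut.conj k).toMonoidHom ≤ S ⊓ H := by
    rintro _ ⟨x, hx, rfl⟩
    refine ⟨(hkle ⟨x, hx, rfl⟩).1, ?_⟩
    have hxH : x ∈ H := hH'H hx
    have h1 : (⟨x, hHK hxH⟩ : K) ∈ H.subgroupOf K := Subgroup.mem_subgroupOf.2 hxH
    have h2 := hN.conj_mem ⟨x, hHK hxH⟩ h1 ⟨k, hk⟩
    exact Subgroup.mem_subgroupOf.1 h2
  calc Nat.card H' = Nat.card (H'.map (MulAut.conj k).toMonoidHom) := (card_map_conj H' k).symm
    _ ≤ Nat.card (S ⊓ H : Subgroup G) := Subgroup.card_le_of_le hle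

theorem normSys_hom_eq {G : Type*} [Group G] (S H K : Subgroup G) (hHK : H ≤ K)
    [hN : (H.subgroupOf K).Normal]
    (hι : (fusionSystemOfSubgroup K (S ⊓ K) inf_le_right).IsRealizedBy
      (Subgroup.inclusion (inf_le_right : S ⊓ K ≤ K))) :
    preimageAlong (Subgroup.inclusion (inf_le_right : S ⊓ K ≤ K)) (H.subgroupOf K) = S ⊓ H ∧
    ∀ P : Subgroup G, (Helper27.normSys (fusionSystemOfSubgroup K (S ⊓ K) inf_le_right)
      (Subgroup.inclusion (inf_le_right : S ⊓ K ≤ K)) hι (H.subgroupOf K)).Hom P =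
        (fusionSystemOfSubgroup H (S ⊓ H) inf_le_right).Hom P := by
  have hpre : ∀ x : G, x ∈ preimageAlong (Subgroup.inclusion (inf_le_right : S ⊓ K ≤ K))
      (H.subgroupOf K) ↔ x ∈ S ⊓ H := by
    intro x
    rw [mem_preimageAlong]
    constructor
    · rintro ⟨hx, h⟩
      exact ⟨hx.1, Subgroup.mem_subgroupOf.1 h⟩
    · rintro ⟨hxS, hxH⟩
      exact ⟨⟨hxS, hHK hxH⟩, Subgroup.mem_subgroupOf.2 hxH⟩
  refine ⟨Subgroup.ext hpre, fun P => ?_⟩
  ext φ
  constructor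
  · rintro ⟨hP, hv, n, hn, h⟩
    have hP' : P ≤ S ⊓ H := fun x hx => (hpre x).1 (hP hx)
    have hv' : ∀ x : P, φ x ∈ S ⊓ H := fun x => (hpre _).1 (hv x)
    refine ⟨hP', hv', (n : G), Subgroup.mem_subgroupOf.1 hn, fun x => ?_⟩
    have hx1 : (x : G) ∈ S ⊓ K := ⟨(hP' x.2).1, hHK (hP' x.2).2⟩
    have hx2 : φ x ∈ S ⊓ K := ⟨(hv' x).1, hHK (hv' x).2⟩
    have h3 := h x
    rw [Helper27.ext1_of_mem _ hx2, Helper27.ext1_of_mem _ hx1] at h3
    exact congrArg Subtype.val h3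
  · rintro ⟨hP, hv, g, hg, h⟩
    have hP' : P ≤ preimageAlong (Subgroup.inclusion (inf_le_right : S ⊓ K ≤ K))
        (H.subgroupOf K) := fun x hx => (hpre x).2 (hP hx)
    refine ⟨hP', fun x => (hpre _).2 (hv x), ⟨g, hHK hg⟩, Subgroup.mem_subgroupOf.2 hg,
      fun x => ?_⟩
    have hx1 : (x : G) ∈ S ⊓ K := ⟨(hP x.2).1, hHK (hP x.2).2⟩
    have hx2 : φ x ∈ S ⊓ K := ⟨(hv x).1, hHK (hv x).2⟩
    rw [Helper27.ext1_of_mem _ hx2, Helper27.ext1_of_mem _ hx1]
    exact Subtype.ext (h x)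

theorem subgroupSys_step {G : Type*} [Group G] [Finite G] (p : ℕ) [Fact p.Prime]
    (S H K : Subgroup G) (hSp : IsPGroup p S) (hHK : H ≤ K) (hN : (H.subgroupOf K).Normal)
    (hK : ∃ R : Sylow p K, (R : Subgroup K) = (S ⊓ K).subgroupOf K)
    (hc : (fusionSystemOfSubgroup K (S ⊓ K) inf_le_right).IsConstrained p) :
    (fusionSystemOfSubgroup H (S ⊓ H) inf_le_right).IsConstrained p := by
  have hι := subgroupSys_realized K (S ⊓ K) inf_le_right
  obtain ⟨R, hR⟩ := hK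
  have hRr : (R : Subgroup K) = (Subgroup.inclusion (inf_le_right : S ⊓ K ≤ K)).range := by
    rw [hR, Helper27.range_inclusion_eq]
  have hfin : Finite ↥(S ⊓ K) := inferInstance
  have hnorm := Helper27.normSys_normalIn p (fusionSystemOfSubgroup K (S ⊓ K) inf_le_right) hc.1
    (Subgroup.inclusion (inf_le_right : S ⊓ K ≤ K)) hι R hRr (H.subgroupOf K)
  have hcons := Helper27.normal_constrained p (hSp.to_le inf_le_left)
    (fusionSystemOfSubgroup K (S ⊓ K) inf_le_right) hc _ hnorm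
  obtain ⟨h1, h2⟩ := normSys_hom_eq S H K hHK hι
  exact constrained_congr h1 _ _ h2 p hcons

theorem groupSys_of_subgroupSys {G : Type*} [Group G] (H T : Subgroup G) (hTH : T ≤ H)
    (Q : Subgroup G) (hQn : (fusionSystemOfSubgroup H T hTH).IsNormal Q)
    (hQc : (fusionSystemOfSubgroup H T hTH).IsCentric Q) :
    (groupFusionSystem (T.subgroupOf H)).IsNormal (Q.subgroupOf H) ∧
    (groupFusionSystem (T.subgroupOf H)).IsCentric (Q.subgroupOf H) := by
  have hQT : Q ≤ T := hQn.1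
  constructor
  · refine ⟨fun x hx => Subgroup.mem_subgroupOf.2 (hQT (Subgroup.mem_subgroupOf.1 hx)), ?_⟩
    rintro P' φ' ⟨hP', hv', g, hg⟩
    obtain ⟨P, hPdef⟩ : ∃ P : Subgroup G, P = P'.map H.subtype := ⟨_, rfl⟩
    have hPT : P ≤ T := by
      rw [hPdef]
      rintro _ ⟨x, hx, rfl⟩
      exact Subgroup.mem_subgroupOf.1 (hP' hx)
    have hPmem : ∀ x : G, x ∈ P → ∃ h : x ∈ H, (⟨x, h⟩ : H) ∈ P' := by
      intro x hx
      rw [hPdef] at hx
      obtain ⟨y, hy, rfl⟩ := hx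
      exact ⟨y.2, hy⟩
    have hφ : conjHom P (g : G) ∈ (fusionSystemOfSubgroup H T hTH).Hom P := by
      refine ⟨hPT, fun x => ?_, (g : G), g.2, fun x => rfl⟩
      obtain ⟨hxH, hxP'⟩ := hPmem x x.2
      have h1 := hv' ⟨⟨x, hxH⟩, hxP'⟩
      rw [hg] at h1
      exact Subgroup.mem_subgroupOf.1 h1
    obtain ⟨ψ, ⟨hPQ, hψv, k, hk, hψk⟩, hext, hmap⟩ := hQn.2 P (conjHom P (g : G)) hφ
    have hkP : ∀ x ∈ P, k * x * k⁻¹ = (g : G) * x * (g : G)⁻¹ := by
      intro x hx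
      have h1 := hext ⟨x, hx⟩
      rw [hψk] at h1
      exact h1
    have hkQ : ∀ q ∈ Q, k * q * k⁻¹ ∈ Q := by
      intro q hq
      have h1 : ψ ⟨q, Subgroup.mem_sup_right hq⟩ ∈ (Q.subgroupOf (P ⊔ Q)).map ψ :=
        ⟨⟨q, Subgroup.mem_sup_right hq⟩, Subgroup.mem_subgroupOf.2 hq, rfl⟩
      rw [hmap, hψk] at h1
      exact h1
    have hkQ' : ∀ q ∈ Q, ∃ q' ∈ Q, k * q' * k⁻¹ = q := by
      intro q hq
      have h1 : q ∈ (Q.subgroupOf (P ⊔ Q)).map ψ := by rw [hmap]; exact hq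
      obtain ⟨y, hy, rfl⟩ := h1
      exact ⟨(y : G), Subgroup.mem_subgroupOf.1 hy, (hψk y).symm⟩
    have hsup : ∀ y : H, y ∈ P' ⊔ Q.subgroupOf H → (y : G) ∈ P ⊔ Q := by
      intro y hy
      have h1 : (P' ⊔ Q.subgroupOf H).map H.subtype ≤ P ⊔ Q := by
        rw [Subgroup.map_sup]
        refine sup_le (by rw [hPdef]; exact le_sup_left) ?_
        rintro _ ⟨z, hz, rfl⟩
        exact Subgroup.mem_sup_right (Subgroup.mem_subgroupOf.1 hz)
      exact h1 ⟨y, hy, rfl⟩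
    refine ⟨conjHom (P' ⊔ Q.subgroupOf H) (⟨k, hk⟩ : H), ⟨?_, ?_, ⟨k, hk⟩, fun x => rfl⟩, ?_, ?_⟩
    · intro y hy
      exact Subgroup.mem_subgroupOf.2 (hPQ (hsup y hy))
    · intro y
      have h1 := hψv ⟨((y : H) : G), hsup y.1 y.2⟩
      rw [hψk] at h1
      exact Subgroup.mem_subgroupOf.2 h1
    · intro x
      have hx : ((x : H) : G) ∈ P := by rw [hPdef]; exact ⟨(x : H), x.2, rfl⟩
      have h1 : φ' x = g * (x : H) * g⁻¹ := hg x
      rw [h1]
      exact Subtype.ext (hkP _ hx)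
    · ext y
      constructor
      · rintro ⟨z, hz, rfl⟩
        have hzQ : ((z : H) : G) ∈ Q := Subgroup.mem_subgroupOf.1 (Subgroup.mem_subgroupOf.1 hz)
        exact Subgroup.mem_subgroupOf.2 (hkQ _ hzQ)
      · intro hy
        obtain ⟨q', hq', hq'e⟩ := hkQ' (y : G) (Subgroup.mem_subgroupOf.1 hy)
        have hq'H : q' ∈ H := hTH (hQT hq')
        have hq'Q' : (⟨q', hq'H⟩ : H) ∈ Q.subgroupOf H := Subgroup.mem_subgroupOf.2 hq'
        refine ⟨⟨⟨q', hq'H⟩, Subgroup.mem_sup_right hq'Q'⟩, Subgroup.mem_subgroupOf.2 hq'Q', ?_⟩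
        exact Subtype.ext hq'e
  · refine ⟨fun x hx => Subgroup.mem_subgroupOf.2 (hQT (Subgroup.mem_subgroupOf.1 hx)), ?_⟩
    rintro R' ⟨φ', ⟨-, hv', g, hg⟩, rfl⟩
    obtain ⟨R, hRdef⟩ : ∃ R : Subgroup G, R = φ'.range.map H.subtype := ⟨_, rfl⟩
    have hφ : conjHom Q (g : G) ∈ (fusionSystemOfSubgroup H T hTH).Hom Q := by
      refine ⟨hQT, fun x => ?_, (g : G), g.2, fun x => rfl⟩
      have hxH : (x : G) ∈ H := hTH (hQT x.2)
      have h1 := hv' ⟨⟨x, hxH⟩, Subgroup.mem_subgroupOf.2 x.2⟩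
      rw [hg] at h1
      exact Subgroup.mem_subgroupOf.1 h1
    have hconj : (fusionSystemOfSubgroup H T hTH).IsConj Q R := by
      refine ⟨conjHom Q (g : G), hφ, ?_⟩
      rw [hRdef]
      ext y
      constructor
      · rintro ⟨x, rfl⟩
        have hxH : (x : G) ∈ H := hTH (hQT x.2)
        refine ⟨φ' ⟨⟨x, hxH⟩, Subgroup.mem_subgroupOf.2 x.2⟩, ⟨_, rfl⟩, ?_⟩
        exact congrArg Subtype.val (hg ⟨⟨x, hxH⟩, Subgroup.mem_subgroupOf.2 x.2⟩)
      · rintro ⟨_, ⟨x, rfl⟩, rfl⟩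
        refine ⟨⟨((x : H) : G), Subgroup.mem_subgroupOf.1 x.2⟩, ?_⟩
        exact (congrArg Subtype.val (hg x)).symm
    have hcent := hQc.2 R hconj
    intro c hc
    obtain ⟨hcT, hcC⟩ := hc
    have h1 : ((c : H) : G) ∈ centralizerIn T R := by
      refine ⟨Subgroup.mem_subgroupOf.1 hcT, Subgroup.mem_centralizer_iff.2 ?_⟩
      intro r hr
      rw [hRdef] at hr
      obtain ⟨r', hr', rfl⟩ := hr
      have h2 := Subgroup.mem_centralizer_iff.1 hcC r' hr'
      exact congrArg Subtype.val h2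
    have h2 := hcent h1
    rw [hRdef] at h2
    obtain ⟨r', hr', hr'e⟩ := h2
    have e : r' = c := Subtype.ext hr'e
    rw [← e]
    exact hr'

theorem subnormal_group_constrained {G : Type*} [Group G] [Finite G] (p : ℕ) [Fact p.Prime]
    (S : Sylow p G) (hF : (groupFusionSystem (S : Subgroup G)).IsConstrained p)
    (H : Subgroup G) (hH : H.IsSubnormal) :
    (groupFusionSystem ((S : Subgroup G).subgroupOf H)).IsConstrained p := by
  have key : (∃ R : Sylow p H, (R : Subgroup H) = ((S : Subgroup G) ⊓ H).subgroupOf H) ∧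
      (fusionSystemOfSubgroup H ((S : Subgroup G) ⊓ H) inf_le_right).IsConstrained p := by
    induction hH with
    | top =>
      refine ⟨sylowIn_of_card_le inf_le_right (S.2.to_le inf_le_left) ?_,
        subgroupSys_top_constrained _ p hF⟩
      intro H' hH' hle _
      have h1 : (S : Subgroup G) ≤ H' := fun x hx => hle ⟨hx, Subgroup.mem_top x⟩
      have h2 : H' = (S : Subgroup G) := S.3 hH' h1
      rw [h2]
      exact Subgroup.card_le_of_le (le_inf le_rfl le_top)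
    | step H K hHK hK hN ih =>
      exact ⟨sylowIn_normal_step _ H K hHK hN S.2 ih.1,
        subgroupSys_step p _ H K S.2 hHK hN ih.1 ih.2⟩
  obtain ⟨⟨R, hR⟩, hsat, Q, hQn, hQc⟩ := key
  rw [Subgroup.inf_subgroupOf_right] at hR
  have hsat' := groupFusion_saturated p R
  rw [hR] at hsat'
  have h2 := groupSys_of_subgroupSys H _ inf_le_right Q hQn hQc
  rw [Subgroup.inf_subgroupOf_right] at h2
  exact ⟨hsat', Q.subgroupOf H, h2.1, h2.2⟩

end Cfsg.Agent.Helper26
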